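import Mathlib
import Cfsg.Agent.Lib.W2.L34Facts

/-!
More numerical facts in the models `HM α β`.
-/

set_option autoImplicit false

namespace CfsgLib.W2.L34

open Subgroup HM

theorem pow_four {α β : Bool} {x : HM α β} (h : pr x = 1) : x * x * (x * x) = 1 := by
  obtain ⟨s, e⟩ := x
  obtain rfl : s = 1 := h
  revert α β e
  decide +kernel

theorem cent_v0 : ∀ (α β : Bool), (Finset.univ.filter fun y : HM α β => y * v0 = v0 * y).card <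
    (Finset.univ.filter fun y : HM α β => y ∈ T1).card := by decide +kernel

theorem basic : ∀ (α β : Bool), ((z0 : HM α β) * z0 = 1 ∧ (z0 : HM α β) ≠ 1 ∧
    (t0 : HM α β) * t0 = 1 ∧ (t0 : HM α β) ≠ 1 ∧ (t0 : HM α β) * z0 ≠ 1) ∧
    ((t0 : HM α β) * z0 * (t0 * z0) = 1 ∧ (t0 : HM α β) * v0 = v0 * t0 ∧
    (t0 : HM α β) * z0 * v0 = v0 * (t0 * z0) ∧ (v0 : HM α β) ≠ z0) ∧
    nf ((t0 : HM α β) * z0) = t0 ∧ (t0 : HM α β) * (t0 * z0) = z0 ∧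
    (t0 : HM α β) * z0 * t0 = z0 ∧ (z0 : HM α β) ∈ TM := by decide +kernel

theorem basic0 : ((v0 : H0) * v0 = 1 ∧ (u0 : H0) * u0 = 1 ∧ (m 1 0 : H0) * m 1 0 = 1 ∧
    (m 1 4 : H0) * m 1 4 = 1) ∧ ((u0 : H0) ≠ 1 ∧ (m 1 0 : H0) ≠ 1 ∧ (m 1 4 : H0) ≠ 1) ∧
    (nf (u0 : H0) = u0 ∧ nf (m 1 0 : H0) = m 1 0 ∧ nf (m 1 4 : H0) = m 1 4) ∧
    (nf (z0 * v0 : H0) = v0 ∧ nf (t0 * v0 : H0) = v0 ∧ nf (t0 * z0 * v0 : H0) = v0 ∧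
      nf (v0 : H0) = v0) ∧
    ((v0 : H0) = d0 * (m 11 0 * d0⁻¹ * (m 11 0)⁻¹) ∧ (d0 : H0) * d0 * (d0 * d0) = d0) ∧
    (m 1 0 : H0) * u0 * m 1 4 ∈ BM ∧ (m 1 0 : H0) ∈ TM ∧ (m 1 4 : H0) ∈ TM := by decide +kernel

end CfsgLib.W2.L34
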