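import Mathlib
import Cfsg.Agent.Lib.W2.L34Facts2
import Cfsg.Agent.Lib.W2.Tools
import Cfsg.Agent.Lib.Char.Burnside
import Cfsg.Agent.Lib.Core.Frattini

/-!
Fusion of involutions in a group with an involution centraliser `2^(1+4)_- . S₄`.
-/

set_option autoImplicit false

namespace CfsgLib.W2.L34

open Subgroup HM Cfsg CfsgLib.Tech

variable {G : Type*} [Group G] {α β : Bool} {ψ : HM α β →* G}

theorem isConj_nf (ψ : HM α β →* G) (x : HM α β) : IsConj (ψ x) (ψ (nf x)) :=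
  isConj_iff.2 ⟨ψ (wit x), by simp [nf]⟩

theorem isConj_of_nf (ψ : HM α β →* G) {x y : HM α β} (h : nf x = y) : IsConj (ψ x) (ψ y) :=
  h ▸ isConj_nf ψ x

theorem mem_TM {x : HM α β} (h : pr x = 1) : x ∈ TM := by
  rw [TM, mem_comap, h]; exact one_mem _

theorem pr_m (e : ℕ) : pr (m 0 e : HM α β) = 1 := rfl

theorem RM_le : (RM : Subgroup (HM α β)) ≤ BM ⊓ TM := fun x hx =>
  have := (by decide +kernel : ∀ s : SM, Nat.testBit 8454273 s.v → Nat.testBit 10066329 s.v ∧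
    Nat.testBit 12779715 s.v) _ hx.1
  ⟨⟨this.1, hx.2⟩, this.2⟩

attribute [local irreducible] nf wit n4 HM.m

namespace HD

theorem mem_map (h : HD ψ) {S : Subgroup (HM α β)} {k : HM α β} : ψ k ∈ S.map ψ ↔ k ∈ S :=
  mem_map_iff_mem h.inj

theorem card_map (h : HD ψ) (S : Subgroup (HM α β)) : Nat.card (S.map ψ) = Nat.card S :=
  card_map_of_injective h.inj

theorem mem_Cx (h : HD ψ) {g : G} : g ∈ Cx (ψ z0) ↔ ∃ k, ψ k = g := W2.mem_Cx.trans (h.cent g)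

theorem comm_iff (h : HD ψ) {a b : HM α β} : ψ a * ψ b = ψ b * ψ a ↔ a * b = b * a := by
  rw [← map_mul, ← map_mul, h.inj.eq_iff]

theorem ord (h : HD ψ) {a : HM α β} (h1 : a * a = 1) (h2 : a ≠ 1) : orderOf (ψ a) = 2 :=
  ord_two (by rw [← map_mul, h1, map_one]) ((map_ne_one_iff _ h.inj).2 h2)

theorem sq_of_isConj (h : HD ψ) {a b : HM α β} (e : IsConj (ψ a) (ψ b)) (h1 : a * a = 1) :
    b * b = 1 := by
  obtain ⟨g, e⟩ := isConj_iff.1 e
  apply h.inj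
  rw [map_mul, ← e, conj_mul, ← map_mul, h1]
  simp

theorem card_le (h : HD ψ) (g : G) {P Q : HM α β → Prop} [DecidablePred P] [DecidablePred Q]
    (hg : ∀ x, P x → ∃ y, Q y ∧ ψ y = g * ψ x * g⁻¹) :
    (Finset.univ.filter P).card ≤ (Finset.univ.filter Q).card := by
  choose! f h1 h2 using hg
  refine Finset.card_le_card_of_injOn f (fun x hx => by simpa using h1 x (by simpa using hx))
    fun x hx y hy e => h.inj ?_
  have := (h2 x (by simpa using hx)).symm.trans (e ▸ h2 y (by simpa using hy))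
  simpa using this

theorem card_Cx (h : HD ψ) : Nat.card (Cx (ψ z0)) = 768 := by
  have : Cx (ψ z0) = (⊤ : Subgroup (HM α β)).map ψ := by
    ext g; simp [h.mem_Cx]
  rw [this, h.card_map, card_top, HM.card_eq]

theorem pT (h : HD ψ) : IsPGroup 2 (TM.map ψ) :=
  IsPGroup.of_card (n := 8) (by rw [h.card_map, card_TM]; rfl)

theorem T_le (h : HD ψ) : TM.map ψ ≤ Cx (ψ z0) := by
  rintro _ ⟨k, -, rfl⟩
  exact h.mem_Cx.2 ⟨k, rfl⟩

variable [Finite G]

theorem sylT (h : HD ψ) : IsSylowIn 2 (TM.map ψ) ⊤ := by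
  have h1 : IsSylowIn 2 (TM.map ψ) (Cx (ψ z0)) := ⟨h.T_le, h.pT, by
    have := card_mul_relIndex' h.T_le
    rw [h.card_map, card_TM, h.card_Cx] at this
    omega⟩
  refine isSylowIn_of_isSylowIn_normalizer le_top (h1.of_le (le_inf le_top le_normalizer) ?_)
  rintro g ⟨-, hg⟩
  obtain ⟨k, -, e⟩ := conj_mem_of_mem_normalizer hg (h.mem_map.2 (basic α β).2.2.2.2.2)
  have key : ∀ a ∈ TM, k * a = a * k := fun a ha => h.comm_iff.1 (by
    have := W2.mem_Cx.1 (h.T_le (conj_mem_of_mem_normalizer (inv_mem hg) (h.mem_map.2 ha)))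
    rw [e]
    calc g * ψ z0 * g⁻¹ * ψ a = g * (ψ z0 * (g⁻¹ * ψ a * g⁻¹⁻¹)) * g⁻¹ := by group
      _ = _ := by rw [← this]; group)
  rcases cent_E α β k (key _ (mem_TM (pr_m _))) (key _ (mem_TM (pr_m _)))
    (key _ (mem_TM (pr_m _))) (key _ (mem_TM (pr_m _))) with rfl | rfl
  · rw [map_one, eq_comm, conj_eq_one_iff, map_eq_one_iff _ h.inj] at e
    exact absurd e (basic α β).1.2.1
  · exact mem_Cx'.2 e.symm

theorem syl_out (h : HD ψ) {u : HM α β} (hu : Out u) :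
    IsSylowIn 2 (TM.map ψ ⊓ Cx (ψ u)) (⊤ ⊓ Cx (ψ u)) := by
  by_contra hn
  obtain ⟨R, -, hlt, hK, hN⟩ := exists_lt_pgroup_normalizer (h.pT.to_le inf_le_left)
    (inf_le_inf_right _ le_top) hn
  refine hlt.not_ge fun g hg => ?_
  obtain ⟨-, ⟨y, ⟨y1, y2⟩, hy⟩, e, ⟨w, w1, w2, w3⟩, hw⟩ := hu
  have key : ∀ a ∈ TM, a * u = u * a → ∃ b ∈ TM, b * u = u * b ∧ ψ b = g * ψ a * g⁻¹ := by
    intro a h1 h2
    obtain ⟨⟨b, h3, h4⟩, h5⟩ := conj_mem_of_mem_normalizer (hN hg)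
      (x := ψ a) ⟨h.mem_map.2 h1, W2.mem_Cx.2 (h.comm_iff.2 h2)⟩
    exact ⟨b, h3, h.comm_iff.1 (h4 ▸ W2.mem_Cx.1 h5), h4⟩
  obtain ⟨b, b1, b2, b3⟩ := key w w1 w2
  have h1 : ψ (b * b * cond e (b * b) 1) = g * ψ z0 * g⁻¹ := by
    rw [← w3]; cases e <;> simp [b3, mul_assoc]
  have h2 : g ∈ Cx (ψ z0) := by
    rcases hw b b1 b2 with e | e <;> rw [e] at h1
    · rw [map_one, eq_comm, conj_eq_one_iff, map_eq_one_iff _ h.inj] at h1
      exact absurd h1 (basic α β).1.2.1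
    · exact mem_Cx'.2 h1.symm
  obtain ⟨x, rfl⟩ := h.mem_Cx.1 h2
  obtain ⟨c, c1, -, c3⟩ := key y y1 y2
  rw [← map_inv, ← map_mul, ← map_mul, h.inj.eq_iff] at c3
  exact ⟨h.mem_map.2 (hy x (h.comm_iff.1 (W2.mem_Cx.1 (hK hg).2)) (c3 ▸ c1)), (hK hg).2⟩

theorem n4_le (h : HD ψ) {u u' : HM α β} (hu : Out u) (e : IsConj (ψ u') (ψ u)) :
    n4 u' ≤ n4 u := by
  obtain ⟨k, e⟩ := isConj_iff.1 e
  obtain ⟨g, -, e1, hg⟩ := exists_ext h.pT le_top (h.syl_out hu) (mem_top k) e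
  unfold n4
  refine h.card_le g fun x ⟨h1, h2, h3⟩ => ?_
  obtain ⟨y, h4, h5⟩ := hg (ψ x) (h.mem_map.2 h1) (h.comm_iff.2 h2)
  refine ⟨y, ⟨h4, h.comm_iff.1 ?_, h.inj ?_⟩, h5⟩
  · rw [h5, ← e1, conj_mul, conj_mul, h.comm_iff.2 h2]
  · simp only [map_mul, h5, conj_mul]
    simp only [← map_mul, h3, map_one, mul_one, mul_inv_cancel]

/-- The classes of `H` fused to `z`, `t` or `v`. -/
theorem classes (h : HD ψ) {c x : HM α β} (hc : c ∈ [z0, t0, v0]) (h1 : c * c = 1) (h2 : c ≠ 1)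
    (e : IsConj (ψ c) (ψ x)) : x = z0 ∨ (x = t0 ∨ x = t0 * z0) ∨ nf x = v0 := by
  have e' := e.trans (isConj_nf ψ x)
  rcases nf_mem α β x (h.sq_of_isConj e h1) with h3 | h3 | h3 | h3 | h3
  · rw [h3, map_one, isConj_one_left, map_eq_one_iff _ h.inj] at e'
    exact absurd e' h2
  · exact Or.inl h3
  · exact Or.inr (Or.inl h3.2)
  · exact Or.inr (Or.inr h3)
  · obtain ⟨h4, h5⟩ := out_of_mem α β _ h3 (h.sq_of_isConj e' h1)
    have := h.n4_le h4 e'
    have := (n4_inner α β c hc h1).2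
    omega

theorem comm_oddCore (h : HD ψ) : IsMulCommutative (oddCore G) := by
  have hb := basic α β
  have ho := fun x (hx : x ∈ oddCore G) => StrEmb.eq_one_of_odd_of_mul_self
    (StrEmb.odd_orderOf_of_mem (Core.odd_card_oddCore G) hx)
  refine ⟨⟨fun a b => (MonoidHom.FixedPointFree.commute_all_of_involutive
    (φ := MulAut.conjNormal (H := oddCore G) (ψ z0)) (fun x hx => ?_) (fun x => ?_) a b).eq⟩⟩
  · have h1 : ψ z0 * x * (ψ z0)⁻¹ = x := congrArg Subtype.val hx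
    obtain ⟨k, hk⟩ := (h.cent x).1 (mul_inv_eq_iff_eq_mul.1 h1).symm
    have key : ∀ e, pr e = 1 → k * e = e * k := fun e he => by
      have h2 : ψ (k * e * k⁻¹ * e⁻¹) ∈ oddCore G := by
        have := mul_mem x.2 ((inferInstance : (oddCore G).Normal).conj_mem _ (inv_mem x.2) (ψ e))
        simpa [← hk, mul_assoc] using this
      have h3 := ho _ h2 (ho _ (mul_mem h2 h2) (by
        simp only [← map_mul]; rw [pow_four (by simp [he]), map_one]))
      rwa [map_eq_one_iff _ h.inj, mul_inv_eq_one, mul_inv_eq_iff_eq_mul] at h3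
    refine Subtype.ext (ho _ x.2 ?_)
    rcases cent_E α β k (key _ (pr_m _)) (key _ (pr_m _)) (key _ (pr_m _)) (key _ (pr_m _))
      with rfl | rfl
    · simp [← hk]
    · rw [← hk, ← map_mul, hb.1.1, map_one]
  · refine Subtype.ext ?_
    change ψ z0 * (ψ z0 * x * (ψ z0)⁻¹) * (ψ z0)⁻¹ = x
    rw [← mul_assoc, ← mul_assoc, mul_assoc, ← mul_inv_rev, ← map_mul, hb.1.1]
    simp

theorem isConj_t (h : HD ψ) (hG : ¬ Group.IsSolvable G) : IsConj (ψ z0) (ψ t0) := by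
  obtain ⟨⟨b1, b2, b3, b4, b5⟩, ⟨b6, b7, b8, b9⟩, b10, b11, b12, b13⟩ := basic α β
  have tz : IsConj (ψ (t0 * z0)) (ψ t0) := isConj_of_nf ψ b10
  by_contra hn
  have key : ∀ x, IsConj (ψ z0) (ψ x) → x = z0 := fun x e => by
    rcases h.classes (by simp) b1 b2 e with h1 | (rfl | rfl) | h1
    exacts [h1, absurd e hn, absurd (e.trans tz) hn, by
      have e1 : IsConj (ψ v0) (ψ z0) := (e.trans (isConj_of_nf ψ h1)).symm
      obtain ⟨g, hg⟩ := isConj_iff.1 e1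
      have k : ∀ c, IsConj (ψ c) (ψ t0) → c * v0 = v0 * c →
          g * ψ c * g⁻¹ = ψ t0 ∨ g * ψ c * g⁻¹ = ψ (t0 * z0) := fun c c1 c2 => by
        obtain ⟨y, hy⟩ := (h.mem_Cx (g := g * ψ c * g⁻¹)).1
          (by rw [← hg]; exact conj_mem_Cx.2 (W2.mem_Cx.2 (h.comm_iff.2 c2)))
        have c3 : IsConj (ψ t0) (ψ y) := c1.symm.trans (isConj_iff.2 ⟨g, hy.symm⟩)
        rcases h.classes (by simp) b3 b4 c3 with rfl | (rfl | rfl) | h2
        exacts [absurd c3.symm hn, Or.inl hy.symm, Or.inr hy.symm,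
          absurd (e1.symm.trans (c3.trans (isConj_of_nf ψ h2)).symm) hn]
      have k1 : g * ψ z0 * g⁻¹ = g * ψ t0 * g⁻¹ * (g * ψ (t0 * z0) * g⁻¹) := by
        rw [conj_mul, ← map_mul, b11]
      have k2 : g * ψ z0 * g⁻¹ = 1 ∨ g * ψ z0 * g⁻¹ = ψ z0 := by
        rcases k t0 (IsConj.refl _) b7 with e2 | e2 <;> rcases k _ tz b8 with e3 | e3 <;>
          rw [k1, e2, e3, ← map_mul]
        exacts [Or.inl (by rw [b3, map_one]), Or.inr (by rw [b11]), Or.inr (by rw [b12]),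
          Or.inl (by rw [b6, map_one])]
      rcases k2 with e2 | e2
      · rw [conj_eq_one_iff, map_eq_one_iff _ h.inj] at e2
        exact absurd e2 b2
      · exact absurd (h.inj (by simpa using hg.trans e2.symm)) b9]
  have h1 := ZStarApp.centralizer_sup_oddCore_of_weaklyClosed h.sylT.toSylowTop
    (x := ψ z0) (h.mem_map.2 b13) (by
      rintro g ⟨x, -, hx⟩
      rw [← hx, key x (isConj_iff.2 ⟨g, hx.symm⟩)])
  have := h.comm_oddCore
  have : Group.IsSolvable (oddCore G) := Group.isSolvable_of_comm fun a b => mul_comm' a b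
  have : Group.IsSolvable (HM α β) := Char.isSolvable_of_card_eq_pow_mul_pow (a := 8) (b := 1)
    Nat.prime_two Nat.prime_three (by rw [HM.card_eq]; rfl)
  have : Group.IsSolvable (G ⧸ oddCore G) := by
    refine Group.isSolvable_of_surjective (f := (QuotientGroup.mk' _).comp ψ) fun q => ?_
    obtain ⟨g, rfl⟩ := QuotientGroup.mk_surjective q
    obtain ⟨a, ha, b, hb, rfl⟩ := mem_sup_of_normal_right.1 (h1.ge (mem_top g))
    obtain ⟨k, rfl⟩ := h.mem_Cx.1 ha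
    exact ⟨k, (QuotientGroup.mk_mul_of_mem _ hb).symm⟩
  exact hG ((Group.isSolvable_iff_subgroup_quotient _).2 ⟨inferInstance, this⟩)

theorem split (h : HD ψ) (e : IsConj (ψ z0) (ψ t0)) : α = false ∧ β = false := by
  obtain ⟨⟨b1, b2, b3, b4, b5⟩, ⟨b6, b7, b8, b9⟩, b10, b11, b12, b13⟩ := basic α β
  obtain ⟨k, e⟩ := isConj_iff.1 e.symm
  obtain ⟨g, -, e1, hg⟩ := exists_ext h.pT le_top (isSylowIn_cent_of_central h.sylT h.T_le)
    (mem_top k) e
  replace hg : ∀ x ∈ T1, ∃ y ∈ TM, ψ y = g * ψ x * g⁻¹ := fun x hx =>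
    hg _ (h.mem_map.2 hx.1) (h.comm_iff.2 (W2.mem_Cx.1 hx.2))
  obtain ⟨x, -, hx⟩ := hg z0 ⟨b13, W2.mem_Cx.2 (z0_comm α β _).symm⟩
  refine (sq_count α β).resolve_right fun h1 => ?_
  have h2 : x = t0 ∨ x = t0 * z0 := by
    rcases h.classes (by simp) b1 b2 (isConj_iff.2 ⟨g, hx.symm⟩) with rfl | h2 | h2
    · refine absurd ?_ b5
      rw [show t0 = z0 from h.inj (by simpa using e1.trans hx), b1]
    · exact h2
    · refine absurd (h.card_le (ψ (wit x) * g) fun y hy => ?_) (cent_v0 α β).not_ge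
      obtain ⟨w, -, hw⟩ := hg y hy
      refine ⟨wit x * w * (wit x)⁻¹, ?_, by simp [hw, mul_assoc]⟩
      rw [← h2, nf, conj_mul, conj_mul, (h.comm_iff (a := w) (b := x)).1]
      rw [hw, hx, conj_mul, conj_mul, h.comm_iff.2 (z0_comm α β y)]
  refine absurd ((h.card_le g fun y hy => ?_).trans (sq_count' α β x (by simpa using h2))) h1.not_ge
  obtain ⟨w, h3, hw⟩ := hg y hy.1
  exact ⟨w, ⟨h3, h.inj (by rw [map_mul, hw, hx, conj_mul, ← map_mul, hy.2])⟩, hw⟩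

end HD

/-- Thompson's transfer lemma inside a subgroup. -/
theorem thompson_in [Finite G] {S K Q : Subgroup G} (hS : IsSylowIn 2 S K)
    (hi : Q.relIndex S = 2) {u : G} (hu : orderOf u = 2) (huK : u ∈ K)
    (hn : ∀ g, g * u * g⁻¹ ∉ Q) : ∃ M : Subgroup G, M ≤ K ∧ M.relIndex K = 2 ∧ u ∉ M := by
  rcases Transfer.thompson_transfer (H := S.subgroupOf K) (Q := Q.subgroupOf K) hS.not_dvd
    (by rw [relIndex_subgroupOf hS.le, hi]) (u := ⟨u, huK⟩) (by rw [orderOf_mk, hu]) with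
    ⟨M, -, h1, h2⟩ | ⟨g, h1⟩
  · refine ⟨M.map K.subtype, map_subtype_le _, ?_, fun ⟨x, h3, h4⟩ => h2 ?_⟩
    · rw [relIndex, subgroupOf, comap_map_eq_self_of_injective K.subtype_injective, h1]
    · obtain rfl : x = ⟨u, huK⟩ := Subtype.ext h4
      exact h3
  · exact absurd h1 (hn g)

theorem BM_le {M : Subgroup H0} [hM : M.Normal] (h4 : ∀ x, x * x * (x * x) ∈ M) : BM ≤ M := by
  obtain ⟨⟨b1, -⟩, -, -, ⟨b2, b3, b4, b5⟩, ⟨b6, b7⟩, -⟩ := basic0
  have hd : d0 ∈ M := by rw [← b7]; exact h4 _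
  have hv : ∀ x, nf x = v0 → x ∈ M := fun x hx => by
    have : nf x ∈ M := by rw [hx, b6]; exact mul_mem hd (hM.conj_mem _ (inv_mem hd) _)
    rw [nf] at this
    simpa [mul_assoc] using hM.conj_mem _ this (wit x)⁻¹
  have hB : ∀ x ∈ (RM : Subgroup H0), x ∈ BM := fun x hx => (RM_le hx).1
  have hA : ∀ i, ∀ a ∈ AM i, a ∈ M := fun i a ha => by
    obtain ⟨h1, h2⟩ := AM_le i a ha
    rcases ((nf_T1 a h1 (mem_Cx.1 h2.2)).2 (hB a h2)).2 with h3 | h3
    · rcases mem_ZM a h3.1 h3.2 with rfl | rfl | rfl | rfl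
      exacts [one_mem _, (mul_mem_cancel_right (hv _ b5)).1 (hv _ b2),
        (mul_mem_cancel_right (hv _ b5)).1 (hv _ b3), (mul_mem_cancel_right (hv _ b5)).1 (hv _ b4)]
    · exact hv a h3
  have hR : ∀ x ∈ RM, x ∈ M := fun x hx => by
    obtain ⟨a, h1, h2⟩ := RM_dec x hx
    exact (mul_mem_cancel_left (hA _ a h1)).1 (hA _ _ h2)
  intro x hx
  rcases (BM_dec x).1 hx with h1 | h1 | h1
  exacts [hR x h1, (mul_mem_cancel_right hd).1 (hR _ h1),
    (mul_mem_cancel_right hd).1 ((mul_mem_cancel_left hd).1 (hR _ h1))]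

/-- The normal subgroup `N` of index four. -/
structure ND (ψ : H0 →* G) (N : Subgroup G) : Prop extends HD ψ where
  normal : N.Normal
  mem : ∀ k, ψ k ∈ N ↔ k ∈ BM
  dec : ∀ g, ∃ k, ∃ n ∈ N, ψ k * n = g
  syl : IsSylowIn 2 (RM.map ψ) N
  zt : IsConj (ψ z0) (ψ t0)

theorem HD.exists_ND [Finite G] {ψ : H0 →* G} (h : HD ψ) (e : IsConj (ψ z0) (ψ t0)) :
    ∃ N, ND ψ N := by
  obtain ⟨⟨b1, b2, b3, b4⟩, ⟨b5, b6, b7⟩, -, -, -, b11, -⟩ := basic0
  obtain ⟨⟨c1, -, c3, -⟩, -, c10, -⟩ := basic false false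
  have hB : ∀ x ∈ (RM : Subgroup H0), x ∈ BM := fun x hx => (RM_le hx).1
  have out : ∀ u ∈ [(u0 : H0), m 1 0, m 1 4, m 1 12], u * u = 1 → u ≠ 1 → ∀ x ∈ RM,
      ¬ IsConj (ψ u) (ψ x) := fun u hu h1 h2 x hx e => by
    have key : ∀ c ∈ [z0, t0, v0], c * c = 1 → ¬ IsConj (ψ x) (ψ c) := fun c hc h3 e' => by
      obtain ⟨h4, h5⟩ := out_of_mem _ _ u hu h1
      have := h.n4_le h4 (e.trans e').symm
      have := (n4_inner _ _ c hc h3).2
      omega
    rcases ((nf_T1 x (h.sq_of_isConj e h1) (W2.mem_Cx.1 hx.2)).2 (hB x hx)).2 with h3 | h3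
    · rcases mem_ZM x h3.1 h3.2 with rfl | rfl | rfl | rfl
      · rw [map_one, isConj_one_left, map_eq_one_iff _ h.inj] at e
        exact h2 e
      exacts [key _ (by simp) c1 (IsConj.refl _), key _ (by simp) c3 (IsConj.refl _),
        key _ (by simp) c3 (isConj_of_nf ψ c10)]
    · exact key _ (by simp) b1 (isConj_of_nf ψ h3)
  have four : ∀ {M : Subgroup G} [M.Normal], (∀ x, x * x * (x * x) ∈ M) → ∀ k ∈ BM, ψ k ∈ M :=
    fun {M} _ h4 k hk => BM_le (M := M.comap ψ) (fun x => by simpa using h4 (ψ x)) hk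
  obtain ⟨M, -, hM, uM⟩ := thompson_in (Q := T1.map ψ) h.sylT (by
      have := card_mul_relIndex' (map_mono (f := ψ) (K := T1) (K' := TM) inf_le_left)
      rw [h.card_map, h.card_map, card_T1, card_TM] at this
      omega) (h.ord b2 b5) (mem_top _) (by
    rintro g ⟨x, hx, e1⟩
    have e2 : IsConj (ψ u0) (ψ x) := isConj_iff.2 ⟨g, e1.symm⟩
    rcases (nf_T1 x (h.sq_of_isConj e2 b2) (W2.mem_Cx.1 hx.2)).1 with h1 | h1
    · exact out _ (by simp) b2 b5 x h1 e2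
    · exact (h.n4_le (out_of_mem _ _ _ (by simp) b4).1 (e2.trans (isConj_of_nf ψ h1))).not_gt
        n4_gamma)
  rw [relIndex_top_right] at hM
  have hMn := normal_of_index_eq_two hM
  have BM1 := four (M := M) fun x => mul_self_mem_of_index_two hM _
  have hS : IsSylowIn 2 (TM.map ψ ⊓ M) M := by
    simpa using h.sylT.inf_of_le_normalizer (N := M) le_normalizer_of_normal
  have hRS : RM.map ψ ≤ TM.map ψ ⊓ M := by
    rintro _ ⟨k, hk, rfl⟩
    exact ⟨h.mem_map.2 (RM_le hk).2, BM1 k (hB k hk)⟩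
  have hi : (RM.map ψ).relIndex (TM.map ψ ⊓ M) = 2 := by
    have h1 := card_mul_relIndex' hRS
    have h2 := card_mul_relIndex' (inf_le_left : TM.map ψ ⊓ M ≤ _)
    have h3 := relIndex_dvd_index_of_normal M (TM.map ψ)
    have h4 : M.relIndex (TM.map ψ) ≠ 1 := fun e =>
      uM (relIndex_eq_one.1 e (h.mem_map.2 (mem_TM (pr_m _))))
    rw [hM, Nat.dvd_prime Nat.prime_two] at h3
    rw [inf_relIndex_left, h3.resolve_left h4, h.card_map, card_TM] at h2
    rw [h.card_map, card_RM] at h1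
    omega
  obtain ⟨M', hM', hi', h1, h2⟩ : ∃ M' : Subgroup G, M' ≤ M ∧ M'.relIndex M = 2 ∧
      ψ (m 1 0) ∉ M' ∧ ψ (m 1 4) ∉ M' := by
    have h0 := BM1 _ b11
    rw [map_mul, map_mul, mul_mem_iff_of_index_two hM, mul_mem_iff_of_index_two hM] at h0
    by_cases h1 : ψ (m 1 0) ∈ M
    · obtain ⟨M', h2, h3, h4⟩ := thompson_in hS hi (h.ord b3 b6) h1 fun g ⟨x, hx, e1⟩ =>
        out _ (by simp) b3 b6 x hx (isConj_iff.2 ⟨g, e1.symm⟩)
      exact ⟨M', h2, h3, h4, fun h5 => by have := h2 h5; tauto⟩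
    · obtain ⟨M', h2, h3, h4⟩ := thompson_in hS hi (h.ord b4 b7) (by tauto) fun g ⟨x, hx, e1⟩ =>
        out _ (by simp) b4 b7 x hx (isConj_iff.2 ⟨g, e1.symm⟩)
      exact ⟨M', h2, h3, fun h5 => h1 (h2 h5), h4⟩
  have h4 : ∀ x, x * x * (x * x) ∈ M'.normalCore := fun x g => by
    have := mul_self_mem_of_index_two (H := M'.subgroupOf M) hi'
      ⟨_, mul_self_mem_of_index_two hM (g * x * g⁻¹)⟩
    simpa [mem_subgroupOf, mul_assoc] using this
  have BN := four h4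
  have hm : ∀ k, ψ k ∈ M'.normalCore ↔ k ∈ BM := fun k => ⟨fun hk => by
    have key : ∀ c, ψ c ∉ M' → k * c ∉ BM := fun c hc h5 =>
      hc (normalCore_le _ ((mul_mem_cancel_left hk).1 (map_mul ψ k c ▸ BN _ h5)))
    rcases (BM_dec k).2.1 with h5 | h5 | h5 | h5
    exacts [h5, absurd h5 (key _ fun e => uM (hM' e)), absurd h5 (key _ h1), absurd h5 (key _ h2)],
    BN k⟩
  refine ⟨M'.normalCore, h, inferInstance, hm, fun g => ?_, ?_, e⟩
  · have := Core.sylow_sup_eq_top_of_isPGroup_quotient h.sylT.toSylowTop M'.normalCore (fun q => by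
      obtain ⟨x, rfl⟩ := QuotientGroup.mk_surjective q
      exact ⟨2, by
        rw [← QuotientGroup.mk_pow, QuotientGroup.eq_one_iff]
        simpa [pow_succ, mul_assoc] using h4 x⟩)
    obtain ⟨_, ⟨k, -, rfl⟩, n, hn, rfl⟩ := mem_sup_of_normal_right.1 (this.ge (mem_top g))
    exact ⟨k, n, hn, rfl⟩
  · have := h.sylT.inf_of_le_normalizer (N := M'.normalCore) le_normalizer_of_normal
    rw [top_inf_eq] at this
    convert this using 1
    refine le_antisymm (le_inf (hRS.trans inf_le_left) ?_) ?_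
    · rintro _ ⟨k, hk, rfl⟩
      exact BN k (hB k hk)
    · rintro _ ⟨⟨k, hk, rfl⟩, h5⟩
      exact h.mem_map.2 ((BM_dec k).2.2 ((hm k).1 h5) hk)

end CfsgLib.W2.L34
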