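import Mathlib
import Cfsg.Agent.Lib.W2.L34Model

/-!
The homomorphism from the model `HM α β` given by elements satisfying the defining relations.
-/

set_option autoImplicit false

namespace CfsgLib.W2.L34

variable {G : Type*} [Group G]

theorem hom_of_gen {M : Type*} [Group M] (f : M → G) (h1 : f 1 = 1) {S : Set M}
    (hS : ∀ x, x ∈ Submonoid.closure S) (h : ∀ x ∈ S, ∀ y, f (x * y) = f x * f y) (x y : M) :
    f (x * y) = f x * f y := by
  induction hS x using Submonoid.closure_induction generalizing y with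
  | mem x hx => exact h x hx y
  | one => rw [one_mul, h1, one_mul]
  | mul x x' _ _ ih ih' => rw [mul_assoc, ih, ih', ih, mul_assoc]

/-- The relations of the extraspecial group. -/
structure RelE (z p q r s : G) : Prop where
  zz : z * z = 1
  pp : p * p = 1
  qq : q * q = 1
  rr : r * r = 1
  ss : s * s = 1
  pz : p * z = z * p
  qz : q * z = z * q
  rz : r * z = z * r
  sz : s * z = z * s
  qp : q * p = z * (p * q)
  rp : r * p = z * (p * r)
  sp : s * p = z * (p * s)
  rq : r * q = z * (q * r)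
  sq : s * q = z * (q * s)
  sr : s * r = z * (r * s)

/-- A binary digit. -/
def bt (e : EM) (i : ℕ) : Bool := e.v.testBit i

/-- The value of an element of `EM`. -/
def evE (z p q r s : G) (e : EM) : G :=
  cond (bt e 4) z 1 * (cond (bt e 0) p 1 * (cond (bt e 1) q 1 * (cond (bt e 2) r 1 *
    cond (bt e 3) s 1)))

theorem em_gen (e : EM) : e ∈ Submonoid.closure {EM.o 16, EM.o 1, EM.o 2, EM.o 4, EM.o 8} := by
  rw [(by decide +kernel : ∀ e : EM, e = evE (EM.o 16) (EM.o 1) (EM.o 2) (EM.o 4) (EM.o 8) e) e]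
  have : ∀ (b : Bool) (x : EM), x ∈ ({EM.o 16, EM.o 1, EM.o 2, EM.o 4, EM.o 8} : Set EM) →
      cond b x 1 ∈ Submonoid.closure {EM.o 16, EM.o 1, EM.o 2, EM.o 4, EM.o 8} := fun b x hx => by
    cases b
    exacts [one_mem _, Submonoid.subset_closure hx]
  exact mul_mem (this _ _ (by simp)) (mul_mem (this _ _ (by simp)) (mul_mem (this _ _ (by simp))
    (mul_mem (this _ _ (by simp)) (this _ _ (by simp)))))

theorem em_ext {f g : EM →* G} (h0 : f (EM.o 16) = g (EM.o 16)) (h1 : f (EM.o 1) = g (EM.o 1))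
    (h2 : f (EM.o 2) = g (EM.o 2)) (h3 : f (EM.o 4) = g (EM.o 4)) (h4 : f (EM.o 8) = g (EM.o 8))
    (e : EM) : f e = g e := by
  induction em_gen e using Submonoid.closure_induction with
  | mem x hx => rcases hx with rfl | rfl | rfl | rfl | rfl <;> assumption
  | one => simp
  | mul x y _ _ ih ih' => rw [map_mul, map_mul, ih, ih']

theorem RelE.exists_hom {z p q r s : G} (h : RelE z p q r s) : ∃ f : EM →* G,
    f (EM.o 16) = z ∧ f (EM.o 1) = p ∧ f (EM.o 2) = q ∧ f (EM.o 4) = r ∧ f (EM.o 8) = s := by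
  have k : ∀ {x y : G}, x * x = y → ∀ w, x * (x * w) = y * w := fun e w => by rw [← mul_assoc, e]
  have k' : ∀ {x y u : G}, x * y = u → ∀ w, x * (y * w) = u * w := fun e w => by
    rw [← mul_assoc, e]
  have e0 : evE z p q r s (EM.o 16) = z := show z * (1 * (1 * (1 * 1))) = z by simp
  have e1 : evE z p q r s (EM.o 1) = p := show 1 * (p * (1 * (1 * 1))) = p by simp
  have e2 : evE z p q r s (EM.o 2) = q := show 1 * (1 * (q * (1 * 1))) = q by simp
  have e3 : evE z p q r s (EM.o 4) = r := show 1 * (1 * (1 * (r * 1))) = r by simp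
  have e4 : evE z p q r s (EM.o 8) = s := show 1 * (1 * (1 * (1 * s))) = s by simp
  refine ⟨MonoidHom.mk' (evE z p q r s) (hom_of_gen _ (show (1 : G) * (1 * (1 * (1 * 1))) = 1 by simp)
    em_gen ?_),
    e0, e1, e2, e3, e4⟩
  have key := (by decide +kernel : ∀ y : EM, ∀ i < 5,
    bt (EM.o 16 * y) i = xor (bt y i) (i == 4) ∧ bt (EM.o 1 * y) i = xor (bt y i) (i == 0) ∧
    bt (EM.o 2 * y) i = xor (bt y i) (i == 1 || i == 4 && bt y 0) ∧
    bt (EM.o 4 * y) i = xor (bt y i) (i == 2 || i == 4 && xor (bt y 0) (bt y 1)) ∧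
    bt (EM.o 8 * y) i = xor (bt y i) (i == 3 || i == 4 && xor (bt y 0) (xor (bt y 1) (bt y 2))))
  rintro _ (rfl | rfl | rfl | rfl | rfl) y
  all_goals
    have k0 := key y 0 (by decide)
    have k1 := key y 1 (by decide)
    have k2 := key y 2 (by decide)
    have k3 := key y 3 (by decide)
    have k4 := key y 4 (by decide)
    simp only [e0, e1, e2, e3, e4]
    simp only [evE, k0, k1, k2, k3, k4]
    generalize bt y 0 = b0
    generalize bt y 1 = b1
    generalize bt y 2 = b2
    generalize bt y 3 = b3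
    generalize bt y 4 = b4
    cases b0 <;> cases b1 <;> cases b2 <;> cases b3 <;> cases b4 <;>
      simp [h.zz, h.pp, h.qq, h.rr, h.ss, h.qp, h.rp, h.sp, h.rq, h.sq, h.sr, k h.zz, k h.pp,
        k h.qq, k h.rr, k' h.pz, k' h.qz, k' h.rz, k' h.sz, k' h.qp, k' h.rp, k' h.sp, k' h.rq,
        k' h.sq, k' h.sr, h.pz, h.qz, h.rz, h.sz, mul_assoc]

/-- The relations of the extension. -/
structure RelS (α β : Bool) (f : EM →* G) (a b c : G) : Prop where
  af : ∀ e, a * f e = f (act (SM.o 1) e) * a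
  bf : ∀ e, b * f e = f (act (SM.o 2) e) * b
  cf : ∀ e, c * f e = f (act (SM.o 6) e) * c
  aa : a * a = cond α (f (EM.o 16)) 1
  bb : b * b = cond α (f (EM.o 16)) 1
  cc : c * c = cond α (f (EM.o 16)) 1
  ab : b * (a * b) = cond α (f (EM.o 16)) 1 * (a * (b * a))
  bc : c * (b * c) = cond α (f (EM.o 16)) 1 * (b * (c * b))
  ac : c * a = cond β (f (EM.o 16)) 1 * (a * c)

/-- The normal words. -/
def wS (a b c : G) (n : ℕ) (x : G) : G :=
  (([[], [a], [b], [a, b], [b, a], [a, b, a], [c], [a, c], [b, c], [a, b, c], [b, a, c], [a, b, a, c], [c, b], [a, c, b], [b, c, b], [a, b, c, b], [b, a, c, b], [a, b, a, c, b], [c, b, a], [a, c, b, a], [b, c, b, a], [a, b, c, b, a], [b, a, c, b, a], [a, b, a, c, b, a]] : List (List G)).getD n []).foldr (· * ·) x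

theorem wS_eq (a b c : G) (n : ℕ) (x : G) : wS a b c n x = wS a b c n 1 * x := by
  unfold wS
  generalize List.getD _ n [] = l
  induction l with
  | nil => simp
  | cons y l ih => simp only [List.foldr_cons, ih, mul_assoc]

theorem RelS.left {α β : Bool} {f : EM →* G} {a b c : G} (h : RelS α β f a b c) (s : SM) :
    a * wS a b c s.v 1 = f (coc α β (SM.o 1) s) * wS a b c (SM.o 1 * s).v 1 ∧
    b * wS a b c s.v 1 = f (coc α β (SM.o 2) s) * wS a b c (SM.o 2 * s).v 1 ∧
    c * wS a b c s.v 1 = f (coc α β (SM.o 6) s) * wS a b c (SM.o 6 * s).v 1 := by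
  obtain ⟨k1, k2, k3, k4, k5, k6⟩ := (by decide +kernel : ∀ (α β : Bool) (s : SM),
    (SM.o 1 * s).v = [1, 0, 3, 2, 5, 4, 7, 6, 9, 8, 11, 10, 13, 12, 15, 14, 17, 16, 19, 18, 21, 20, 23, 22].getD s.v 0 ∧
    (SM.o 2 * s).v = [2, 4, 0, 5, 1, 3, 8, 10, 6, 11, 7, 9, 14, 16, 12, 17, 13, 15, 20, 22, 18, 23, 19, 21].getD s.v 0 ∧
    (SM.o 6 * s).v = [6, 7, 12, 13, 18, 19, 0, 1, 14, 15, 20, 21, 2, 3, 8, 9, 22, 23, 4, 5, 10, 11, 16, 17].getD s.v 0 ∧
    coc α β (SM.o 1) s = cond (xor (α && 11184810 >>> s.v % 2 == 1) (β && 0 >>> s.v % 2 == 1)) (EM.o 16) 1 ∧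
    coc α β (SM.o 2) s = cond (xor (α && 7456540 >>> s.v % 2 == 1) (β && 0 >>> s.v % 2 == 1)) (EM.o 16) 1 ∧
    coc α β (SM.o 6) s = cond (xor (α && 13385664 >>> s.v % 2 == 1) (β && 10135210 >>> s.v % 2 == 1)) (EM.o 16) 1)
    α β s
  rw [k1, k2, k3, k4, k5, k6]
  have zz : f (EM.o 16) * f (EM.o 16) = 1 := by
    rw [← map_mul, show EM.o 16 * EM.o 16 = 1 by decide +kernel, map_one]
  have az := h.af (EM.o 16)
  have bz := h.bf (EM.o 16)
  have cz := h.cf (EM.o 16)
  rw [act_z] at az bz cz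
  obtain ⟨-, -, -, aa, bb, cc, ab, bc, ac⟩ := h
  have hc : ∀ e : Bool, f (cond e (EM.o 16) 1) = cond e (f (EM.o 16)) 1 := fun e => by
    cases e <;> simp
  simp only [hc]
  generalize f (EM.o 16) = z at *
  have k : ∀ {x y u : G}, x * y = u → ∀ w, x * (y * w) = u * w := fun e w => by
    rw [← mul_assoc, e]
  have k' : ∀ {x y y' u : G}, x * (y * y') = u → ∀ w, x * (y * (y' * w)) = u * w := fun e w => by
    rw [← e, mul_assoc, mul_assoc]
  have hs : s.v < 24 := s.2
  suffices ∀ x, _ ∧ _ ∧ _ from this 1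
  intro x
  generalize s.v = n at hs
  have cbac : ∀ w, c * (b * (a * (c * w))) =
      cond β z 1 * (cond α z 1 * (b * (c * (b * (a * w))))) := fun w => by
    have h1 := k' bc (a * w)
    simp only [mul_assoc] at h1
    rw [← h1, k ac]
    cases β <;> simp only [cond_true, cond_false, k bz, k cz, k zz, mul_assoc, one_mul]
  cases α <;> cases β
  all_goals
    simp only [cond_true, cond_false, one_mul] at aa bb cc ab bc ac cbac
    interval_cases n <;>
      simp only [Nat.reduceShiftRight, Nat.reduceMod, Nat.reduceBEq, Bool.true_and, Bool.false_and,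
        Bool.xor_false, Bool.xor_true, Bool.not_true, Bool.not_false, wS, List.getD_cons_succ, List.getD_cons_zero, List.foldr_cons,
        List.foldr_nil, cond_true, cond_false, k aa, k bb, k cc, k' ab, k' bc, k ac, cbac, k az,
        k bz, k cz, k zz, mul_assoc, one_mul, and_self]

theorem RelS.exists_hom {α β : Bool} {f : EM →* G} {a b c : G} (h : RelS α β f a b c) :
    ∃ ψ : HM α β →* G, ∀ e, ψ ⟨1, e⟩ = f e := by
  let val : HM α β → G := fun x => f x.e * wS a b c x.s.v 1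
  have v1 : ∀ e, val ⟨1, e⟩ = f e := fun e => mul_one _
  let S : Set (HM α β) := {x | x.s = 1 ∨ x = HM.m 1 0 ∨ x = HM.m 2 0 ∨ x = HM.m 6 0}
  have hS : ∀ x, x ∈ Submonoid.closure S := fun x => by
    have h1 : ∀ l : List (HM α β), (∀ y ∈ l, y ∈ S) → l.foldr (· * ·) 1 ∈ Submonoid.closure S :=
      fun l hl => by
        induction l with
        | nil => exact one_mem _
        | cons y l ih =>
          exact mul_mem (Submonoid.subset_closure (hl y (by simp))) (ih fun y hy => hl y (by simp [hy]))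
    rw [(by decide +kernel : ∀ (α β : Bool) (x : HM α β),
      x = ⟨1, x.e⟩ * wS (HM.m 1 0) (HM.m 2 0) (HM.m 6 0) x.s.v 1) α β x]
    refine mul_mem (Submonoid.subset_closure (Or.inl rfl)) (h1 _ ?_)
    have hs : x.s.v < 24 := x.s.2
    generalize x.s.v = n at hs
    interval_cases n <;> simp [S]
  have key : ∀ {g : SM} {u : G}, (∀ e, u * f e = f (act g e) * u) → wS a b c g.v 1 = u →
      (∀ s : SM, u * wS a b c s.v 1 = f (coc α β g s) * wS a b c (g * s).v 1) →
      ∀ y, val (⟨g, 1⟩ * y) = val ⟨g, 1⟩ * val y := fun {g u} h1 h2 h3 ⟨s, e⟩ => by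
    simp only [val, HM.mk_mul, map_one, one_mul, map_mul, h2]
    rw [← mul_assoc u, h1, mul_assoc, mul_assoc, h3]
  refine ⟨MonoidHom.mk' val (hom_of_gen val ((v1 1).trans (map_one f)) hS ?_), v1⟩
  rintro ⟨s, e⟩ (rfl | h1 | h1 | h1)
  · rintro ⟨s, e'⟩
    simp only [val, HM.mk_mul, one_act, coc_one, one_mul, mul_one, map_mul, mul_assoc]
    rw [show wS a b c (1 : SM).v 1 = 1 from rfl, one_mul]
  · rw [h1]; exact key h.af (mul_one a) fun s => (h.left s).1
  · rw [h1]; exact key h.bf (mul_one b) fun s => (h.left s).2.1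
  · rw [h1]; exact key h.cf (mul_one c) fun s => (h.left s).2.2

end CfsgLib.W2.L34
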