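import Mathlib
import Cfsg.Agent.Lib.W2.Tools
import Cfsg.Agent.Lib.CIT.L34

/-!
A strongly closed four-group `Z`: in suitable subgroups `M` the four-group `Z` is transitive on its
other conjugates.
-/

set_option autoImplicit false

namespace CfsgLib.W2.L34

open Subgroup CfsgLib.Tech

variable {G : Type*} [Group G]

/-- `N_G(x)` -/
abbrev NN (x : Subgroup G) : Subgroup G := normalizer (x : Set G)

/-- `C_G(x)` -/
abbrev CC (x : Subgroup G) : Subgroup G := centralizer (x : Set G)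

theorem cj_CC (g : G) (x : Subgroup G) : cj g (CC x) = CC (cj g x) := cj_centralizer g x

theorem cj_NN (g : G) (x : Subgroup G) : cj g (NN x) = NN (cj g x) := cj_normalizer g x

theorem conj_mem_CC {x : Subgroup G} {n e : G} (hn : n ∈ NN x) (he : e ∈ CC x) :
    n * e * n⁻¹ ∈ CC x := by
  rw [← conj_mem_cj (g := n), cj_CC, mem_normalizer_iff_cj.1 hn] at he
  exact he

theorem le_Cx_iff {x : Subgroup G} {g : G} : x ≤ Cx g ↔ g ∈ CC x :=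
  ⟨fun h _ hu => mem_Cx.1 (h hu), fun h _ hu => mem_Cx.2 (h _ hu)⟩

/-- A strongly closed four-group with trivial intersections. -/
structure TI (Z : Subgroup G) : Prop where
  sq : ∀ u ∈ Z, u * u = 1
  card : Nat.card Z = 4
  cl : ∀ u ∈ Z, u ≠ 1 → ∀ g, ∀ w ∈ cj g Z, w * u = u * w → w ∈ Z

/-- The conjugates of `Z`. -/
def Pt (Z x : Subgroup G) : Prop := ∃ g, cj g Z = x

theorem Pt.conj {Z x : Subgroup G} (h : Pt Z x) (g : G) : Pt Z (cj g x) := by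
  obtain ⟨k, rfl⟩ := h
  exact ⟨g * k, cj_mul _ _ _⟩

theorem pt_self (Z : Subgroup G) : Pt Z Z := ⟨1, cj_one Z⟩

/-- The centraliser of all conjugates of `Z` in `M`. -/
def JM (Z M : Subgroup G) : Subgroup G := ⨅ y : {y // Pt Z y ∧ y ≤ M}, CC y.1

theorem mem_JM {Z M : Subgroup G} {j : G} : j ∈ JM Z M ↔ ∀ y, Pt Z y → y ≤ M → j ∈ CC y := by
  simp [JM, mem_iInf]

theorem cj_le_of_mem {M x : Subgroup G} {s : G} (hs : s ∈ M) (hx : x ≤ M) : cj s x ≤ M :=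
  cj_eq_of_mem hs ▸ cj_mono s hx

theorem conj_mem_JM {Z M : Subgroup G} {s j : G} (hs : s ∈ M) (hj : j ∈ JM Z M) :
    s * j * s⁻¹ ∈ JM Z M := mem_JM.2 fun y h1 h2 => by
  have := mem_JM.1 hj _ (h1.conj s⁻¹) (cj_le_of_mem (inv_mem hs) h2)
  rwa [← conj_mem_cj (g := s), cj_CC, cj_cj_inv] at this

/-- The local hypotheses. -/
structure Gd (Z M x : Subgroup G) : Prop where
  pt : Pt Z x
  le : x ≤ M
  h0 : ∀ e ∈ M, ∀ u ∈ x, u ≠ 1 → e * u = u * e → e ∈ CC x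
  h1 : ∀ e ∈ M, e ∈ CC x → e ^ 4 ∈ JM Z M
  h2 : ∀ y ∈ M, y ∈ NN x → ∀ e ∈ M, e ∈ CC x → y⁻¹ * e * y * e⁻¹ ∈ x

theorem Gd.conj {Z M x : Subgroup G} (h : Gd Z M x) {s : G} (hs : s ∈ M) : Gd Z M (cj s x) := by
  have k : ∀ e ∈ M, s⁻¹ * e * s ∈ M := fun e he => mul_mem (mul_mem (inv_mem hs) he) hs
  refine ⟨h.pt.conj s, cj_le_of_mem hs h.le, fun e he u hu h1 h2 => ?_, fun e he h1 => ?_,
    fun y hy h1 e he h2 => ?_⟩
  · rw [← cj_CC, mem_cj]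
    refine h.h0 _ (k e he) _ (mem_cj.1 hu) (by simpa using CIT.conj_ne_one (g := s⁻¹) h1) ?_
    calc s⁻¹ * e * s * (s⁻¹ * u * s) = s⁻¹ * (e * u) * s := by group
      _ = _ := by rw [h2]; group
  · rw [← cj_CC, mem_cj] at h1
    have := conj_mem_JM hs (h.h1 _ (k e he) h1)
    rw [← conj_pow] at this
    simpa [mul_assoc] using this
  · rw [← cj_CC, mem_cj] at h2
    rw [← cj_NN, mem_cj] at h1
    have := h.h2 _ (k y hy) h1 _ (k e he) h2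
    rw [mem_cj]
    simpa [mul_assoc] using this

section four

variable {M x : Subgroup G} (sq : ∀ u ∈ x, u * u = 1) (card : Nat.card x = 4)
  (h0 : ∀ e ∈ M, ∀ u ∈ x, u ≠ 1 → e * u = u * e → e ∈ CC x)
include card

theorem exists_two : ∃ u ∈ x, ∃ u' ∈ x, u ≠ 1 ∧ u' ≠ 1 ∧ u ≠ u' := by
  have : Finite x := Nat.finite_of_card_ne_zero (by omega)
  have h3 : 2 < (x : Set G).ncard := by
    rw [← Nat.card_coe_set_eq, show Nat.card (x : Set G) = 4 from card]; decide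
  obtain ⟨a, b, c, ha, hb, hc, h4, h5, h6⟩ := (Set.two_lt_ncard_iff (Set.toFinite _)).1 h3
  by_cases h7 : a = 1
  · exact ⟨b, hb, c, hc, h7 ▸ h4.symm, h7 ▸ h5.symm, h6⟩
  · by_cases h8 : b = 1
    · exact ⟨a, ha, c, hc, h7, h8 ▸ h6.symm, h5⟩
    · exact ⟨a, ha, b, hb, h7, h8, h4⟩

include sq h0

theorem four_of_not {y : G} (hy : y ∈ M) (hn : y ∈ NN x) (hc : y ∉ CC x) {u : G} (hu : u ∈ x)
    (h1 : u ≠ 1) : (∀ a ∈ x, a = 1 ∨ a = u ∨ a = y * u * y⁻¹ ∨ a = u * (y * u * y⁻¹)) ∧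
      y⁻¹ * u * y⁻¹⁻¹ = u * (y * u * y⁻¹) :=
  CIT.four_group card sq hn (fun w hw e => by_contra fun h => hc (h0 y hy w hw h e)) hu h1

theorem mem_of_sq {y : G} (hy : y ∈ M) (hn : y ∈ NN x) (h : y * y ∈ CC x) : y ∈ CC x := by
  by_contra hc
  obtain ⟨u, hu, -, -, h1, -⟩ := exists_two card
  have h2 := (four_of_not sq card h0 hy hn hc hu h1).2
  have h3 : y⁻¹ * u * y⁻¹⁻¹ = y * u * y⁻¹ := by
    calc y⁻¹ * u * y⁻¹⁻¹ = y⁻¹ * (u * (y * y)) * y⁻¹ := by group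
      _ = _ := by rw [h u hu]; group
  rw [h3, eq_comm, mul_eq_right] at h2
  exact h1 h2

theorem a3 {y y' : G} (hy : y ∈ M) (hn : y ∈ NN x) (hc : y ∉ CC x) (hy' : y' ∈ M)
    (hn' : y' ∈ NN x) : y' ∈ CC x ∨ y⁻¹ * y' ∈ CC x ∨ y * y' ∈ CC x := by
  obtain ⟨u, hu, -, -, h1, -⟩ := exists_two card
  obtain ⟨h2, h3⟩ := four_of_not sq card h0 hy hn hc hu h1
  rcases h2 _ (conj_mem_of_mem_normalizer hn' hu) with h | h | h | h
  · exact absurd h (CIT.conj_ne_one h1)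
  · exact Or.inl (h0 _ hy' u hu h1 (mul_inv_eq_iff_eq_mul.1 h))
  · refine Or.inr (Or.inl (h0 _ (mul_mem (inv_mem hy) hy') u hu h1 ?_))
    calc y⁻¹ * y' * u = y⁻¹ * (y' * u * y'⁻¹) * y' := by group
      _ = _ := by rw [h]; group
  · refine Or.inr (Or.inr (h0 _ (mul_mem hy hy') u hu h1 ?_))
    calc y * y' * u = y * (y' * u * y'⁻¹) * y' := by group
      _ = _ := by rw [h, ← h3]; group

theorem cube_mem {y : G} (hy : y ∈ M) (hn : y ∈ NN x) : y * (y * y) ∈ CC x := by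
  by_cases hc : y ∈ CC x
  · exact mul_mem hc (mul_mem hc hc)
  rcases a3 sq card h0 hy hn hc (mul_mem hy hy) (mul_mem hn hn) with h | h | h
  exacts [absurd (mem_of_sq sq card h0 hy hn h) hc, absurd (by simpa using h) hc, h]

theorem comm_mem {g y : G} (hg : g ∈ M) (hn : g ∈ NN x) (hy : y ∈ M) (hn' : y ∈ NN x) :
    g * y * g⁻¹ * y⁻¹ ∈ CC x := by
  by_cases hc : g ∈ CC x
  · simpa [mul_assoc] using mul_mem hc (conj_mem_CC hn' (inv_mem hc))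
  rcases a3 sq card h0 hg hn hc hy hn' with h | h | h
  · exact mul_mem (conj_mem_CC hn h) (inv_mem h)
  · simpa [mul_assoc] using
      mul_mem (conj_mem_CC (mul_mem hn hn) h) (conj_mem_CC hn (inv_mem h))
  · simpa [mul_assoc] using mul_mem h (conj_mem_CC (inv_mem hn) (inv_mem h))

end four

variable [Finite G] {Z M x y : Subgroup G}

namespace TI

omit [Finite G] in
theorem sq' (h : TI Z) (hx : Pt Z x) : ∀ u ∈ x, u * u = 1 := by
  obtain ⟨g, rfl⟩ := hx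
  rintro _ ⟨u, hu, rfl⟩
  rw [← map_mul, h.sq u hu, map_one]

omit [Finite G] in
theorem card' (h : TI Z) (hx : Pt Z x) : Nat.card x = 4 := by
  obtain ⟨g, rfl⟩ := hx
  rw [card_cj, h.card]

omit [Finite G] in
theorem mem_of_comm (h : TI Z) (hx : Pt Z x) (hy : Pt Z y) {u w : G} (hu : u ∈ x) (h1 : u ≠ 1)
    (hw : w ∈ y) (e : w * u = u * w) : w ∈ x := by
  obtain ⟨g, rfl⟩ := hx
  obtain ⟨k, rfl⟩ := hy
  rw [mem_cj]
  refine h.cl _ (mem_cj.1 hu) (by simpa using CIT.conj_ne_one (g := g⁻¹) h1) (g⁻¹ * k) _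
    (by rw [cj_mul, mem_cj]; simpa [mul_assoc] using hw) ?_
  calc g⁻¹ * w * g * (g⁻¹ * u * g) = g⁻¹ * (w * u) * g := by group
    _ = _ := by rw [e]; group

theorem eq_of_comm (h : TI Z) (hx : Pt Z x) (hy : Pt Z y) {u w : G} (hu : u ∈ x) (h1 : u ≠ 1)
    (hw : w ∈ y) (h2 : w ≠ 1) (e : w * u = u * w) : x = y :=
  (eq_of_le_of_card_ge (fun _ ha => h.mem_of_comm hx hy (h.mem_of_comm hx hy hu h1 hw e) h2 ha
    (CIT.comm_of_sq (h.sq' hy) ha hw)) (by rw [h.card' hx, h.card' hy])).symm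

theorem exists_fix (h : TI Z) (hy : Pt Z y) {c : G} (h2 : c * c = 1) (hn : c ∈ NN y) :
    ∃ w ∈ y, w ≠ 1 ∧ c * w = w * c :=
  CIT.exists_fixed_elt (CIT.two_of_mul_self h2) (CIT.isPGroup_of_sq (h.sq' hy)) hn fun e => by
    simpa [e] using h.card' hy

theorem eq_of_norm (h : TI Z) (hx : Pt Z x) (hy : Pt Z y) {c : G} (hc : c ∈ x) (h1 : c ≠ 1)
    (hn : c ∈ NN y) : x = y := by
  obtain ⟨w, hw, h2, e⟩ := h.exists_fix hy (h.sq' hx c hc) hn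
  exact h.eq_of_comm hx hy hc h1 hw h2 e.symm

theorem swap (h : TI Z) (hx : Pt Z x) (hy : Pt Z y) (hne : x ≠ y) (hxM : x ≤ M) (hyM : y ≤ M)
    {u w : G} (hu : u ∈ x) (h1 : u ≠ 1) (hw : w ∈ y) (h2 : w ≠ 1) :
    ∃ s ∈ M, s * s = 1 ∧ s * u * s⁻¹ = w ∧ cj s x = y ∧ cj s y = x := by
  have su := h.sq' hx u hu
  have sw := h.sq' hy w hw
  rcases Nat.even_or_odd (orderOf (u * w)) with he | ho
  · obtain ⟨k, k1, k2, k3⟩ := StrEmb.exists_central_of_even su sw he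
    have k4 : ∃ y', Pt Z y' ∧ u * (u * w) ^ k ∈ y' := by
      obtain ⟨j, rfl | rfl⟩ := Nat.even_or_odd' k
      · refine ⟨_, hx.conj ((u * w) ^ j)⁻¹, ?_⟩
        convert (conj_mem_cj (g := ((u * w) ^ j)⁻¹)).2 hu using 1
        rw [inv_inv, ← StrEmb.conj_pow_of_inverts (StrEmb.inverts_mul_left su sw) j]
        group
      · refine ⟨_, hy.conj ((u * w) ^ j)⁻¹, ?_⟩
        convert (conj_mem_cj (g := ((u * w) ^ j)⁻¹)).2 hw using 1
        rw [inv_inv, ← StrEmb.conj_pow_of_inverts (StrEmb.inverts_mul_right su sw) j, pow_succ',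
          ← mul_assoc u, ← mul_assoc u, su]
        group
    obtain ⟨y', k5, k6⟩ := k4
    have k7 := (mul_mem_cancel_left hu).1 (h.mem_of_comm hx k5 hu h1 k6 (by rw [mul_assoc, ← k2.eq]))
    exact absurd (h.eq_of_comm hx hy k7 (ne_one_of_ord k1) hw h2 k3.eq) hne
  · obtain ⟨s, s1, s2, s3⟩ := StrEmb.exists_swap_of_odd su sw ho
    have s4 : cj s x = y := h.eq_of_comm (hx.conj s) hy (s2 ▸ conj_mem_cj.2 hu) h2 hw h2 rfl
    refine ⟨s, (closure_le M).2 ?_ s3, s1, s2, s4, by rw [← s4, ← cj_mul, s1, cj_one]⟩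
    rintro _ (rfl | rfl)
    exacts [hxM hu, hyM hw]

theorem gd (h : TI Z) (g : Gd Z M x) (hy : Pt Z y) (hyM : y ≤ M) : Gd Z M y := by
  by_cases hne : x = y
  · exact hne ▸ g
  obtain ⟨u, hu, -, -, h1, -⟩ := exists_two (h.card' g.pt)
  obtain ⟨w, hw, -, -, h2, -⟩ := exists_two (h.card' hy)
  obtain ⟨s, hs, -, -, rfl, -⟩ := h.swap g.pt hy hne g.le hyM hu h1 hw h2
  exact g.conj hs

theorem exy (h : TI Z) (hx : Pt Z x) (hy : Pt Z y) (hne : x ≠ y) (hxM : x ≤ M) (hyM : y ≤ M)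
    {u u' : G} (hu : u ∈ x) (h1 : u ≠ 1) (hu' : u' ∈ x) (h1' : u' ≠ 1) :
    ∃ k ∈ M, ∃ s ∈ M, k * u * k⁻¹ = u' ∧ k ∈ NN x ∧ k ∈ NN y ∧ cj s x = y ∧ cj s y = x ∧
      s * k * s⁻¹ = k⁻¹ := by
  obtain ⟨w, hw, -, -, h2, -⟩ := exists_two (h.card' hy)
  obtain ⟨s, hs, a1, a2, a3, a4⟩ := h.swap hx hy hne hxM hyM hu h1 hw h2
  obtain ⟨t, ht, b1, b2, b3, b4⟩ := h.swap hx hy hne hxM hyM hu' h1' hw h2
  refine ⟨t * s, mul_mem ht hs, s, hs, ?_, mem_normalizer_iff_cj.2 (by rw [cj_mul, a3, b4]),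
    mem_normalizer_iff_cj.2 (by rw [cj_mul, a4, b3]), a3, a4, StrEmb.inverts_mul_right b1 a1⟩
  calc t * s * u * (t * s)⁻¹ = t * (s * u * s⁻¹) * t⁻¹ := by group
    _ = t * t * u' * (t * t)⁻¹ := by rw [a2, ← b2]; group
    _ = u' := by simp [b1]

theorem invq (h : TI Z) (g : Gd Z M x) (hy : Pt Z y) (hne : x ≠ y) (hyM : y ≤ M) {q : G}
    (hq : q ∈ M) (n1 : q ∈ NN x) (n2 : q ∈ NN y) :
    ∃ s ∈ M, cj s x = y ∧ cj s y = x ∧ s * q ^ 4 * s⁻¹ * q ^ 4 ∈ JM Z M := by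
  obtain ⟨u, hu, -, -, h1, -⟩ := exists_two (h.card' g.pt)
  obtain ⟨k, hk, s, hs, a1, a2, a3, a4, a5, a6⟩ := h.exy g.pt hy hne g.le hyM hu h1
    (conj_mem_of_mem_normalizer n1 hu) (CIT.conj_ne_one h1)
  obtain ⟨e, rfl⟩ : ∃ e, k = q * e := ⟨q⁻¹ * k, by group⟩
  have he := (mul_mem_cancel_left hq).1 hk
  have ne := (mul_mem_cancel_left n2).1 a3
  have b1 : e ∈ CC x := g.h0 e he u hu h1 (by
    calc e * u = q⁻¹ * (q * e * u * (q * e)⁻¹) * (q * e) := by group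
      _ = _ := by rw [a1]; group)
  have b2 : Commute q e := by
    by_contra hn
    refine hne (h.eq_of_norm g.pt hy (g.h2 q hq n1 e he b1) (fun e1 => hn ?_)
      (mul_mem (mul_mem (mul_mem (inv_mem n2) ne) n2) (inv_mem ne)))
    calc q * e = q * (q⁻¹ * e * q * e⁻¹) * e := by rw [e1, mul_one]
      _ = e * q := by group
  have b3 := g.h1 e he b1
  refine ⟨s, hs, a4, a5, ?_⟩
  have b4 := StrEmb.conj_pow_of_inverts a6 4
  have := mul_mem (conj_mem_JM (inv_mem (pow_mem hk 4)) (conj_mem_JM hs (inv_mem b3))) (inv_mem b3)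
  rw [inv_inv] at this
  nth_rw 1 [← b4] at this
  rw [b2.mul_pow] at this
  convert this using 1
  group

theorem tri (h : TI Z) (g : Gd Z M Z) (hx : Pt Z x) (hy : Pt Z y) (nx : Z ≠ x) (ny : Z ≠ y)
    (hxM : x ≤ M) (hyM : y ≤ M) : ∃ c ∈ Z, cj c x = y := by
  obtain ⟨u, hu, u', hu', h1, h1', h2⟩ := exists_two h.card
  obtain ⟨k, hk, -, -, a1, a2, a3, -⟩ := h.exy g.pt hx nx g.le hxM hu h1 hu' h1'
  obtain ⟨l, hl, -, -, b1, b2, b3, -⟩ := h.exy g.pt hy ny g.le hyM hu h1 hu' h1'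
  obtain ⟨e, rfl⟩ : ∃ e, l = k * e := ⟨k⁻¹ * l, by group⟩
  have he := (mul_mem_cancel_left hk).1 hl
  have c1 : e ∈ CC Z := g.h0 e he u hu h1 (by
    calc e * u = k⁻¹ * (k * e * u * (k * e)⁻¹) * (k * e) := by group
      _ = _ := by rw [b1, ← a1]; group)
  have p4 : ∀ q ∈ M, q ∈ NN Z → q ∉ CC Z → q ^ 4 ∉ CC Z := fun q h3 h4 h5 h6 =>
    h5 (mem_of_sq h.sq h.card g.h0 h3 h4 (mem_of_sq h.sq h.card g.h0 (mul_mem h3 h3) (mul_mem h4 h4)
      (by simpa [pow_succ, mul_assoc] using h6)))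
  have c2 := p4 k hk a2 fun h3 => h2 (by rw [← a1, ← h3 u hu, mul_inv_cancel_right])
  obtain ⟨w, hw, c3⟩ : ∃ w ∈ Z, (k * e) ^ 4 = k ^ 4 * w * e ^ 4 := by
    have d1 := g.h2 k hk a2 e he c1
    have d2 := g.h2 _ (pow_mem hk 2) (pow_mem a2 2) e he c1
    have d3 := g.h2 _ (pow_mem hk 3) (pow_mem a2 3) e he c1
    refine ⟨_, mul_mem d3 (mul_mem d2 d1), ?_⟩
    have d4 : Commute _ e := c1 _ d1
    have d5 := c1 _ d2
    have d6 : (k * e) ^ 4 = k ^ 4 * ((k ^ 3)⁻¹ * e * k ^ 3 * e⁻¹) *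
        (e * ((k ^ 2)⁻¹ * e * k ^ 2 * e⁻¹)) * (e * (k⁻¹ * e * k * e⁻¹)) * e ^ 2 := by
      simp only [pow_succ]; group
    rw [d6]
    generalize k⁻¹ * e * k * e⁻¹ = a at *
    generalize (k ^ 2)⁻¹ * e * k ^ 2 * e⁻¹ = b at *
    generalize (k ^ 3)⁻¹ * e * k ^ 3 * e⁻¹ = c at *
    calc _ = k ^ 4 * c * b * (e ^ 2 * a) * e ^ 2 := by rw [← d5, pow_two e]; group
      _ = _ := by rw [← (d4.pow_right 2).eq]; group
  have hq := pow_mem hk 4
  have n1 := pow_mem a2 4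
  have n2 := pow_mem a3 4
  generalize k ^ 4 = q at *
  obtain ⟨c, hc, c4⟩ : ∃ c ∈ Z, c * (q * w) * c⁻¹ = q := by
    by_cases h3 : w = 1
    · exact ⟨1, one_mem _, by simp [h3]⟩
    have d1 := (four_of_not h.sq h.card g.h0 hq n1 c2 hw h3).2
    refine ⟨_, mul_mem hw (conj_mem_of_mem_normalizer n1 hw), ?_⟩
    calc w * (q * w * q⁻¹) * (q * w) * (w * (q * w * q⁻¹))⁻¹
        = w * q * (w * w) * (q⁻¹ * w * q⁻¹⁻¹)⁻¹ := by rw [d1]; group
      _ = q := by rw [h.sq w hw]; group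
  have n3 : q ∈ NN (cj c y) := by
    have d1 := conj_mem_cj (g := c).2 (pow_mem b3 4)
    rw [cj_NN, c3] at d1
    have d2 := centralizer_le_normalizer _ (mem_JM.1 (conj_mem_JM (g.le hc) (g.h1 e he c1)) _
      (hy.conj c) (cj_le_of_mem (g.le hc) hyM))
    rw [← conj_mul, c4] at d1
    exact (mul_mem_cancel_right d2).1 d1
  by_contra hn
  have ny' : Z ≠ cj c y := fun e => ny (cj_injective c ((cj_eq_of_mem hc).trans e))
  have nxy : x ≠ cj c y := fun e => hn ⟨c⁻¹, inv_mem hc, by rw [e, cj_inv_cj]⟩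
  have hyM' := cj_le_of_mem (g.le hc) hyM
  obtain ⟨s, hs, s1, s2, s3⟩ := h.invq g hx nx hxM hq n1 n2
  obtain ⟨t, ht, t1, t2, t3⟩ := h.invq g (hy.conj c) ny' hyM' hq n1 n3
  obtain ⟨r, hr, r1, r2, r3⟩ := h.invq (h.gd g hx hxM) (hy.conj c) nxy hyM' hq n2 n3
  have c5 := p4 q hq n1 c2
  have hQ := pow_mem hq 4
  have nQ := pow_mem n1 4
  generalize q ^ 4 = Q at *
  have d1 : t * r * s * Q * (t * r * s)⁻¹ * Q ∈ JM Z M := by
    have := mul_mem (mul_mem (conj_mem_JM (mul_mem ht hr) s3) t3)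
      (conj_mem_JM (inv_mem hQ) (conj_mem_JM ht (inv_mem r3)))
    convert this using 1
    group
  have d2 := comm_mem h.sq h.card g.h0 (mul_mem (mul_mem ht hr) hs)
    (mem_normalizer_iff_cj.2 (by rw [cj_mul, cj_mul, s1, r1, t2])) hQ nQ
  refine c5 (mem_of_sq h.sq h.card g.h0 hQ nQ ?_)
  simpa [mul_assoc] using mul_mem (inv_mem d2) (mem_JM.1 d1 _ g.pt g.le)

end TI

end CfsgLib.W2.L34
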