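import Mathlib
import Cfsg.Agent.Lib.CIT.L34
import Cfsg.Agent.Lib.Fgs.ConjCount
import Cfsg.Agent.Lib.W2.L34Tri

/-!
The projective plane of order four attached to a group with one class of involutions and
involution centralisers as in `PGL₃(4)`.
-/

set_option autoImplicit false

namespace CfsgLib.W2.L34

open Cfsg Subgroup CfsgLib.LAE CfsgLib.CIT CfsgLib.Classical

variable {G : Type*} [Group G]

/-- An involution inverting `y` centralises an involution of `C(y)` if there is one. -/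
theorem exists_inv_comm [Finite G] {s c y : G} (hs : s * s = 1) (hc : c * c = 1) (c1 : c ≠ 1)
    (hi : s * y * s⁻¹ = y⁻¹) (hy : c * y = y * c) (y1 : y * y ≠ 1) :
    ∃ w, w ≠ 1 ∧ w * w = 1 ∧ s * w = w * s ∧ y * w = w * y := by
  have k1 : s * c * y * (s * c)⁻¹ = y⁻¹ := by
    calc s * c * y * (s * c)⁻¹ = s * (c * y) * c⁻¹ * s⁻¹ := by group
      _ = _ := by rw [hy, ← hi]; group
  have k2 : Commute y ((s * c) ^ 2) := by
    have : (s * c) ^ 2 * y * ((s * c) ^ 2)⁻¹ = y := by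
      calc (s * c) ^ 2 * y * ((s * c) ^ 2)⁻¹ = s * c * (s * c * y * (s * c)⁻¹) * (s * c)⁻¹ := by
            rw [pow_two]; group
        _ = (s * c * y * (s * c)⁻¹)⁻¹ := by rw [k1]; nth_rw 2 [← k1]; group
        _ = y := by rw [k1, inv_inv]
    exact (mul_inv_eq_iff_eq_mul.1 this).symm
  have k3 : ¬ Commute y s := fun e => y1 (by
    rw [← e.eq, mul_inv_cancel_right] at hi
    nth_rw 1 [hi]; simp)
  rcases Nat.even_or_odd (orderOf (s * c)) with he | ⟨j, hj⟩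
  · obtain ⟨k, h1, h2, h3⟩ := StrEmb.exists_central_of_even hs hc he
    obtain ⟨j, rfl | rfl⟩ := Nat.even_or_odd' k
    · exact ⟨_, StrEmb.ne_one_of_orderOf h1, StrEmb.mul_self_of_orderOf h1, h2.eq,
        by rw [pow_mul]; exact (k2.pow_right j).eq⟩
    · have h4 : Commute y (s * (s * c) ^ (2 * j + 1)) := by
        rw [pow_succ', ← mul_assoc s, ← mul_assoc s, hs, one_mul, pow_mul]
        exact Commute.mul_right hy.symm (k2.pow_right j)
      refine ⟨s * (s * c) ^ (2 * j + 1), fun e => ?_, ?_, ((Commute.refl s).mul_right h2).eq, h4.eq⟩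
      · have h5 : s * c * s = s * (s * c) := by
          have := ((Commute.refl (s * c)).pow_right (2 * j + 1)).eq
          rwa [eq_inv_of_mul_eq_one_right e, inv_eq_of_sq hs] at this
        have h6 : (s * c) ^ 2 = 1 := by
          rw [pow_two, ← mul_assoc, h5, ← mul_assoc s, hs, one_mul, hc]
        rw [pow_succ, pow_mul, h6, one_pow, one_mul, ← mul_assoc, hs, one_mul] at e
        exact c1 e
      · rw [mul_assoc, ← mul_assoc _ s, ← h2.eq, mul_assoc, StrEmb.mul_self_of_orderOf h1, mul_one, hs]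
  · refine absurd ?_ k3
    have h1 := pow_orderOf_eq_one (s * c)
    rw [hj, pow_succ, ← mul_assoc, pow_mul] at h1
    have h2 : s = (((s * c) ^ 2) ^ j)⁻¹ * c⁻¹ := by
      generalize ((s * c) ^ 2) ^ j = d at h1
      calc s = d⁻¹ * (d * s * c) * c⁻¹ := by group
        _ = _ := by rw [h1, mul_one]
    rw [h2]
    exact (k2.pow_right j).inv_right.mul_right (Commute.inv_right hy.symm)

theorem le_normalizer_of_index_five [Finite G] {K Y : Subgroup G} (h : K ≤ Y) (hK : IsPGroup 3 K)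
    (hi : K.relIndex Y = 5) : Y ≤ normalizer (K : Set G) := by
  have : Fact (Nat.Prime 3) := ⟨Nat.prime_three⟩
  have hS : Tech.IsSylowIn 3 K Y := ⟨h, hK, by rw [hi]; decide⟩
  have h1 : Nat.card (Sylow 3 Y) ∣ 5 := hi ▸ hS.toSylow.card_dvd_index
  have h2 := card_sylow_modEq_one 3 Y
  rcases (Nat.dvd_prime Nat.prime_five).1 h1 with h3 | h3
  · have := (Nat.card_eq_one_iff_unique.1 h3).1
    exact (normal_subgroupOf_iff_le_normalizer h).1 hS.toSylow.normal_of_subsingleton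
  · rw [h3] at h2
    exact absurd h2 (by decide)

/-- An element of a group of odd order which permutes a coset of a four-group fixes an element. -/
theorem exists_fix_coset [Finite G] {Z : Subgroup G} (hZ : Nat.card Z = 4) {y r : G}
    (hy : IsPGroup 3 (zpowers y)) (hn : y ∈ normalizer (Z : Set G)) (h : r⁻¹ * (y * r * y⁻¹) ∈ Z) :
    ∃ u ∈ Z, y * (r * u) = r * u * y := by
  have : Fact (Nat.Prime 3) := ⟨Nat.prime_three⟩
  let K : Subgroup G :=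
    { carrier := {g | g ∈ normalizer (Z : Set G) ∧ r⁻¹ * (g * r * g⁻¹) ∈ Z}
      one_mem' := ⟨one_mem _, by simp⟩
      mul_mem' := fun {a b} ha hb => ⟨mul_mem ha.1 hb.1, by
        convert mul_mem ha.2 (conj_mem_of_mem_normalizer ha.1 hb.2) using 1; group⟩
      inv_mem' := fun {a} ha => ⟨inv_mem ha.1, by
        convert inv_mem (conj_mem_of_mem_normalizer (inv_mem ha.1) ha.2) using 1; group⟩ }
  have hK : zpowers y ≤ K := zpowers_le.2 ⟨hn, h⟩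
  let _ : MulAction (zpowers y) Z :=
    { smul := fun g u => ⟨r⁻¹ * (g * r * (g : G)⁻¹) * (g * u * (g : G)⁻¹),
        mul_mem (hK g.2).2 (conj_mem_of_mem_normalizer (hK g.2).1 u.2)⟩
      one_smul := fun u => Subtype.ext (by
        change r⁻¹ * (1 * r * 1⁻¹) * (1 * u * 1⁻¹) = u; group)
      mul_smul := fun a b u => Subtype.ext (by
        change r⁻¹ * (a * b * r * (a * b : G)⁻¹) * (a * b * u * (a * b : G)⁻¹) =
          r⁻¹ * (a * r * (a : G)⁻¹) * (a * (r⁻¹ * (b * r * (b : G)⁻¹) * (b * u * (b : G)⁻¹)) * (a : G)⁻¹)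
        group) }
  obtain ⟨u, hu⟩ := hy.nonempty_fixed_point_of_prime_not_dvd_card Z (by rw [hZ]; decide)
  refine ⟨u, u.2, ?_⟩
  have h1 : r⁻¹ * (y * r * y⁻¹) * (y * u * y⁻¹) = u := congrArg Subtype.val (hu ⟨y, mem_zpowers y⟩)
  calc y * (r * u) = r * (r⁻¹ * (y * r * y⁻¹) * (y * u * y⁻¹)) * y := by group
    _ = _ := by rw [h1]

/-- The data of a flag. -/
structure Fl (a l : Subgroup G) : Prop where
  card : Nat.card (a ⊓ l : Subgroup G) = 4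
  cen : ∀ u ∈ a ⊓ l, u ≠ 1 → ∀ g, g * u = u * g → g * g = 1 → g ∈ a ∨ g ∈ l
  nd : ∀ u ∈ a, ∀ w ∈ l, u * w = w * u → u ∈ l ∨ w ∈ a
  reg : ∀ v ∈ l, v ∉ a → ∀ u ∈ a ⊓ l, ∃ y ∈ a, y * v * y⁻¹ = u * v
  reg' : ∀ v ∈ a, v ∉ l → ∀ u ∈ a ⊓ l, ∃ y ∈ l, y * v * y⁻¹ = u * v

theorem Fl.symm {a l : Subgroup G} (h : Fl a l) : Fl l a :=
  ⟨by rw [inf_comm, h.card], fun u hu h1 g h2 h3 => (h.cen u hu.symm h1 g h2 h3).symm,
    fun u hu w hw e => (h.nd w hw u hu e.symm).symm, fun v h1 h2 u hu => h.reg' v h1 h2 u hu.symm,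
    fun v h1 h2 u hu => h.reg v h1 h2 u hu.symm⟩

/-- Points `P` and lines `L`. -/
structure Pl (P L : Subgroup G → Prop) : Prop where
  cP : ∀ g a, P a → P (conjS g a)
  cL : ∀ g a, L a → L (conjS g a)
  ex : ∀ t : G, t ≠ 1 → t * t = 1 → ∃ a l, P a ∧ L l ∧ Fl a l ∧ t ∈ a ⊓ l
  uP : ∀ a b t, P a → P b → t ≠ 1 → t ∈ a → t ∈ b → a = b
  uL : ∀ a b t, L a → L b → t ≠ 1 → t ∈ a → t ∈ b → a = b
  sP : ∀ a, P a → Nat.card a = 16 ∧ ∀ t ∈ a, t * t = 1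
  sL : ∀ a, L a → Nat.card a = 16 ∧ ∀ t ∈ a, t * t = 1
  cc : ∀ t : G, t ≠ 1 → t * t = 1 → Nat.card (centralizer ({t} : Set G)) = 192

namespace Pl

variable {P L : Subgroup G → Prop} {a b c d l m n : Subgroup G} {t g : G}

theorem symm (h : Pl P L) : Pl L P where
  cP := h.cL
  cL := h.cP
  ex t h1 h2 := by
    obtain ⟨a, l, ha, hl, hf, ht⟩ := h.ex t h1 h2
    exact ⟨l, a, hl, ha, hf.symm, ht.symm⟩
  uP := h.uL
  uL := h.uP
  sP := h.sL
  sL := h.sP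
  cc := h.cc

theorem ne_bot (h : Pl P L) (ha : P a) : a ≠ ⊥ := fun e => by simpa [e] using (h.sP a ha).1

theorem sq (h : Pl P L) (ha : P a) (ht : t ∈ a) : t * t = 1 := (h.sP a ha).2 t ht

theorem comm (h : Pl P L) (ha : P a) {u v : G} (hu : u ∈ a) (hv : v ∈ a) : u * v = v * u :=
  comm_of_sq (h.sP a ha).2 hu hv

theorem exists_mem (h : Pl P L) (ha : P a) : ∃ t ∈ a, t ≠ 1 := by
  obtain ⟨⟨t, ht⟩, h1⟩ := ne_bot_iff_exists_ne_one.1 (h.ne_bot ha)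
  exact ⟨t, ht, fun e => h1 (Subtype.ext e)⟩

theorem conj_eq (h : Pl P L) (ha : P a) (hb : P b) (h1 : t ≠ 1) (ht : t ∈ a)
    (hg : g * t * g⁻¹ ∈ b) : conjS g a = b :=
  h.uP _ _ _ (h.cP g a ha) hb (conj_ne_one h1) (conj_mem_conjS.2 ht) hg

theorem exists_point (h : Pl P L) (h1 : t ≠ 1) (h2 : t * t = 1) : ∃ a, P a ∧ t ∈ a := by
  obtain ⟨a, l, ha, -, -, ht⟩ := h.ex t h1 h2
  exact ⟨a, ha, ht.1⟩

theorem flag (h : Pl P L) (ha : P a) (hl : L l) (hi : Inc a l) : Fl a l := by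
  obtain ⟨t, h1, h2, h3⟩ := hi
  obtain ⟨a', l', ha', hl', hf, ht⟩ := h.ex t h1 (h.sq ha h2)
  obtain rfl := h.uP _ _ _ ha ha' h1 h2 ht.1
  obtain rfl := h.uL _ _ _ hl hl' h1 h3 ht.2
  exact hf

theorem exists_line (h : Pl P L) (ha : P a) : ∃ l, L l ∧ Inc a l := by
  obtain ⟨t, ht, h1⟩ := h.exists_mem ha
  obtain ⟨l, hl, h2⟩ := h.symm.exists_point h1 (h.sq ha ht)
  exact ⟨l, hl, t, h1, ht, h2⟩

theorem fix_of_comm (h : Pl P L) (ha : P a) (h1 : t ≠ 1) (ht : t ∈ a) (hg : g * t = t * g) :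
    conjS g a = a := h.conj_eq ha ha h1 ht (by rwa [hg, mul_inv_cancel_right])

/-- Elements of a line fix the points of the line. -/
theorem fix_of_inc (h : Pl P L) (ha : P a) (hl : L l) (hi : Inc a l) (ht : t ∈ l) :
    conjS t a = a := by
  obtain ⟨u, h1, h2, h3⟩ := hi
  exact h.fix_of_comm ha h1 h2 (h.symm.comm hl ht h3)

/-- A point containing an involution commuting with `t ∈ l` is on `l`. -/
theorem inc_of_comm (h : Pl P L) (ha : P a) (hl : L l) (h1 : t ≠ 1) (ht : t ∈ l) {u : G}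
    (hu : u ∈ a) (hu1 : u ≠ 1) (hc : u * t = t * u) : Inc a l := by
  obtain ⟨b, hb, htb⟩ := h.exists_point h1 (h.symm.sq hl ht)
  rcases (h.flag hb hl ⟨t, h1, htb, ht⟩).cen t ⟨htb, ht⟩ h1 u hc (h.sq ha hu) with h3 | h3
  · obtain rfl := h.uP _ _ _ ha hb hu1 hu h3
    exact ⟨t, h1, htb, ht⟩
  · exact ⟨u, hu1, hu, h3⟩

theorem exists_third (h : Pl P L) (ha : P a) (hb : P b) (hne : a ≠ b) (hl : L l)
    (al : Inc a l) (bl : Inc b l) : ∃ c, P c ∧ Inc c l ∧ a ≠ c ∧ b ≠ c := by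
  obtain ⟨u, hu1, hu, hul⟩ := al
  obtain ⟨v, hv1, hv, hvl⟩ := bl
  have h1 : u * v ≠ 1 := fun e => hne (h.uP _ _ _ ha hb hu1 hu
    (by rw [eq_inv_of_mul_eq_one_left e]; exact b.inv_mem hv))
  obtain ⟨c, hc, h2⟩ := h.exists_point h1 (h.symm.sq hl (l.mul_mem hul hvl))
  refine ⟨c, hc, ⟨_, h1, h2, l.mul_mem hul hvl⟩, ?_, ?_⟩
  · rintro rfl
    exact hne (h.uP _ _ _ ha hb hv1 ((a.mul_mem_cancel_left hu).1 h2) hv)
  · rintro rfl
    exact hne (h.uP _ _ _ ha hb hu1 hu ((b.mul_mem_cancel_right hv).1 h2))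

variable [Finite G]

theorem inc_of_fix (h : Pl P L) (ha : P a) (hl : L l) (h1 : t ≠ 1) (ht : t ∈ l)
    (hf : conjS t a = a) : Inc a l := by
  obtain ⟨u, hu, hu1, hc⟩ := exists_fixed_elt (two_of_mul_self (h.symm.sq hl ht))
    (isPGroup_of_sq (h.sP a ha).2) (mem_normalizer_iff_conjS.2 hf) (h.ne_bot ha)
  exact h.inc_of_comm ha hl h1 ht hu hu1 hc.symm

/-- Two points are on at most one line. -/
theorem line_eq (h : Pl P L) (ha : P a) (hb : P b) (hne : a ≠ b) (hl : L l) (hm : L m)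
    (al : Inc a l) (bl : Inc b l) (am : Inc a m) (bm : Inc b m) : l = m := by
  by_contra hc
  have e1 := fun v hv => h.fix_of_inc ha hm am (t := v) hv
  obtain ⟨v, hv1, hv, hvm⟩ := bm
  obtain ⟨w, hw, hw1, e⟩ := exists_fixed_elt (two_of_mul_self (h.sq hb hv))
    (isPGroup_of_sq (V := a ⊓ l) fun x hx => h.sq ha hx.1) (mem_normalizer_iff_conjS.2 (by
      rw [conjS_inf, e1 v hvm, h.symm.fix_of_inc hl hb bl.symm hv]))
    (fun e => by simpa [e] using (h.flag ha hl al).card)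
  rcases (h.flag hb hl bl).nd v hv w hw.2 e with h1 | h1
  exacts [hc (h.uL _ _ _ hl hm hv1 h1 hvm), hne (h.uP _ _ _ ha hb hw1 hw.1 h1)]

omit [Finite G] in
theorem exists_ne (h : Pl P L) (ha : P a) (hl : L l) (al : Inc a l) :
    ∃ b, P b ∧ Inc b l ∧ a ≠ b := by
  obtain ⟨v, hv, hv'⟩ : ∃ v ∈ l, v ∉ a := by
    by_contra! h1
    have := (h.flag ha hl al).card
    rw [inf_eq_right.2 h1, (h.sL l hl).1] at this
    omega
  have h1 : v ≠ 1 := fun e => hv' (e ▸ a.one_mem)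
  obtain ⟨b, hb, h2⟩ := h.exists_point h1 (h.symm.sq hl hv)
  exact ⟨b, hb, ⟨v, h1, h2, hv⟩, fun e2 => hv' (e2 ▸ h2)⟩

theorem decomp (h : Pl P L) (ha : P a) (hb : P b) (hne : a ≠ b) (hl : L l) (al : Inc a l)
    (bl : Inc b l) (ht : t ∈ l) : ∃ u ∈ a ⊓ l, ∃ w ∈ b ⊓ l, t = u * w := by
  have hn : a ⊓ l ≤ normalizer ((b ⊓ l : Subgroup G) : Set G) := fun x hx =>
    centralizer_le_normalizer _ fun y hy => h.symm.comm hl hy.2 hx.2
  have h1 := PLocal.card_sup_mul_card_inf hn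
  have h0 : a ⊓ l ⊓ (b ⊓ l) = ⊥ := eq_bot_iff.2 fun x hx => by_contra fun e =>
    hne (h.uP _ _ _ ha hb e hx.1.1 hx.2.1)
  rw [h0, (h.flag ha hl al).card, (h.flag hb hl bl).card, card_bot, mul_one] at h1
  have h2 : a ⊓ l ⊔ b ⊓ l = l :=
    eq_of_le_of_card_ge (sup_le inf_le_right inf_le_right) (by rw [h1, (h.sL l hl).1])
  exact (mem_sup_iff_of_left_le_normalizer hn).1 (h2.ge ht)

theorem exists_map (h : Pl P L) (hc : P c) (hl : L l) (cl : Inc c l) (ha : P a) (hb : P b)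
    (al : Inc a l) (bl : Inc b l) (ca : c ≠ a) (cb : c ≠ b) :
    ∃ y ∈ c, ∃ w ∈ a ⊓ l, w ≠ 1 ∧ y * w * y⁻¹ ∈ b := by
  obtain ⟨v, hv1, hv, hvl⟩ := bl
  obtain ⟨u, hu, w, hw, rfl⟩ := h.decomp hc ha ca hl cl al hvl
  have h2 : w ≠ 1 := by
    rintro rfl
    rw [mul_one] at hv hv1
    exact cb (h.uP _ _ _ hc hb hv1 hu.1 hv)
  obtain ⟨y, hy, e⟩ := (h.flag hc hl cl).reg w hw.2 (fun e => ca (h.uP _ _ _ hc ha h2 e hw.1)) u hu
  exact ⟨y, hy, w, hw, h2, e ▸ hv⟩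

/-- The root group of the flag `(c, m)` is transitive on the points other than `c` of another
line through `c`. -/
theorem root (h : Pl P L) (hc : P c) (hl : L l) (hm : L m) (lm : l ≠ m) (cl : Inc c l)
    (cm : Inc c m) (ha : P a) (hb : P b) (al : Inc a l) (bl : Inc b l) (ca : c ≠ a) (cb : c ≠ b) :
    ∃ u, u ∈ c ∧ u ∈ m ∧ conjS u a = b := by
  obtain ⟨y, hy, w, hw, hw1, e⟩ := h.exists_map hc hl cl ha hb al bl ca cb
  obtain ⟨x₂, hx₂, x₁, hx₁, rfl⟩ := h.symm.decomp hm hl lm.symm hc cm.symm cl.symm hy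
  refine ⟨x₂, hx₂.2, hx₂.1, h.conj_eq ha hb hw1 hw.1 ?_⟩
  have e5 : x₂ * w * x₂⁻¹ = x₂ * x₁ * w * (x₂ * x₁)⁻¹ := by
    rw [mul_assoc x₂ x₁, h.symm.comm hl hx₁.1 hw.2]; group
  exact e5 ▸ e

/-- The root groups act semiregularly. -/
theorem root_unique (h : Pl P L) (hm : L m) (ha : P a) (am : ¬ Inc a m) {u v : G}
    (hu : u ∈ m) (hv : v ∈ m) (e : conjS u a = conjS v a) : u = v := by
  by_contra hne
  refine am (h.inc_of_fix ha hm (t := v⁻¹ * u) (fun e => hne (inv_mul_eq_one.1 e).symm)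
    (m.mul_mem (m.inv_mem hv) hu) ?_)
  rw [conjS_mul, e, conjS_inv_conjS]

/-- An element of odd order inverted by an involution centralises no involution. -/
theorem fpf (h : Pl P L) {Y : Subgroup G} (hodd : ∀ y ∈ Y, y * y = 1 → y = 1) {s y c : G}
    (hy : y ∈ Y) (hs : s * s = 1) (hi : s * y * s⁻¹ = y⁻¹) (hc : c * c = 1) (c1 : c ≠ 1)
    (e : c * y = y * c) : y = 1 := by
  by_contra y1
  obtain ⟨w, w1, w2, w3, w4⟩ := exists_inv_comm hs hc c1 hi e fun e => y1 (hodd y hy e)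
  obtain ⟨a, l, ha, hl, hf, hw⟩ := h.ex w w1 w2
  have key : ∀ x : Subgroup G, (∀ t ∈ x, t * t = 1) → conjS y x = x → s ∉ x := fun x h1 h2 h3 => by
    have := h1 _ (mul_mem (conj_mem_of_mem_normalizer (mem_normalizer_iff_conjS.2 h2) (inv_mem h3)) h3)
    have h4 : y * s⁻¹ * y⁻¹ * s = y * y := by rw [← hi]; group
    rw [h4] at this
    exact y1 (hodd y hy (hodd _ (mul_mem hy hy) this))
  rcases hf.cen w hw w1 s w3 hs with h1 | h1
  exacts [key a (h.sP a ha).2 (h.fix_of_comm ha w1 hw.1 w4) h1,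
    key l (h.sL l hl).2 (h.symm.fix_of_comm hl w1 hw.2 w4) h1]

/-- Any two points are collinear. -/
theorem col (h : Pl P L) (ha : P a) (hb : P b) :
    ∃ l, L l ∧ Inc a l ∧ Inc b l := by
  by_contra hc
  push Not at hc
  have hne : a ≠ b := by
    rintro rfl
    obtain ⟨l, hl, hi⟩ := h.exists_line ha
    exact hc l hl hi hi
  obtain ⟨v, hv, hv1⟩ := h.exists_mem hb
  have sw : ∀ u ∈ a, u ≠ 1 → ∃ s : G, s * s = 1 ∧ s * u * s⁻¹ = v ∧ conjS s a = b ∧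
      conjS s b = a := by
    intro u hu hu1
    rcases Nat.even_or_odd (orderOf (u * v)) with he | ho
    · obtain ⟨k, h1, h2, h3⟩ := StrEmb.exists_central_of_even (h.sq ha hu) (h.sq hb hv) he
      obtain ⟨l, hl, h4⟩ := h.symm.exists_point (StrEmb.ne_one_of_orderOf h1)
        (StrEmb.mul_self_of_orderOf h1)
      exact absurd (h.inc_of_comm hb hl (StrEmb.ne_one_of_orderOf h1) h4 hv hv1 h3.eq)
        (hc l hl (h.inc_of_comm ha hl (StrEmb.ne_one_of_orderOf h1) h4 hu hu1 h2.eq))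
    · obtain ⟨s, h1, h2, -⟩ := StrEmb.exists_swap_of_odd (h.sq ha hu) (h.sq hb hv) ho
      have h3 : conjS s a = b := h.conj_eq ha hb hu1 hu (h2 ▸ hv)
      exact ⟨s, h1, h2, h3, by rw [← h3, ← conjS_mul, h1, conjS_one]⟩
  let Y : Subgroup G := normalizer (a : Set G) ⊓ normalizer (b : Set G)
  have hY : ∀ {y}, y ∈ Y ↔ conjS y a = a ∧ conjS y b = b :=
    and_congr mem_normalizer_iff_conjS mem_normalizer_iff_conjS
  have hodd : ∀ y ∈ Y, y * y = 1 → y = 1 := fun y hy h2 => by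
    by_contra h1
    obtain ⟨l, hl, h4⟩ := h.symm.exists_point h1 h2
    exact hc l hl (h.inc_of_fix ha hl h1 h4 (hY.1 hy).1) (h.inc_of_fix hb hl h1 h4 (hY.1 hy).2)
  obtain ⟨l, hl, al⟩ := h.exists_line ha
  have hf := h.flag ha hl al
  obtain ⟨u₀, hu₀, u₁, hu₁, h0, h1, h01⟩ := exists_two hf.card
  obtain ⟨s, hs, e0, hsa, hsb⟩ := sw u₀ hu₀.1 h0
  have tr : ∀ u ∈ a, u ≠ 1 → ∃ y ∈ Y, y * u₀ * y⁻¹ = u ∧ s * y * s⁻¹ = y⁻¹ := fun u hu hu1 => by
    obtain ⟨s', hs', e1, hsa', hsb'⟩ := sw u hu hu1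
    refine ⟨s' * s, hY.2 ⟨by rw [conjS_mul, hsa, hsb'], by rw [conjS_mul, hsb, hsa']⟩, ?_,
      StrEmb.inverts_mul_right hs' hs⟩
    rw [mul_inv_rev, ← mul_assoc, mul_assoc s', mul_assoc s', e0, ← e1, ← mul_assoc, ← mul_assoc,
      hs', one_mul, mul_assoc, ← mul_inv_rev, hs', inv_one, mul_one]
  let K : Subgroup G := Y ⊓ normalizer (l : Set G)
  have cnt : ∀ H V : Subgroup G, u₀ ∈ V → V ≤ a → H ≤ normalizer (V : Set G) →
      (∀ y ∈ Y, y * u₀ * y⁻¹ ∈ V → y ∈ H) →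
      (centralizer ({u₀} : Set G)).relIndex H = Nat.card V - 1 := fun H V k1 k2 k3 k4 => by
    rw [← Fgs.ncard_conj_by_subgroup, show Nat.card V = (V : Set G).ncard from rfl,
      ← Set.ncard_sdiff_singleton_of_mem V.one_mem]
    congr 1
    ext x
    refine ⟨?_, fun hx => ?_⟩
    · rintro ⟨y, hy, rfl⟩
      exact ⟨conj_mem_of_mem_normalizer (k3 hy) k1, conj_ne_one h0⟩
    · obtain ⟨y, hy, rfl, -⟩ := tr x (k2 hx.1) hx.2
      exact ⟨y, k4 y hy hx.1, rfl⟩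
  have c1 := cnt Y a hu₀.1 le_rfl inf_le_left fun y hy _ => hy
  have c2 := cnt K (a ⊓ l) hu₀ inf_le_left (fun y hy => mem_normalizer_iff_conjS.2 (by
    rw [conjS_inf, (hY.1 hy.1).1, mem_normalizer_iff_conjS.1 hy.2])) fun y hy e =>
      ⟨hy, mem_normalizer_iff_conjS.2 (h.symm.conj_eq hl hl h0 hu₀.2 e.2)⟩
  have c3 : centralizer ({u₀} : Set G) ⊓ K = centralizer ({u₀} : Set G) ⊓ Y :=
    le_antisymm (inf_le_inf_left _ inf_le_left) fun y hy => ⟨hy.1, hy.2, mem_normalizer_iff_conjS.2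
      (h.symm.fix_of_comm hl h0 hu₀.2 (mem_centralizer_singleton_iff.1 hy.1))⟩
  have c4 := Core.card_inf_mul_relIndex (centralizer ({u₀} : Set G)) K
  have c5 := Core.card_inf_mul_relIndex (centralizer ({u₀} : Set G)) Y
  have c6 := Tech.card_mul_relIndex' (inf_le_left : K ≤ Y)
  have c7 : Nat.card (centralizer ({u₀} : Set G) ⊓ Y : Subgroup G) ∣ 3 := by
    refine Nat.Coprime.dvd_of_dvd_mul_left (m := 2 ^ 6) (Nat.Coprime.pow_right _
      (Nat.coprime_two_right.2 (StrEmb.odd_card_of_forall fun t ht e => StrEmb.ne_one_of_orderOf e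
        (hodd t ht.2 (StrEmb.mul_self_of_orderOf e))))) ?_
    exact (card_dvd_of_le inf_le_left).trans (h.cc u₀ h0 (h.sq ha hu₀.1)).dvd
  rw [c3, c2, hf.card] at c4
  rw [c1, (h.sP a ha).1] at c5
  have hK : IsPGroup 3 K := IsPGroup.of_card_dvd_pow (n := 2) (c4 ▸ Nat.mul_dvd_mul_right c7 3)
  have hn := le_normalizer_of_index_five (inf_le_left : K ≤ Y) hK (by
    have : 0 < Nat.card K := Nat.card_pos
    rw [← c5, ← c4] at c6
    rw [← c4] at this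
    nlinarith)
  obtain ⟨y, hy, e1, e2⟩ := tr u₁ hu₁.1 h1
  have yK : y ∈ K := ⟨hy, mem_normalizer_iff_conjS.2 (h.symm.conj_eq hl hl h0 hu₀.2 (e1 ▸ hu₁.2))⟩
  have ym : ∀ m, L m → Inc a m → conjS y m = m := by
    rintro m hm ⟨u, hu1, hu, hum⟩
    obtain ⟨x, hx, e2, -⟩ := tr u hu hu1
    have := mem_normalizer_iff_conjS.1 (conj_mem_of_mem_normalizer (hn (inv_mem hx)) yK).2
    rw [← h.symm.conj_eq hl hm h0 hu₀.2 (e2 ▸ hum)]
    nth_rw 2 [← this]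
    simp only [← conjS_mul]
    group
  obtain ⟨m, hm, am, lm⟩ := h.symm.exists_ne hl ha al.symm
  obtain ⟨n, hn, an, ln, mn⟩ := h.symm.exists_third hl hm lm ha al.symm am
  obtain ⟨r, hr, w, hw, w1, e3⟩ := h.symm.exists_map hl ha al.symm hm hn am an lm ln
  have e4 := h.symm.conj_eq hm hn w1 hw.1 e3
  have k1 := mul_mem (inv_mem hr) (conj_mem_of_mem_normalizer yK.2 hr)
  have k2 : r⁻¹ * (y * r * y⁻¹) ∈ a := by
    by_contra e
    have k3 : conjS (r⁻¹ * (y * r * y⁻¹)) m = m := by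
      rw [conjS_mul, conjS_mul, conjS_mul, ← ym m hm am.symm, conjS_inv_conjS, e4, ym n hn an.symm,
        ← e4, conjS_inv_conjS, ym m hm am.symm]
    have k0 : r⁻¹ * (y * r * y⁻¹) ≠ 1 := fun e1 => e (by rw [e1]; exact one_mem _)
    obtain ⟨p, hp, h2⟩ := h.exists_point k0 (h.symm.sq hl k1)
    have k4 := h.symm.inc_of_fix hm hp k0 h2 k3
    exact lm (h.line_eq ha hp (fun e1 => e (e1 ▸ h2)) hl hm al ⟨_, k0, h2, k1⟩ am.symm k4.symm)
  obtain ⟨u, hu, e5⟩ := exists_fix_coset hf.card (hK.to_le (zpowers_le.2 yK))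
    (mem_normalizer_iff_conjS.2 (by rw [conjS_inf, (hY.1 hy).1, mem_normalizer_iff_conjS.1 yK.2]))
    (r := r) ⟨k2, k1⟩
  rw [h.fpf hodd hy hs e2 (h.symm.sq hl (mul_mem hr hu.2)) (fun e => mn ?_) e5.symm] at e1
  · exact h01 (by simpa using e1)
  · rw [← e4, h.symm.fix_of_inc hm ha am]
    rw [eq_inv_of_mul_eq_one_left e]
    exact inv_mem hu.1

end Pl

/-- A quadrangle `p 0, p 1, p 2, e` with its sides and diagonal points. -/
structure Fr (P L : Subgroup G → Prop) (p l m r : Fin 3 → Subgroup G)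
    (e : Subgroup G) : Prop extends Pl P L where
  hp : ∀ i, P (p i)
  hl : ∀ i, L (l i)
  hm : ∀ i, L (m i)
  hr : ∀ i, P (r i)
  he : P e
  pl : ∀ {i j}, i ≠ j → Inc (p i) (l j)
  npl : ∀ i, ¬ Inc (p i) (l i)
  pm : ∀ i, Inc (p i) (m i)
  em : ∀ i, Inc e (m i)
  rm : ∀ i, Inc (r i) (m i)
  rl : ∀ i, Inc (r i) (l i)
  nel : ∀ i, ¬ Inc e (l i)

variable [Finite G] {P L : Subgroup G → Prop}

theorem Pl.exists_frame (h : Pl P L) {a : Subgroup G} (ha : P a) :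
    ∃ p l m r e, Fr P L p l m r e := by
  obtain ⟨l₂, hl₂, a2⟩ := h.exists_line ha
  obtain ⟨b, hb, b2, ab⟩ := h.exists_ne ha hl₂ a2
  obtain ⟨l₁, hl₁, a1, l21⟩ := h.symm.exists_ne hl₂ ha a2.symm
  obtain ⟨c, hc, c1, ac⟩ := h.exists_ne ha hl₁ a1.symm
  obtain ⟨l₀, hl₀, b0, c0⟩ := h.col hb hc
  have nc : ¬ Inc c l₂ := fun e => l21 (h.line_eq ha hc ac hl₂ hl₁ a2 e a1.symm c1)
  have nb : ¬ Inc b l₁ := fun e => l21 (h.line_eq ha hb ab hl₂ hl₁ a2 b2 a1.symm e)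
  have na : ¬ Inc a l₀ := fun e => nc (h.line_eq ha hb ab hl₀ hl₂ e b0 a2 b2 ▸ c0)
  obtain ⟨r₂, hr₂, r2, ar, br⟩ := h.exists_third ha hb ab hl₂ a2 b2
  obtain ⟨m₂, hm₂, cm2, rm2⟩ := h.col hc hr₂
  have cr : c ≠ r₂ := fun e => nc (e ▸ r2)
  obtain ⟨e, he, em2, ce, re⟩ := h.exists_third hc hr₂ cr hm₂ cm2 rm2
  obtain ⟨m₀, hm₀, am0, em0⟩ := h.col ha he
  obtain ⟨m₁, hm₁, bm1, em1⟩ := h.col hb he
  obtain ⟨r₀, hr₀, rm0, rl0⟩ := h.symm.col hm₀ hl₀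
  obtain ⟨r₁, hr₁, rm1, rl1⟩ := h.symm.col hm₁ hl₁
  refine ⟨![a, b, c], ![l₀, l₁, l₂], ![m₀, m₁, m₂], ![r₀, r₁, r₂], e, h, ?_, ?_, ?_, ?_, he, ?_, ?_,
    ?_, ?_, ?_, ?_, ?_⟩
  · intro i; fin_cases i; exacts [ha, hb, hc]
  · intro i; fin_cases i; exacts [hl₀, hl₁, hl₂]
  · intro i; fin_cases i; exacts [hm₀, hm₁, hm₂]
  · intro i; fin_cases i; exacts [hr₀, hr₁, hr₂]
  · intro i j hij
    fin_cases i <;> fin_cases j
    exacts [absurd rfl hij, a1.symm, a2, b0, absurd rfl hij, b2, c0, c1, absurd rfl hij]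
  · intro i; fin_cases i; exacts [na, nb, nc]
  · intro i; fin_cases i; exacts [am0, bm1, cm2]
  · intro i; fin_cases i; exacts [em0, em1, em2]
  · intro i; fin_cases i; exacts [rm0.symm, rm1.symm, rm2]
  · intro i; fin_cases i; exacts [rl0.symm, rl1.symm, r2]
  · intro i
    fin_cases i
    · intro e0
      have := h.line_eq hc he ce hm₂ hl₀ cm2 em2 c0 e0
      exact na (h.line_eq hb hr₂ br hl₂ hl₀ b2 r2 b0 (this ▸ rm2) ▸ a2)
    · intro e0
      have := h.line_eq hc he ce hm₂ hl₁ cm2 em2 c1 e0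
      exact l21 (h.line_eq ha hr₂ ar hl₂ hl₁ a2 r2 a1.symm (this ▸ rm2))
    · intro e0
      exact nc (h.line_eq hr₂ he re hm₂ hl₂ rm2 em2 r2 e0 ▸ cm2)

namespace Fr

variable {p l m r : Fin 3 → Subgroup G} {e : Subgroup G} {i j k : Fin 3}

omit [Finite G] in
theorem p_ne (h : Fr P L p l m r e) (hij : i ≠ j) : p i ≠ p j := fun e =>
  h.npl j (e ▸ h.pl hij)

omit [Finite G] in
theorem l_ne (h : Fr P L p l m r e) (hij : i ≠ j) : l i ≠ l j := fun e =>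
  h.npl i (e ▸ h.pl hij)

omit [Finite G] in
theorem ml (h : Fr P L p l m r e) (i j : Fin 3) : m i ≠ l j := fun e =>
  h.nel j (e ▸ h.em i)

theorem npm (h : Fr P L p l m r e) (hij : i ≠ j) : ¬ Inc (p i) (m j) := fun e => by
  obtain ⟨k, hik, hjk⟩ := fin3_third i j hij
  exact h.ml j k (h.line_eq (h.hp i) (h.hp j) (h.p_ne hij) (h.hm j) (h.hl k) e (h.pm j) (h.pl hik)
    (h.pl hjk))

theorem m_ne (h : Fr P L p l m r e) (hij : i ≠ j) : m i ≠ m j := fun e =>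
  h.npm hij (e ▸ h.pm i)

theorem pr (h : Fr P L p l m r e) (i j : Fin 3) : p i ≠ r j := fun e => by
  by_cases hij : i = j
  · exact h.npl i (e ▸ hij ▸ h.rl j)
  · exact h.npm hij (e ▸ h.rm j)

omit [Finite G] in
theorem pe (h : Fr P L p l m r e) (i : Fin 3) : p i ≠ e := fun e => by
  obtain ⟨j, hj⟩ := exists_ne i
  exact h.nel j (e ▸ h.pl hj.symm)

theorem exists_root (h : Fr P L p l m r e) (hij : i ≠ j) : ∃ a, a ∈ p i ∧ a ∈ l j ∧ a ≠ 1 ∧
    ∀ k, i ≠ k → j ≠ k → conjS a (p j) = r k := by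
  obtain ⟨k, hik, hjk⟩ := fin3_third i j hij
  obtain ⟨a, h1, h2, h3⟩ := h.root (h.hp i) (h.hl k) (h.hl j) (h.l_ne hjk.symm) (h.pl hik)
    (h.pl hij) (h.hp j) (h.hr k) (h.pl hjk) (h.rl k) (h.p_ne hij) (h.pr i k)
  refine ⟨a, h1, h2, ?_, fun k' h4 h5 => ?_⟩
  · rintro rfl
    exact h.pr j k (by rw [← h3, conjS_one])
  · obtain rfl : k = k' := by omega
    exact h3

theorem root_r (h : Fr P L p l m r e) (hij : i ≠ j) (hik : i ≠ k) (hjk : j ≠ k) {a : G}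
    (h1 : a ∈ p i) (h2 : a ∈ l j) (h3 : conjS a (p j) = r k) : conjS a (r i) = e := by
  have e1 : conjS a (m i) = m i := h.symm.fix_of_inc (h.hm i) (h.hp i) (h.pm i).symm h1
  have e2 : conjS a (p k) = p k := h.fix_of_inc (h.hp k) (h.hl j) (h.pl hjk.symm) h2
  have e3 : conjS a (l i) = m k := h.line_eq (h.hp k) (h.hr k) (h.pr k k) (h.cL _ _ (h.hl i))
    (h.hm k) (e2 ▸ (h.pl hik.symm).conj a) (h3 ▸ (h.pl hij.symm).conj a) (h.pm k) (h.rm k)
  exact h.symm.line_eq (h.hm i) (h.hm k) (h.m_ne hik) (h.cP _ _ (h.hr i)) h.he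
    (e1 ▸ (h.rm i).symm.conj a) (e3 ▸ (h.rl i).symm.conj a) (h.em i).symm (h.em k).symm

omit [Finite G] in
theorem cm_mem (h : Fr P L p l m r e) (hik : i ≠ k) {a b : G}
    (h1 : a ∈ p i) (h4 : b ∈ l k) : cm a b ∈ p i ⊓ l k := by
  have e1 := mem_normalizer_iff_conjS.2 (h.symm.fix_of_inc (h.hl k) (h.hp i) (h.pl hik).symm h1)
  have e2 := mem_normalizer_iff_conjS.2 (h.fix_of_inc (h.hp i) (h.hl k) (h.pl hik) h4)
  exact ⟨cm_swap_mem ((p i).mul_mem (conj_mem_of_mem_normalizer e2 h1) ((p i).inv_mem h1)),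
    (l k).mul_mem (conj_mem_of_mem_normalizer e1 h4) ((l k).inv_mem h4)⟩

theorem chain (h : Fr P L p l m r e) (hij : i ≠ j) (hik : i ≠ k) (hjk : j ≠ k) {a b c : G}
    (a1 : a ∈ p i) (a2 : a ∈ l j) (a3 : conjS a (p j) = r k) (b1 : b ∈ p j) (b2 : b ∈ l k)
    (b3 : conjS b (p k) = r i) (c2 : c ∈ l k) (c3 : conjS c (p k) = r j) : cm a b = c := by
  refine h.root_unique (h.hl k) (h.hp k) (h.npl k) (h.cm_mem hik a1 b2).2 c2 ?_
  have e1 := h.root_r hij hik hjk a1 a2 a3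
  have e2 := h.root_r hjk hij.symm hik.symm b1 b2 b3
  have hb := h.sq (h.hp j) b1
  rw [cm, inv_eq_of_sq (h.sq (h.hp i) a1), inv_eq_of_sq hb, conjS_mul, conjS_mul, conjS_mul, b3, e1,
    ← e2, ← conjS_mul b, hb, conjS_one, c3]
  exact h.fix_of_inc (h.hr j) (h.hl j) (h.rl j) a2

theorem swap (h : Fr P L p l m r e) (hij : i ≠ j) (hik : i ≠ k) (hjk : j ≠ k)
    {c n : Subgroup G} (hc : P c) (hn : L n) (cl : Inc c (l k)) (cn : Inc c n)
    (pn : Inc (p k) n) (ci : c ≠ p i) (cj : c ≠ p j) : ∃ w, w ∈ c ∧ w ∈ n ∧ w ≠ 1 ∧ w * w = 1 ∧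
      conjS w (p i) = p j ∧ conjS w (p j) = p i ∧ conjS w (p k) = p k := by
  obtain ⟨w, h1, h2, h3⟩ := h.root hc (h.hl k) hn (fun e => h.npl k (e ▸ pn)) cl cn (h.hp i)
    (h.hp j) (h.pl hik) (h.pl hjk) ci cj
  refine ⟨w, h1, h2, ?_, h.sq hc h1, h3, by rw [← h3, ← conjS_mul, h.sq hc h1, conjS_one],
    h.fix_of_inc (h.hp k) hn pn h2⟩
  rintro rfl
  exact h.p_ne hij (by rw [← h3, conjS_one])

omit [Finite G] in
theorem card_root (h : Fr P L p l m r e) (hij : i ≠ j) :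
    Nat.card (p i ⊓ l j : Subgroup G) = 4 := (h.flag (h.hp i) (h.hl j) (h.pl hij)).card

/-- A torus element exists. -/
theorem torus (h : Fr P L p l m r e) :
    ∃ k, (∀ u, u * u = 1 → k * u = u * k → u = 1) ∧ ∀ i, conjS k (p i) = p i := by
  let K : Subgroup G := normalizer (p 0 : Set G) ⊓ normalizer (p 1 : Set G) ⊓
    normalizer (p 2 : Set G)
  have hK : ∀ {y}, y ∈ K ↔ (conjS y (p 0) = p 0 ∧ conjS y (p 1) = p 1) ∧ conjS y (p 2) = p 2 :=
    and_congr (and_congr mem_normalizer_iff_conjS mem_normalizer_iff_conjS) mem_normalizer_iff_conjS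
  have hodd : ∀ y ∈ K, y * y = 1 → y = 1 := fun y hy h2 => by
    by_contra h1
    obtain ⟨n, hn, h4⟩ := h.symm.exists_point h1 h2
    exact h.npl 2 (h.line_eq (h.hp 0) (h.hp 1) (h.p_ne (by decide)) hn (h.hl 2)
      (h.inc_of_fix (h.hp 0) hn h1 h4 (hK.1 hy).1.1) (h.inc_of_fix (h.hp 1) hn h1 h4 (hK.1 hy).1.2)
      (h.pl (by decide)) (h.pl (by decide)) ▸ h.inc_of_fix (h.hp 2) hn h1 h4 (hK.1 hy).2)
  obtain ⟨w, c1, -, n1, s1, a1, b1, d1⟩ := h.swap (i := 0) (j := 1) (k := 2) (by decide) (by decide)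
    (by decide) (h.hr 2) (h.hm 2) (h.rl 2) (h.rm 2) (h.pm 2) (h.pr 0 2).symm (h.pr 1 2).symm
  obtain ⟨a, ha, e0⟩ : ∃ a ∈ p 0 ⊓ l 1, ¬ (a = 1 ∨ conjS a (p 1) = r 2) := by
    obtain ⟨u, hu, u', hu', h0, h1, h2⟩ := exists_two (h.card_root (i := 0) (j := 1) (by decide))
    by_contra! h3
    exact h2 (h.root_unique (h.hl 1) (h.hp 1) (h.npl 1) hu.2 hu'.2
      (((h3 u hu).resolve_left h0).trans ((h3 u' hu').resolve_left h1).symm))
  rw [not_or] at e0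
  have e1 := h.fix_of_inc (h.hp 0) (h.hl 1) (h.pl (by decide)) ha.2
  have e2 := h.fix_of_inc (h.hp 2) (h.hl 1) (h.pl (by decide)) ha.2
  have e3 := h.symm.fix_of_inc (h.hl 2) (h.hp 0) (h.pl (by decide)).symm ha.1
  obtain ⟨w', c2, -, n2, s2, a2, b2, d2⟩ := h.swap (i := 0) (j := 1) (k := 2) (by decide)
    (by decide) (by decide) (h.cP a _ (h.hp 1)) (h.cL a _ (h.hl 0))
    (e3 ▸ (h.pl (by decide)).conj a) ((h.pl (by decide)).conj a)
    (e2 ▸ (h.pl (by decide)).conj a)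
    (fun e => h.p_ne (by decide) (conjS_injective a (e.trans e1.symm)))
    (fun e => h.npl 1 (h.inc_of_fix (h.hp 1) (h.hl 1) e0.1 ha.2 e))
  have h1 : w' * w ∈ K := hK.2 ⟨⟨by rw [conjS_mul, a1, b2], by rw [conjS_mul, b1, a2]⟩,
    by rw [conjS_mul, d1, d2]⟩
  refine ⟨w' * w, fun u h2 h3 => by_contra fun h4 => e0.2 ?_, fun i => ?_⟩
  · have := h.fpf hodd h1 s1 (StrEmb.inverts_mul_right s2 s1) h2 h4 h3.symm
    rw [eq_inv_of_mul_eq_one_left this, inv_eq_of_sq s1] at c2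
    exact h.uP _ _ _ (h.cP a _ (h.hp 1)) (h.hr 2) n1 c2 c1
  · fin_cases i
    exacts [(hK.1 h1).1.1, (hK.1 h1).1.2, (hK.1 h1).2]

theorem le_of_roots (h : Fr P L p l m r e) {M : Subgroup G}
    (hM : ∀ i j, i ≠ j → p i ⊓ l j ≤ M) {x : Subgroup G} (hx : P x) : x ≤ M := by
  have hl : ∀ j, l j ≤ M := fun j t ht => by
    obtain ⟨i, hi⟩ := exists_ne j
    obtain ⟨k, hik, hjk⟩ := fin3_third i j hi
    obtain ⟨a, ha, b, hb, rfl⟩ := h.decomp (h.hp i) (h.hp k) (h.p_ne hik) (h.hl j) (h.pl hi)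
      (h.pl hjk.symm) ht
    exact M.mul_mem (hM i j hi ha) (hM k j hjk.symm hb)
  have hp : ∀ i, p i ≤ M := fun i t ht => by
    obtain ⟨j, hj⟩ := exists_ne i
    obtain ⟨k, hjk, hik⟩ := fin3_third j i hj
    obtain ⟨a, ha, b, hb, rfl⟩ := h.symm.decomp (h.hl j) (h.hl k) (h.l_ne hjk) (h.hp i)
      (h.pl hj.symm).symm (h.pl hik).symm ht
    exact M.mul_mem (hM i j hj.symm ha.symm) (hM i k hik hb.symm)
  have key : ∀ j, ¬ Inc x (l j) → x ≤ M := fun j hj => by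
    obtain ⟨n, hn, pn, xn⟩ := h.col (h.hp j) hx
    obtain ⟨c, hc, cn, cl⟩ := h.symm.col hn (h.hl j)
    obtain ⟨u, -, hu, rfl⟩ := h.root hc hn (h.hl j) (fun e => hj (e ▸ xn)) cn.symm cl.symm (h.hp j)
      hx pn xn (fun e => h.npl j (e ▸ cl.symm)) (fun e => hj (e ▸ cl.symm))
    exact conjS_le_of_le_of_mem (hp j) (hl j hu)
  by_cases h0 : Inc x (l 0)
  · by_cases h1 : Inc x (l 1)
    · rw [h.symm.line_eq (h.hl 0) (h.hl 1) (h.l_ne (by decide)) hx (h.hp 2) h0.symm h1.symm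
        (h.pl (by decide)).symm (h.pl (by decide)).symm]
      exact hp 2
    · exact key 1 h1
  · exact key 0 h0

end Fr

/-- The involutions generate an image of `SL₃(4)`. -/
theorem Pl.exists_hom (h₀ : Pl P L) {a₀ : Subgroup G} (ha₀ : P a₀) :
    ∃ φ : Matrix.SpecialLinearGroup (Fin 3) GF4 →* G, (∀ t, t * t = 1 → t ∈ φ.range) ∧
      ∀ (b : ClSys.OffD 3) (t : GF4), φ (Matrix.SpecialLinearGroup.transvection b.2 t) *
        φ (Matrix.SpecialLinearGroup.transvection b.2 t) = 1 := by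
  obtain ⟨p, l, m, r, e, h⟩ := h₀.exists_frame ha₀
  obtain ⟨k, hk, kp⟩ := h.torus
  have kl : ∀ j, conjS k (l j) = l j := fun j => by
    obtain ⟨i, hi⟩ := _root_.exists_ne j
    obtain ⟨i', h1, h2⟩ := fin3_third i j hi
    exact h.line_eq (h.hp i) (h.hp i') (h.p_ne h1) (h.cL k _ (h.hl j)) (h.hl j)
      (kp i ▸ (h.pl hi).conj k) (kp i' ▸ (h.pl h2.symm).conj k) (h.pl hi) (h.pl h2.symm)
  let κ : ClSys.OffD 3 → G := fun a => if a.1.2 = a.1.1 + 1 then k else k⁻¹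
  have κn : ∀ a i j, κ a ∈ normalizer ((p i ⊓ l j : Subgroup G) : Set G) := fun a i j => by
    have : k ∈ normalizer ((p i ⊓ l j : Subgroup G) : Set G) :=
      mem_normalizer_iff_conjS.2 (by rw [conjS_inf, kp, kl])
    simp only [κ]
    split_ifs
    exacts [this, inv_mem this]
  have κf : ∀ a i j, ∀ u ∈ p i ⊓ l j, κ a * u = u * κ a → u = 1 := fun a i j u hu e => by
    refine hk u (h.sq (h.hp i) hu.1) ?_
    simp only [κ] at e
    split_ifs at e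
    exacts [e, (Commute.inv_left_iff.1 e).eq]
  choose a a1 a2 a3 a4 using fun b : ClSys.OffD 3 => h.exists_root b.2
  have am : ∀ b : ClSys.OffD 3, a b ∈ p b.1.1 ⊓ l b.1.2 := fun b => ⟨a1 b, a2 b⟩
  have am' : ∀ b : ClSys.OffD 3, κ b * a b * (κ b)⁻¹ ∈ p b.1.1 ⊓ l b.1.2 := fun b =>
    conj_mem_of_mem_normalizer (κn b _ _) (am b)
  let x : ClSys.OffD 3 → GF4 → G := fun b => par4 (a b) (κ b * a b * (κ b)⁻¹)
  have xm : ∀ b t, x b t ∈ p b.1.1 ⊓ l b.1.2 := fun b t => par4_mem (am b) (am' b) t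
  have hx : ClSys.RelA x := by
    refine ⟨fun b => par4_add (h.sq (h.hp _) (a1 b)) (h.sq (h.hp _) (am' b).1)
      (h.comm (h.hp _) (am' b).1 (a1 b)), ?_, ?_⟩
    · rintro ⟨⟨i, j⟩, hij⟩ ⟨⟨i', j'⟩, hij'⟩ t u h1 h2
      rw [cm_eq_one_iff]
      dsimp only at hij hij' h1 h2
      by_cases e : i = i'
      · subst e
        exact h.comm (h.hp i) (xm ⟨(i, j), hij⟩ t).1 (xm ⟨(i, j'), hij'⟩ u).1
      · obtain rfl : j = j' := by omega
        exact h.symm.comm (h.hl j) (xm ⟨(i, j), hij⟩ t).2 (xm ⟨(i', j), hij'⟩ u).2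
    · rintro ⟨⟨i, j⟩, hij⟩ ⟨⟨i', j'⟩, hjk⟩ hik t u e
      dsimp only at hij hjk hik e
      subst e
      have e1 : κ ⟨(j, j'), hjk⟩ = κ ⟨(i, j), hij⟩ := by
        have : j' = j + 1 ↔ j = i + 1 := by omega
        simp only [κ, this]
      have e2 : κ ⟨(i, j'), hik⟩ = (κ ⟨(i, j), hij⟩)⁻¹ := by
        have : j' = i + 1 ↔ ¬ j = i + 1 := by omega
        simp only [κ, this]
        split_ifs <;> simp_all
      have e3 := h.chain hij hik hjk (a1 ⟨(i, j), hij⟩) (a2 ⟨(i, j), hij⟩) (a4 ⟨(i, j), hij⟩ j' hik hjk)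
        (a1 ⟨(j, j'), hjk⟩) (a2 ⟨(j, j'), hjk⟩) (a4 ⟨(j, j'), hjk⟩ i hij.symm hik.symm)
        (a2 ⟨(i, j'), hik⟩) (a4 ⟨(i, j'), hik⟩ j hij hjk.symm)
      simp only [x]
      rw [e1, e2, ← e3]
      refine par4_chain (U := p i ⊓ l j) (V := p j ⊓ l j') (W := p i ⊓ l j') (h.card_root hik)
        (fun w hw => h.sq (h.hp i) hw.1) (fun a ha b hb => h.cm_mem hik ha.1 hb.2)
        (fun a ha w hw => h.comm (h.hp i) ha.1 hw.1)
        (fun a ha w hw => h.symm.comm (h.hl j') ha.2 hw.2) (fun a ha b hb e => ?_) (κn _ _ _)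
        (κn _ _ _) (κn _ _ _) (κf _ _ _) (κf _ _ _) (κf _ _ _) (am ⟨(i, j), hij⟩)
        (am ⟨(j, j'), hjk⟩) (a3 _) (a3 _) t u
      by_contra hc
      push Not at hc
      exact h.npl j (h.inc_of_comm (h.hp j) (h.hl j) hc.1 ha.2 hb.1 hc.2 (cm_eq_one_iff.1 e).symm)
  obtain ⟨φ, hφ⟩ := hx.exists_hom le_rfl
  have hM : ∀ i j, i ≠ j → p i ⊓ l j ≤ φ.range := fun i j hij u hu => by
    rcases (four_group (h.card_root hij) (fun w hw => h.sq (h.hp i) hw.1) (κn ⟨(i, j), hij⟩ i j)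
      (κf _ i j) (am ⟨(i, j), hij⟩) (a3 _)).1 u hu with rfl | rfl | rfl | rfl
    · exact one_mem _
    · exact ⟨_, (hφ ⟨(i, j), hij⟩ 1).trans (by simp +decide only [x, par4, if_true, if_false])⟩
    · exact ⟨_, (hφ ⟨(i, j), hij⟩ ⟨0, 1⟩).trans (by simp +decide only [x, par4, if_true, if_false])⟩
    · exact ⟨_, (hφ ⟨(i, j), hij⟩ ⟨1, 1⟩).trans (by simp +decide only [x, par4, if_false])⟩
  refine ⟨φ, fun t ht => ?_, fun b t => by rw [hφ]; exact h.sq (h.hp _) (xm b t).1⟩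
  by_cases h1 : t = 1
  · exact h1 ▸ one_mem _
  obtain ⟨x, hx, h2⟩ := h.exists_point h1 ht
  exact h.le_of_roots hM hx h2

end CfsgLib.W2.L34
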