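import Mathlib
import Cfsg.Agent.Lib.W2.L34Plane

/-!
From the local data to the plane; automorphism groups of almost simple groups.
-/

set_option autoImplicit false

namespace CfsgLib.W2.L34

open Cfsg Subgroup CfsgLib.LAE CfsgLib.CIT

variable {G : Type*} [Group G]

theorem Fl.conj {a l : Subgroup G} (h : Fl a l) (g : G) : Fl (conjS g a) (conjS g l) := by
  have k : ∀ {x y : G}, x * y = y * x → g⁻¹ * x * g * (g⁻¹ * y * g) = g⁻¹ * y * g * (g⁻¹ * x * g) :=
    fun {x y} e => by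
      calc _ = g⁻¹ * (x * y) * g := by group
        _ = _ := by rw [e]; group
  have r : ∀ {a l : Subgroup G}, (∀ v ∈ l, v ∉ a → ∀ u ∈ a ⊓ l, ∃ y ∈ a, y * v * y⁻¹ = u * v) →
      ∀ v ∈ conjS g l, v ∉ conjS g a → ∀ u, u ∈ conjS g a → u ∈ conjS g l →
        ∃ y ∈ conjS g a, y * v * y⁻¹ = u * v := fun h v h1 h2 u h3 h4 => by
    obtain ⟨y, hy, e⟩ := h _ (mem_conjS.1 h1) (mt mem_conjS.2 h2) _ ⟨mem_conjS.1 h3, mem_conjS.1 h4⟩
    refine ⟨_, conj_mem_conjS.2 hy, ?_⟩
    calc _ = g * (y * (g⁻¹ * v * g) * y⁻¹) * g⁻¹ := by group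
      _ = _ := by rw [e]; group
  refine ⟨by rw [← conjS_inf, card_conjS, h.card], fun u hu h1 x h2 h3 => ?_,
    fun u hu w hw e => ?_, fun v h1 h2 u hu => r h.reg v h1 h2 u hu.1 hu.2,
    fun v h1 h2 u hu => r h.symm.reg v h1 h2 u hu.2 hu.1⟩
  · rw [mem_conjS, mem_conjS]
    refine h.cen _ ⟨mem_conjS.1 hu.1, mem_conjS.1 hu.2⟩
      (by simpa using conj_ne_one (g := g⁻¹) h1) _ (k h2) ?_
    calc _ = g⁻¹ * (x * x) * g := by group
      _ = _ := by rw [h3]; group
  · rw [mem_conjS, mem_conjS]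
    exact h.nd _ (mem_conjS.1 hu) _ (mem_conjS.1 hw) (k e)

theorem sq_conjS {A : Subgroup G} (h : ∀ a ∈ A, a * a = 1) (g : G) : ∀ a ∈ conjS g A, a * a = 1 := by
  rintro _ ⟨u, hu, rfl⟩
  rw [← map_mul, h u hu, map_one]

/-- The local data. -/
structure Loc (A B : Subgroup G) : Prop where
  sA : Nat.card A = 16 ∧ ∀ t ∈ A, t * t = 1
  sB : Nat.card B = 16 ∧ ∀ t ∈ B, t * t = 1
  fl : Fl A B
  syl : Tech.IsSylowIn 2 (A ⊔ B) ⊤
  cls : ∀ t : G, t ≠ 1 → t * t = 1 → ∃ g, g * t * g⁻¹ ∈ A ⊓ B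
  cc : ∀ t : G, t ≠ 1 → t * t = 1 → Nat.card (centralizer ({t} : Set G)) = 192

variable [Finite G]

theorem Fl.eq_or {a l x : Subgroup G} (h : Fl a l) (ha : Nat.card a = 16) (hl : Nat.card l = 16)
    (hx : Nat.card x = 16) (sq : ∀ t ∈ x, t * t = 1) {u : G} (hu : u ∈ a ⊓ l) (h1 : u ≠ 1)
    (hc : ∀ t ∈ x, t * u = u * t) : x = a ∨ x = l := by
  have k := fun t ht => h.cen u hu h1 t (hc t ht) (sq t ht)
  by_cases h2 : x ≤ a
  · exact Or.inl (eq_of_le_of_card_ge h2 (by rw [ha, hx]))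
  refine Or.inr (eq_of_le_of_card_ge (fun q hq => ?_) (by rw [hl, hx]))
  obtain ⟨p, hp, h3⟩ := SetLike.not_le_iff_exists.1 h2
  by_contra h4
  rcases k _ (mul_mem hp hq) with h5 | h5
  exacts [h3 ((mul_mem_cancel_right ((k q hq).resolve_right h4)).1 h5),
    h4 ((mul_mem_cancel_left ((k p hp).resolve_left h3)).1 h5)]

namespace Loc

variable {A B : Subgroup G}

omit [Finite G] in
theorem symm (h : Loc A B) : Loc B A :=
  ⟨h.sB, h.sA, h.fl.symm, sup_comm A B ▸ h.syl, inf_comm A B ▸ h.cls, h.cc⟩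

omit [Finite G] in
theorem ne (h : Loc A B) : A ≠ B := fun e => by
  have := h.fl.card
  rw [e, inf_idem, h.sB.1] at this
  omega

theorem le_norm (h : Loc A B) : A ⊔ B ≤ normalizer (A : Set G) := by
  refine sup_le le_normalizer fun b hb => mem_normalizer_iff_conjS.2 ?_
  obtain ⟨u, hu, -, -, h1, -⟩ := exists_two h.fl.card
  refine (h.fl.eq_or h.sA.1 h.sB.1 (by rw [card_conjS, h.sA.1]) (sq_conjS h.sA.2 b) hu h1
    fun t ht => comm_of_sq (sq_conjS h.sA.2 b) ht ?_).resolve_right fun e => h.ne ?_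
  · rw [mem_conjS, mul_assoc, comm_of_sq h.sB.2 hu.2 hb, inv_mul_cancel_left]
    exact hu.1
  · exact conjS_injective b (e.trans (mem_normalizer_iff_conjS.1 (le_normalizer hb)).symm)

theorem not_conj (h : Loc A B) (g : G) : conjS g A ≠ B := fun e => by
  have nB : A ⊔ B ≤ normalizer (B : Set G) := sup_comm A B ▸ h.symm.le_norm
  obtain ⟨c, hc, e1⟩ := ((h.syl.cj_of_mem (mem_top g)).of_le (K := normalizer (B : Set G))
    (by have := conjS_mono (g := g) h.le_norm; rwa [conjS_normalizer, e] at this) le_top).exists_cj_eq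
    (h.syl.of_le nB le_top)
  replace e1 : conjS (c * g) (A ⊔ B) = A ⊔ B := by rw [conjS_mul]; exact e1
  have e2 : conjS (c * g) A = B := by rw [conjS_mul, e, mem_normalizer_iff_conjS.1 hc]
  generalize c * g = k at e1 e2
  obtain ⟨u, hu, -, -, h1, -⟩ := exists_two h.fl.card
  have e3 : conjS k B = A := by
    refine (h.fl.eq_or h.sA.1 h.sB.1 (by rw [card_conjS, h.sB.1]) (sq_conjS h.sB.2 k) hu h1
      fun t ht => mem_Cx.1 ((sup_le (fun a ha => mem_Cx.2 (comm_of_sq h.sA.2 ha hu.1))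
        fun a ha => mem_Cx.2 (comm_of_sq h.sB.2 ha hu.2) : A ⊔ B ≤ Cx u)
        (e1 ▸ conjS_mono le_sup_right ht))).resolve_right fun e => h.ne ?_
    exact conjS_injective k (e2.trans e.symm)
  have h2 := (h.syl.of_le le_normalizer le_top).not_dvd
  have h3 : k ^ (A ⊔ B).relIndex (normalizer ((A ⊔ B : Subgroup G) : Set G)) ∈ A ⊔ B :=
    pow_index_mem (H := (A ⊔ B).subgroupOf (normalizer ((A ⊔ B : Subgroup G) : Set G)))
      ⟨k, mem_normalizer_iff_conjS.2 e1⟩
  have h4 := mem_of_coprime_pow ((Nat.Prime.coprime_iff_not_dvd Nat.prime_two).2 h2)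
    (mem_normalizer_iff_conjS.2 (by rw [pow_two, conjS_mul, e2, e3])) (h.le_norm h3)
  exact h.ne ((mem_normalizer_iff_conjS.1 h4).symm.trans e2)

theorem uniq (h : Loc A B) {g k t : G} (h1 : t ≠ 1) (ht : t ∈ conjS k A)
    (hg : g * t * g⁻¹ ∈ A ⊓ B) : conjS k A = conjS g⁻¹ A := by
  have sq := sq_conjS (sq_conjS h.sA.2 k) g
  have := (h.fl.eq_or h.sA.1 h.sB.1 (by rw [card_conjS, card_conjS, h.sA.1]) sq hg (conj_ne_one h1)
    fun x hx => comm_of_sq sq hx (conj_mem_conjS.2 ht)).resolve_right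
    (by rw [← conjS_mul]; exact h.not_conj _)
  rw [← conjS_inv_conjS g (conjS k A), this]

theorem pl (h : Loc A B) : Pl (fun a => ∃ g, conjS g A = a) fun l => ∃ g, conjS g B = l := by
  have k : ∀ {A B : Subgroup G}, Loc A B → ∀ a b t, (∃ g, conjS g A = a) → (∃ g, conjS g A = b) →
      t ≠ 1 → t ∈ a → t ∈ b → a = b := by
    rintro A B h _ _ t ⟨a, rfl⟩ ⟨b, rfl⟩ h1 h2 h3
    obtain ⟨g, hg⟩ := h.cls t h1 (sq_conjS h.sA.2 _ _ h2)
    rw [h.uniq h1 h2 hg, h.uniq h1 h3 hg]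
  refine ⟨?_, ?_, fun t h1 h2 => ?_, k h, k h.symm, ?_, ?_, h.cc⟩
  · rintro g _ ⟨k, rfl⟩
    exact ⟨g * k, conjS_mul _ _ _⟩
  · rintro g _ ⟨k, rfl⟩
    exact ⟨g * k, conjS_mul _ _ _⟩
  · obtain ⟨g, hg⟩ := h.cls t h1 h2
    exact ⟨_, _, ⟨g⁻¹, rfl⟩, ⟨g⁻¹, rfl⟩, h.fl.conj _, mem_conjS.2 (by simpa using hg.1),
      mem_conjS.2 (by simpa using hg.2)⟩
  · rintro _ ⟨k, rfl⟩
    exact ⟨by rw [card_conjS, h.sA.1], sq_conjS h.sA.2 k⟩
  · rintro _ ⟨k, rfl⟩
    exact ⟨by rw [card_conjS, h.sB.1], sq_conjS h.sB.2 k⟩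

end Loc

omit [Finite G] in
theorem conjNormal_injective {L : Subgroup G} [L.Normal] (hc : centralizer (L : Set G) = ⊥) :
    Function.Injective (MulAut.conjNormal (H := L)) := by
  rw [injective_iff_map_eq_one]
  intro g hg
  rw [← mem_bot, ← hc]
  intro x hx
  have : g * x * g⁻¹ = x := congrArg Subtype.val (DFunLike.congr_fun hg (⟨x, hx⟩ : L))
  exact (mul_inv_eq_iff_eq_mul.1 this).symm

/-- A group between the inner and the full automorphism group of a simple group, normal in the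
latter, has the same automorphism group. -/
theorem mulAut_equiv_of_normal [IsSimpleGroup G] (hc : center G = ⊥) (P : Subgroup (MulAut G))
    [P.Normal] (h : (MulAut.conj (G := G)).range ≤ P) : Nonempty (MulAut G ≃* MulAut P) := by
  have k0 : ∀ α : MulAut G, (∀ s, MulAut.conj s * α = α * MulAut.conj s) → α = 1 := fun α hα => by
    have k : ∀ s, (α s)⁻¹ * s ∈ center G := fun s => mem_center_iff.2 fun x => by
      obtain ⟨y, rfl⟩ := α.surjective x
      have : s * α y * s⁻¹ = α (s * y * s⁻¹) := DFunLike.congr_fun (hα s) y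
      rw [map_mul, map_mul, map_inv] at this
      calc α y * ((α s)⁻¹ * s) = (α s)⁻¹ * (α s * α y * (α s)⁻¹) * s := by group
        _ = _ := by rw [← this]; group
    ext s
    exact inv_mul_eq_one.1 (mem_bot.1 (hc ▸ k s))
  have k1 : Function.Injective (MulAut.conj (G := G)) := by
    rw [injective_iff_map_eq_one]
    intro g hg
    rw [← mem_bot, ← hc, mem_center_iff]
    intro x
    exact (mul_inv_eq_iff_eq_mul.1 (DFunLike.congr_fun hg x : g * x * g⁻¹ = x)).symm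
  let I := (MulAut.conj (G := G)).range.subgroupOf P
  let e : G ≃* I := (MonoidHom.ofInjective k1).trans (subgroupOfEquivOfLe h).symm
  have hI : I.Normal := Normal.subgroupOf ⟨by
    rintro _ ⟨s, rfl⟩ α
    exact ⟨α s, by ext x; simp⟩⟩ P
  have k2 : ∀ p : P, (∀ x ∈ I, x * p = p * x) → p = 1 := fun p hp =>
    Subtype.ext (k0 p fun s => congrArg Subtype.val (hp ⟨_, h ⟨s, rfl⟩⟩ ⟨s, rfl⟩))
  have := e.isSimpleGroup_congr.1 inferInstance
  have : I.Characteristic := characteristic_iff_le_comap.2 fun β => by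
    rcases ((hI.comap β.toMonoidHom).subgroupOf I).eq_bot_or_eq_top with h1 | h1
    · obtain ⟨x, hx⟩ := exists_ne (1 : I)
      refine absurd (Subtype.ext (β.symm.injective ((k2 (β.symm x) fun y hy => ?_).trans
        (map_one _).symm))) hx
      exact (commute_of_normal_of_disjoint _ _ hI (hI.comap β.toMonoidHom)
        (subgroupOf_eq_bot.1 h1).symm y _ hy (by simp)).eq
    · exact subgroupOf_eq_top.1 h1
  have k3 : Function.Injective (MulAut.characteristic I) := by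
    rw [injective_iff_map_eq_one]
    intro β hβ
    have h1 : ∀ x ∈ I, β x = x := fun x hx => congrArg Subtype.val (DFunLike.congr_fun hβ (⟨x, hx⟩ : I))
    ext1 p
    refine (inv_mul_eq_one.1 (k2 (p⁻¹ * β p) fun x hx => ?_)).symm
    have := h1 _ (hI.conj_mem x hx p)
    rw [map_mul, map_mul, map_inv, h1 x hx] at this
    calc x * (p⁻¹ * β p) = p⁻¹ * (p * x * p⁻¹) * β p := by group
      _ = _ := by rw [← this]; group
  have : Finite (MulAut G) := Finite.of_injective _ (DFunLike.coe_injective (F := G ≃* G))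
  have : Finite (MulAut I) := Finite.of_equiv _ (MulAut.congr e).toEquiv
  have : Finite (MulAut P) := Finite.of_injective _ k3
  refine ⟨MulEquiv.ofBijective _ ((conjNormal_injective (eq_bot_iff.2 fun α hα =>
    k0 α fun s => hα _ (h ⟨s, rfl⟩))).bijective_of_nat_card_le ?_)⟩
  rw [Nat.card_congr (MulAut.congr e).toEquiv]
  exact Nat.card_le_card_of_injective _ k3

omit [Finite G] in
theorem equiv_of_center {X : Type*} [Group X] (hs : IsSimpleGroup (X ⧸ center X)) [Nontrivial G]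
    (hc : center G = ⊥) (f : X →* G) (hf : Function.Surjective f) :
    Nonempty (G ≃* X ⧸ center X) := by
  have hk : center X ≤ f.ker := fun z hz => by
    rw [MonoidHom.mem_ker, ← mem_bot, ← hc, mem_center_iff]
    intro g
    obtain ⟨x, rfl⟩ := hf g
    rw [← map_mul, ← map_mul, mem_center_iff.1 hz]
  let φ := QuotientGroup.lift _ f hk
  have h1 : Function.Surjective φ := fun g => by
    obtain ⟨x, rfl⟩ := hf g
    exact ⟨x, rfl⟩
  refine ⟨(MulEquiv.ofBijective φ ⟨?_, h1⟩).symm⟩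
  rw [← MonoidHom.ker_eq_bot_iff]
  refine (IsSimpleGroup.eq_bot_or_eq_top_of_normal _ inferInstance).resolve_right fun e => ?_
  obtain ⟨g, hg⟩ := exists_ne (1 : G)
  obtain ⟨x, rfl⟩ := h1 g
  exact hg (MonoidHom.mem_ker.1 (e ▸ mem_top x))

end CfsgLib.W2.L34
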