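import Mathlib
import Cfsg.Agent.Lib.W2.L34Fus
import Cfsg.Agent.Lib.W2.L34Tri

/-!
If `z` is not fused to `v`, the group is solvable.
-/

set_option autoImplicit false

namespace CfsgLib.W2.L34

open Subgroup HM Cfsg CfsgLib.Tech

theorem basic1 : ((v0 : H0) ∈ AM false ∧ (v0 : H0) ∉ AM true ∧ (m 16 0 : H0) ∈ AM false ∧
    (m 16 0 : H0) ∉ AM true) ∧ ((d0 : H0) * (m 16 0 * v0) * d0⁻¹ = m 16 0 ∧ (d0 : H0) ∈ BM ∧
    (u0 : H0) * d0 * u0⁻¹ = d0 ∧ (d0 : H0) ^ 4 = d0) ∧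
    (∀ c ∈ [(z0 : H0), t0, t0 * z0], c ∈ AM false ∧ c ∈ AM true) ∧
    ∃ c ∈ [(z0 : H0), t0, t0 * z0], v0 * (u0 * v0 * u0⁻¹) = c * (u0 * v0 * u0⁻¹) * v0 := by
  decide +kernel

attribute [local irreducible] nf wit n4 HM.m

variable {G : Type*} [Group G] {ψ : H0 →* G} {N : Subgroup G}

/-- The four-group `{1, z, t, t z}`. -/
def ZG (ψ : H0 →* G) : Subgroup G := (AM false ⊓ AM true).map ψ

theorem sq_AM {i : Bool} {a : H0} (h : a ∈ AM i) : a * a = 1 := (AM_le i a h).1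

theorem AM_BM {i : Bool} {a : H0} (h : a ∈ AM i) : a ∈ BM := (RM_le (AM_le i a h).2).1

theorem BM_comm {k c : H0} (hk : k ∈ BM) (hc : c ∈ AM false ⊓ AM true) : k * c = c * k := by
  have h1 : Commute k t0 := mem_Cx.1 hk.2
  have h2 : Commute k z0 := z0_comm _ _ k
  rcases mem_ZM c hc.1 hc.2 with rfl | rfl | rfl | rfl
  exacts [by simp, h2, h1, h1.mul_right h2]

theorem el_prod {A : Subgroup G} (sq : ∀ a ∈ A, a * a = 1) {b c d v : G} (hb : b ∈ A) (hc : c ∈ A)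
    (hd : d ∈ A) (hv : v ∈ A) : c * (b * v) * (d * (c * v)) * (b * (d * v)) = v := by
  let _ : CommGroup A := { (inferInstance : Group A) with
    mul_comm := fun a b => Subtype.ext (CIT.comm_of_sq sq a.2 b.2) }
  have : ∀ b c d v : A, c * (b * v) * (d * (c * v)) * (b * (d * v)) =
    b * b * (c * c) * (d * d) * (v * v) * v := fun b c d v => by ac_rfl
  have := congrArg Subtype.val (this ⟨b, hb⟩ ⟨c, hc⟩ ⟨d, hd⟩ ⟨v, hv⟩)
  simpa [sq b hb, sq c hc, sq d hd, sq v hv] using this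

theorem sq_Z : ∀ u ∈ ZG ψ, u * u = 1 := by
  rintro _ ⟨k, hk, rfl⟩
  rw [← map_mul, sq_AM hk.1, map_one]

namespace ND

theorem mem_Z (h : ND ψ N) {k : H0} : ψ k ∈ ZG ψ ↔ k ∈ AM false ∧ k ∈ AM true := h.mem_map

theorem mem_Z' (h : ND ψ N) {k : H0} (i : Bool) : ψ k ∈ ZG ψ ↔ k ∈ AM i ∧ k ∈ AM (!i) := by
  rw [h.mem_Z]; cases i
  exacts [Iff.rfl, and_comm]

theorem z_mem (h : ND ψ N) : ψ z0 ∈ ZG ψ := h.mem_Z.2 (basic1.2.2.1 _ (by simp))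

theorem z_ne (h : ND ψ N) : ψ z0 ≠ 1 := (map_ne_one_iff _ h.inj).2 (basic _ _).1.2.1

theorem Z_le (h : ND ψ N) : ZG ψ ≤ N := by
  rintro _ ⟨k, hk, rfl⟩
  exact (h.mem k).2 (AM_BM hk.1)

theorem isConj_z (h : ND ψ N) {w : G} (hw : w ∈ ZG ψ) (h1 : w ≠ 1) : IsConj (ψ z0) w := by
  obtain ⟨c, hc, rfl⟩ := hw
  rcases mem_ZM c hc.1 hc.2 with rfl | rfl | rfl | rfl
  exacts [absurd (map_one ψ) h1, IsConj.refl _, h.zt,
    h.zt.trans (isConj_of_nf ψ (basic _ _).2.2.1).symm]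

theorem exists_BM (h : ND ψ N) {e : G} (he : e ∈ N) (hc : e * ψ z0 = ψ z0 * e) :
    ∃ k ∈ BM, ψ k = e := by
  obtain ⟨k, rfl⟩ := (h.cent e).1 hc
  exact ⟨k, (h.mem k).1 he, rfl⟩

theorem mem_CC (h : ND ψ N) {k : H0} (hk : k ∈ BM) : ψ k ∈ CC (ZG ψ) := by
  rintro _ ⟨c, hc, rfl⟩
  exact h.comm_iff.2 (BM_comm hk hc).symm

theorem pt_le (h : ND ψ N) {x : Subgroup G} (hx : Pt (ZG ψ) x) : x ≤ N := by
  obtain ⟨g, rfl⟩ := hx
  have := h.normal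
  exact cj_eq_of_normal g N ▸ cj_mono g h.Z_le

variable [Finite G]

section
variable (h : ND ψ N) (hv : ¬ IsConj (ψ z0) (ψ v0))
include h hv

theorem mem_Z_of {a : G} (h1 : IsConj (ψ z0) a) (h2 : a * ψ z0 = ψ z0 * a) : a ∈ ZG ψ := by
  obtain ⟨k, rfl⟩ := (h.cent a).1 h2
  rcases h.classes (by simp) (basic _ _).1.1 (basic _ _).1.2.1 h1 with rfl | (rfl | rfl) | h3
  exacts [h.z_mem, h.mem_Z.2 (basic1.2.2.1 _ (by simp)), h.mem_Z.2 (basic1.2.2.1 _ (by simp)),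
    absurd (h1.trans (isConj_of_nf ψ h3)) hv]

theorem mem_Z_of' {u g a : G} (e : g * u * g⁻¹ = ψ z0) {k : G} (ha : a ∈ cj k (ZG ψ))
    (h2 : a * u = u * a) : g * a * g⁻¹ ∈ ZG ψ := by
  obtain ⟨w, hw, rfl⟩ := ha
  by_cases h1 : w = 1
  · simp [h1]
  refine h.mem_Z_of hv (((h.isConj_z hw h1).trans (isConj_iff.2 ⟨k, rfl⟩)).trans
    (isConj_iff.2 ⟨g, rfl⟩)) ?_
  rw [← e, conj_mul, conj_mul, h2]

theorem exists_NN {u : G} (hu : u ∈ ZG ψ) (h1 : u ≠ 1) : ∃ g ∈ NN (ZG ψ), g * u * g⁻¹ = ψ z0 := by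
  obtain ⟨g, e⟩ := isConj_iff.1 (h.isConj_z hu h1).symm
  exact ⟨g, mem_normalizer_of_forall fun w hw => h.mem_Z_of' hv e (k := 1) (by rwa [cj_one])
    (CIT.comm_of_sq sq_Z hw hu), e⟩

theorem ti : TI (ZG ψ) := ⟨sq_Z, (h.card_map _).trans card_ZM, fun u hu h1 g w hw e => by
  obtain ⟨k, hk, e1⟩ := h.exists_NN hv hu h1
  exact (mem_normalizer_iff.1 hk w).2 (h.mem_Z_of' hv e1 hw e)⟩

theorem h0 {e : G} (he : e ∈ N) {u : G} (hu : u ∈ ZG ψ) (h1 : u ≠ 1) (h2 : e * u = u * e) :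
    e ∈ CC (ZG ψ) := by
  obtain ⟨g, hg, e1⟩ := h.exists_NN hv hu h1
  obtain ⟨k, hk, e2⟩ := h.exists_BM (h.normal.conj_mem e he g) (by rw [← e1, conj_mul, conj_mul, h2])
  simpa [e2, mul_assoc] using conj_mem_CC (inv_mem hg) (h.mem_CC hk)

theorem gd_v {v : H0} (h1 : v ∈ AM false) (h2 : v ∉ AM true) :
    Gd (ZG ψ) (N ⊓ Cx (ψ v)) (ZG ψ) := by
  have key : ∀ e ∈ N ⊓ Cx (ψ v), e ∈ CC (ZG ψ) → ∃ k ∈ AM false, ψ k = e := fun e he h3 => by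
    obtain ⟨k, hk, rfl⟩ := h.exists_BM he.1 (h3 _ h.z_mem).symm
    exact ⟨k, AM_cent v h1 h2 k (h.comm_iff.1 (mem_Cx.1 he.2)) hk, rfl⟩
  have k0 : ∀ e ∈ N ⊓ Cx (ψ v), ∀ u ∈ ZG ψ, u ≠ 1 → e * u = u * e → e ∈ CC (ZG ψ) :=
    fun e he u hu => h.h0 hv he.1 hu
  refine ⟨pt_self _, le_inf h.Z_le (le_Cx_iff.2 (h.mem_CC (AM_BM h1))), k0, fun e he h3 => ?_,
    fun y hy h3 e he h4 => ?_⟩
  · obtain ⟨k, hk, rfl⟩ := key e he h3
    rw [show 4 = 2 * 2 from rfl, pow_mul, sq (ψ k), ← map_mul, sq_AM hk]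
    simp
  have c3 := cube_mem sq_Z (h.ti hv).card k0 hy h3
  obtain ⟨b, hb, rfl⟩ := key e he h4
  obtain ⟨c, hc, e1⟩ := key _ (mul_mem (mul_mem (inv_mem hy) he) hy)
    (by simpa using conj_mem_CC (inv_mem h3) h4)
  obtain ⟨d, hd, e2⟩ := key _ (mul_mem hy (mul_mem hy hy)) c3
  have yv : y⁻¹ * ψ v * y = ψ v := by rw [mul_assoc, ← mem_Cx.1 hy.2, inv_mul_cancel_left]
  have nZ : ∀ a, y⁻¹ * a * y ∈ ZG ψ ↔ a ∈ ZG ψ := fun a => by
    simpa using (mem_normalizer_iff.1 (inv_mem h3) a).symm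
  have mZ : ∀ {a}, a ∈ AM false → (ψ a ∈ ZG ψ ↔ a ∈ AM true) := fun ha => by simp [h.mem_Z, ha]
  have cA : ∀ {a b}, a ∈ AM false → b ∈ AM false → ψ a * ψ b = ψ b * ψ a := fun ha hb =>
    h.comm_iff.2 (CIT.comm_of_sq (fun _ => sq_AM) ha hb)
  have sA : ∀ {a}, a ∈ AM false → ψ a * ψ a = 1 := fun ha => by rw [← map_mul, sq_AM ha, map_one]
  have e3 : y⁻¹ * ψ (b * v) * y = ψ (c * v) := by
    rw [map_mul, map_mul, e1, ← yv]; nth_rw 1 [yv]; group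
  by_cases h5 : b ∈ AM true
  · exact mul_mem ((nZ _).2 ((mZ hb).2 h5)) (inv_mem ((mZ hb).2 h5))
  by_cases h6 : b * v ∈ AM true
  · have h7 := (mZ (mul_mem hb h1)).2 h6
    have := mul_mem ((nZ _).2 h7) (inv_mem h7)
    rw [e3] at this
    simpa [← e1, mul_assoc] using this
  rcases AM_cov h1 h2 hb h5 h6 hc with h7 | h7 | h7 | h7
  · exact absurd ((mZ hb).1 ((nZ _).1 (e1 ▸ (mZ hc).2 h7))) h5
  · exact absurd ((mZ (mul_mem hb h1)).1 ((nZ _).1 (e3 ▸ (mZ (mul_mem hc h1)).2 h7))) h6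
  · rw [← e1, CIT.inv_eq_of_sq (sA hb), ← map_mul]
    exact (mZ (mul_mem hc hb)).2 h7
  · refine absurd ((mZ h1).1 ?_) h2
    obtain ⟨c', hc', e6⟩ := key _ (mul_mem (mul_mem (inv_mem hy) (e1 ▸ mul_mem (mul_mem (inv_mem hy)
      he) hy : ψ c ∈ _)) hy) (by simpa using conj_mem_CC (inv_mem h3) (h.mem_CC (AM_BM hc)))
    have e4 : ψ b = y⁻¹ * ψ c' * y := by
      calc _ = (y * (y * y))⁻¹ * (ψ b * (y * (y * y))) := by rw [← e2, cA hb hd]; group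
        _ = _ := by rw [e6, e1]; group
    have e5 : ∀ {a a' a1 a1'}, ψ a1 = y⁻¹ * ψ a * y → ψ a1' = y⁻¹ * ψ a' * y →
        ψ (a * (a' * v)) ∈ ZG ψ → ψ (a1 * (a1' * v)) ∈ ZG ψ := fun k1 k2 k3 => by
      convert (nZ _).2 k3 using 1
      simp only [map_mul, k1, k2]
      nth_rw 1 [← yv]
      group
    have h8 := (mZ (mul_mem hc (mul_mem hb h1))).2 h7
    have := mul_mem (mul_mem h8 (e5 e6 e1 h8)) (e5 e4 e6 (e5 e6 e1 h8))
    rwa [← map_mul, ← map_mul, el_prod (fun _ => sq_AM) hb hc hc' h1] at this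

theorem gd_d : Gd (ZG ψ) (N ⊓ Cx (ψ d0)) (ZG ψ) := by
  have key : ∀ e ∈ N ⊓ Cx (ψ d0), e ∈ CC (ZG ψ) → ∃ c ∈ ZG ψ, ∃ i : ℕ, e = c * ψ d0 ^ i :=
    fun e he h3 => by
    obtain ⟨k, hk, rfl⟩ := h.exists_BM he.1 (h3 _ h.z_mem).symm
    obtain ⟨c, hc, h4⟩ := d_cent k hk (h.comm_iff.1 (mem_Cx.1 he.2))
    have h5 : ψ c ∈ ZG ψ := by
      rcases List.mem_cons.1 hc with rfl | hc
      exacts [by simp, h.mem_Z.2 (basic1.2.2.1 c hc)]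
    rcases h4 with rfl | rfl | rfl
    exacts [⟨_, h5, 0, by simp⟩, ⟨_, h5, 1, by simp⟩, ⟨_, h5, 2, by simp [sq, mul_assoc]⟩]
  have hd := h.mem_CC basic1.2.1.2.1
  refine ⟨pt_self _, le_inf h.Z_le (le_Cx_iff.2 hd), fun e he u hu => h.h0 hv he.1 hu,
    fun e he h3 => ?_, fun y hy h3 e he h4 => ?_⟩
  · obtain ⟨c, hc, i, rfl⟩ := key e he h3
    rw [Commute.mul_pow (pow_mem hd i c hc), show 4 = 2 * 2 from rfl, pow_mul c, sq c,
      sq_Z c hc, one_pow, one_mul]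
    exact mem_JM.2 fun y _ hy => pow_mem (pow_mem (le_Cx_iff.1 (hy.trans inf_le_right)) i) _
  · obtain ⟨c, hc, i, rfl⟩ := key e he h4
    have := (Commute.pow_right (mem_Cx.1 hy.2) i).eq
    convert mul_mem (conj_mem_of_mem_normalizer' h3 hc) (inv_mem hc) using 1
    calc y⁻¹ * (c * ψ d0 ^ i) * y * (c * ψ d0 ^ i)⁻¹
        = y⁻¹ * c * (ψ d0 ^ i * y) * (c * ψ d0 ^ i)⁻¹ := by group
      _ = _ := by rw [← this]; group

theorem mem_NN (k : H0) : ψ k ∈ NN (ZG ψ) :=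
  mem_normalizer_iff_cj.2 ((h.ti hv).eq_of_comm ((pt_self _).conj _) (pt_self _)
    (conj_mem_cj.2 h.z_mem) (CIT.conj_ne_one h.z_ne) h.z_mem h.z_ne
    (by rw [(h.cent _).2 ⟨k, rfl⟩, mul_inv_cancel_right]))

theorem no_pt {x : Subgroup G} (hx : Pt (ZG ψ) x) (hc : x ≤ Cx (ψ v0)) : ZG ψ = x := by
  by_contra hne
  obtain ⟨⟨b1, b2, b3, b4⟩, ⟨b5, b6, b7, b8⟩, b9, c0, b10, b11⟩ := basic1
  have ti := h.ti hv
  have g1 := h.gd_v hv b1 b2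
  have hxM := le_inf (h.pt_le hx) hc
  have nz : ∀ g ∈ NN (ZG ψ), ZG ψ ≠ cj g x := fun g hg e =>
    hne (cj_injective g ((mem_normalizer_iff_cj.1 hg).trans e))
  have hb : ψ (m 16 0) ∈ N ⊓ Cx (ψ v0) := ⟨(h.mem _).2 (AM_BM b3),
    mem_Cx.2 (h.comm_iff.2 (CIT.comm_of_sq (fun _ => sq_AM) b3 b1))⟩
  obtain ⟨_, ⟨c, hc0, rfl⟩, e1⟩ := ti.tri g1 hx (hx.conj _) hne (nz _ (h.mem_NN hv _)) hxM
    (cj_le_of_mem hb hxM)
  replace hc0 : c ∈ AM false ⊓ AM true := hc0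
  have f1 : c⁻¹ * m 16 0 ∈ AM false := mul_mem (inv_mem hc0).1 b3
  have f2 : c⁻¹ * m 16 0 ∉ AM true := fun e => b4 (((AM true).mul_mem_cancel_left (inv_mem hc0).2).1 e)
  have f3 : ψ (c⁻¹ * m 16 0) ∈ CC x := by
    obtain ⟨w, hw, h1, h2⟩ := ti.exists_fix hx (c := ψ (c⁻¹ * m 16 0))
      (by rw [← map_mul, sq_AM f1, map_one])
      (mem_normalizer_iff_cj.2 (by rw [map_mul, cj_mul, ← e1, map_inv, cj_inv_cj]))
    refine (ti.gd g1 hx hxM).h0 _ ?_ w hw h1 h2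
    rw [map_mul]
    exact mul_mem (g1.le (h.mem_map.2 (inv_mem hc0))) hb
  have hd := h.mem_CC b6
  obtain ⟨c', hc', e2⟩ := ti.tri (h.gd_v hv f1 f2) hx (hx.conj (ψ d0)) hne (nz _ (h.mem_NN hv _))
    (le_inf (h.pt_le hx) (le_Cx_iff.2 f3)) (le_inf (h.pt_le (hx.conj _)) (by
      have := cj_mono (ψ d0) (le_Cx_iff.2 (mul_mem f3 (le_Cx_iff.1 hc)))
      rw [cj_Cx, ← map_mul, ← map_inv, ← map_mul, ← map_mul, mul_assoc c⁻¹, ← mul_assoc d0,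
        BM_comm b6 (inv_mem hc0), mul_assoc c⁻¹, mul_assoc c⁻¹, b5] at this
      exact this))
  have nd : ψ d0 ∈ NN x := by
    have := pow_mem (mem_normalizer_iff_cj.2
      (by rw [cj_mul, ← e2, cj_inv_cj] : cj (c'⁻¹ * ψ d0) x = x)) 4
    rwa [Commute.mul_pow (hd _ (inv_mem hc')), show 4 = 2 * 2 from rfl, pow_mul c'⁻¹, sq c'⁻¹,
      ti.sq _ (inv_mem hc'), one_pow, one_mul, ← map_pow, show 2 * 2 = 4 from rfl, b8] at this
  have cd : x ≤ Cx (ψ d0) := fun u hu => by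
    by_cases h1 : u = 1
    · rw [h1]; exact one_mem _
    obtain ⟨c'', hc'', e3⟩ := ti.tri g1 hx ((pt_self _).conj u) hne (fun e => hne
      (ti.eq_of_norm hx (pt_self _) hu h1 (mem_normalizer_iff_cj.2 e.symm)).symm) hxM
      (cj_le_of_mem (hxM hu) g1.le)
    by_contra h2
    refine hne (ti.eq_of_norm hx (pt_self _) (c := u⁻¹ * (ψ d0 * u * (ψ d0)⁻¹))
      (mul_mem (inv_mem hu) (conj_mem_of_mem_normalizer nd hu))
      (fun e => h2 (mem_Cx.2 (mul_inv_eq_iff_eq_mul.1 (inv_mul_eq_one.1 e).symm).symm))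
      (mem_normalizer_iff_cj.2 ?_)).symm
    rw [cj_mul, cj_mul, cj_mul, mem_normalizer_iff_cj.1 (inv_mem (h.mem_NN hv d0)), ← e3, ← cj_mul (ψ d0),
      ← hd _ hc'', cj_mul, mem_normalizer_iff_cj.1 nd, e3, cj_inv_cj]
  obtain ⟨c'', hc'', e3⟩ := ti.tri (h.gd_d hv) hx (hx.conj (ψ u0)) hne (nz _ (h.mem_NN hv _))
    (le_inf (h.pt_le hx) cd) (le_inf (h.pt_le (hx.conj _)) (by
      have := cj_mono (ψ u0) cd
      rwa [cj_Cx, ← map_inv, ← map_mul, ← map_mul, b7] at this))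
  have k1 : ψ v0 ∈ CC (cj (ψ u0) x) := by
    rw [← e3, ← le_Cx_iff, ← mem_Cx'.1 (g1.le hc'').2, ← cj_Cx]
    exact cj_mono _ hc
  have k2 : ψ (u0 * v0 * u0⁻¹) ∈ CC (cj (ψ u0) x) := by
    rw [← le_Cx_iff, map_mul, map_mul, map_inv, ← cj_Cx]
    exact cj_mono _ hc
  have k3 := mul_mem k1 k2
  rw [← map_mul, b11, map_mul, map_mul] at k3
  refine nz _ (h.mem_NN hv u0) (ti.eq_of_norm (pt_self _) (hx.conj _) (h.mem_Z.2 (b9 c0 b10)) ?_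
    (centralizer_le_normalizer _ ((mul_mem_cancel_right k2).1 ((mul_mem_cancel_right k1).1 k3))))
  obtain ⟨⟨-, a1, -, a2, a3⟩, -⟩ := basic false false
  rw [map_ne_one_iff _ h.inj]
  simp only [List.mem_cons, List.not_mem_nil, or_false] at b10
  rcases b10 with rfl | rfl | rfl
  exacts [a1, a2, a3]

theorem solvable : Group.IsSolvable G := by
  have ti := h.ti hv
  have h1 : N ≤ NN (ZG ψ) := by
    refine le_of_two_classes' h.syl (by rintro _ ⟨k, -, rfl⟩; exact h.mem_NN hv k)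
      (h.ord basic0.1.1 fun e => basic1.1.2.1 (e ▸ one_mem _)) (h.ord (basic _ _).1.1 (basic _ _).1.2.1)
      (h.mem_map.2 (AM_le _ _ basic1.1.1).2) (h.mem_map.2 (AM_le _ _ (h.mem_Z.1 h.z_mem).1).2)
      (fun k _ e => hv (isConj_iff.2 ⟨k, e⟩).symm) ?_ fun k hk ⟨r, _, e⟩ => ⟨k, hk, ?_, rfl⟩
    · rintro _ ⟨r, hr, rfl⟩ h2 k hk
      have h3 : r * r = 1 := h.inj (by rw [map_mul, sq_of_ord h2, map_one])
      rcases ((nf_T1 r h3 (mem_Cx.1 hr.2)).2 (RM_le hr).1).2 with h4 | h4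
      · exact centralizer_le_normalizer _ (h.h0 hv hk.1 (h.mem_Z.2 h4) (ne_one_of_ord h2)
          (mem_Cx.1 hk.2))
      · have h5 := h.no_pt hv (((pt_self _).conj k).conj (ψ (wit r))) (by
          rw [← h4, nf, map_mul, map_mul, map_inv, ← cj_Cx, ← mem_Cx'.1 hk.2, ← cj_Cx]
          exact cj_mono _ (cj_mono _ (le_Cx_iff.2 (h.mem_CC (RM_le hr).1))))
        exact mem_normalizer_iff_cj.2
          (cj_injective _ ((mem_normalizer_iff_cj.1 (h.mem_NN hv _)).trans h5)).symm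
    · exact mem_normalizer_iff_cj.2 (ti.eq_of_comm ((pt_self _).conj _) (pt_self _)
        (conj_mem_cj.2 h.z_mem) (CIT.conj_ne_one h.z_ne) h.z_mem h.z_ne
        (by rw [← e, (h.cent _).2 ⟨r, rfl⟩]))
  have h2 : ∀ g, g * ψ z0 * g⁻¹ ∈ ZG ψ := fun g => by
    obtain ⟨k, n, hn, rfl⟩ := h.dec g
    exact conj_mem_of_mem_normalizer (mul_mem (h.mem_NN hv k) (h1 hn)) h.z_mem
  have h3 : (Cx (ψ z0)).index ≤ 4 := by
    rw [← ti.card]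
    refine Nat.card_le_card_of_injective (fun q : G ⧸ Cx (ψ z0) => (⟨_, h2 q.out⟩ : ZG ψ))
      fun q q' e => ?_
    rw [← q.out_eq, ← q'.out_eq]
    refine QuotientGroup.eq.2 (mem_Cx'.2 ?_)
    calc _ = q.out⁻¹ * (q'.out * ψ z0 * q'.out⁻¹) * q.out := by group
      _ = _ := by rw [← Subtype.mk.inj e]; group
  refine Char.isSolvable_of_card_dvd_pow_mul_pow (a := 10) (b := 2) Nat.prime_two Nat.prime_three ?_
  have h4 := (Cx (ψ z0)).index_ne_zero_of_finite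
  rw [← (Cx (ψ z0)).card_mul_index, h.card_Cx]
  generalize (Cx (ψ z0)).index = i at *
  interval_cases i <;> simp_all

end

end ND

end CfsgLib.W2.L34
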