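import Mathlib
import Cfsg.Agent.Lib.W2.L34Two
import Cfsg.Agent.Lib.W2.L34Loc
import Cfsg.Agent.Lib.CIT.AppModel
import Cfsg.Agent.Lib.ClAut.Desc3
import Cfsg.Agent.S0813

/-!
A nonsolvable group with an involution centraliser `2^(1+4)_- . S₄` is `Aut (PGL₃(4))`.
-/

set_option autoImplicit false

namespace CfsgLib.W2.L34

open Subgroup HM Cfsg CfsgLib.Tech CfsgLib.Classical

attribute [local irreducible] nf wit n4 HM.m

variable {G : Type*} [Group G] [Finite G] {ψ : H0 →* G} {N : Subgroup G}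

theorem RM_eq : RM = AM false ⊔ AM true :=
  le_antisymm (fun x hx => by
    obtain ⟨a, h1, h2⟩ := RM_dec x hx
    exact (mul_mem_cancel_left (mem_sup_left h1)).1 (mem_sup_right h2))
    (sup_le (fun x hx => (AM_le _ x hx).2) fun x hx => (AM_le _ x hx).2)

namespace ND

omit [Finite G] in
theorem conj_in (h : ND ψ N) {a : G} (e : IsConj (ψ z0) a) : ∃ n ∈ N, n * a * n⁻¹ = ψ z0 := by
  obtain ⟨g, e⟩ := isConj_iff.1 e.symm
  obtain ⟨k, n, hn, rfl⟩ := h.dec g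
  refine ⟨n, hn, ?_⟩
  calc n * a * n⁻¹ = (ψ k)⁻¹ * (ψ k * n * a * (ψ k * n)⁻¹ * ψ k) := by group
    _ = _ := by rw [e, ← (h.cent _).2 ⟨k, rfl⟩, inv_mul_cancel_left]

theorem isConj_of (h : ND ψ N) (hv : IsConj (ψ z0) (ψ v0)) {t : G} (ht : t ∈ N) (h1 : t ≠ 1)
    (h2 : t * t = 1) : IsConj (ψ z0) t := by
  obtain ⟨g, -, r, hr, e⟩ := h.syl.exists_conj_mem ht
    (isPGroup_zpowers_of_pow (k := 1) (by rw [pow_one, sq, h2]))
  refine IsConj.trans ?_ (isConj_iff.2 ⟨g, e.symm⟩).symm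
  have h3 : r * r = 1 := h.inj (by rw [map_mul, e, conj_mul, h2]; simp)
  rcases ((nf_T1 r h3 (mem_Cx.1 hr.2)).2 (RM_le hr).1).2 with h4 | h4
  exacts [h.isConj_z (h.mem_Z.2 h4) (e ▸ CIT.conj_ne_one h1), hv.trans (isConj_of_nf ψ h4).symm]

omit [Finite G] in
theorem card_cent (h : ND ψ N) {a : G} (e : IsConj (ψ z0) a) :
    Nat.card (N ⊓ Cx a : Subgroup G) = 192 := by
  obtain ⟨g, rfl⟩ := isConj_iff.1 e
  have := h.normal
  rw [← cj_Cx, ← cj_eq_of_normal g N, ← cj_inf, card_cj, ← card_BM, ← h.card_map]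
  congr 3
  refine le_antisymm (fun x hx => h.exists_BM hx.1 (mem_Cx.1 hx.2)) ?_
  rintro _ ⟨k, hk, rfl⟩
  exact ⟨(h.mem k).2 hk, h.mem_Cx.2 ⟨k, rfl⟩⟩

theorem loc (h : ND ψ N) (hv : IsConj (ψ z0) (ψ v0)) :
    Loc (((AM false).map ψ).subgroupOf N) (((AM true).map ψ).subgroupOf N) := by
  have le : ∀ i, (AM i).map ψ ≤ N := fun i => by
    rintro _ ⟨k, hk, rfl⟩
    exact (h.mem k).2 (AM_BM hk)
  have sA : ∀ i, Nat.card (((AM i).map ψ).subgroupOf N) = 16 ∧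
      ∀ t ∈ ((AM i).map ψ).subgroupOf N, t * t = 1 := fun i =>
    ⟨by rw [Nat.card_congr (subgroupOfEquivOfLe (le i)).toEquiv, h.card_map, card_AM], by
      rintro t ⟨k, hk, e⟩
      exact Subtype.ext (by rw [coe_mul, ← show ψ k = t from e, ← map_mul, sq_AM hk, map_one]; rfl)⟩
  have eZ : ((AM false).map ψ).subgroupOf N ⊓ ((AM true).map ψ).subgroupOf N = (ZG ψ).subgroupOf N := by
    rw [ZG, map_inf _ _ _ h.inj]; rfl
  have reg : ∀ i, ∀ v ∈ ((AM (!i)).map ψ).subgroupOf N, v ∉ ((AM i).map ψ).subgroupOf N →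
      ∀ u ∈ (ZG ψ).subgroupOf N, ∃ y ∈ ((AM i).map ψ).subgroupOf N, y * v * y⁻¹ = u * v := by
    rintro i ⟨_, _⟩ ⟨v, hv, rfl⟩ h1 ⟨_, _⟩ ⟨u, hu, rfl⟩
    obtain ⟨y, hy, e⟩ := AM_reg hv (fun e => h1 ⟨v, e, rfl⟩) hu.1 hu.2
    exact ⟨⟨ψ y, le i ⟨y, hy, rfl⟩⟩, ⟨y, hy, rfl⟩, Subtype.ext (by simpa using congrArg ψ e)⟩
  refine ⟨sA _, sA _, ⟨?_, ?_, ?_, eZ ▸ reg false, eZ ▸ reg true⟩, ?_, fun t h1 h2 => ?_,
    fun t h1 h2 => ?_⟩
  · rw [eZ, Nat.card_congr (subgroupOfEquivOfLe h.Z_le).toEquiv, ZG, h.card_map, card_ZM]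
  · rw [eZ]
    intro u hu h1 g h2 h3
    have h4 : BM.map ψ = N ⊓ Cx (u : G) := by
      refine eq_of_le_of_card_ge ?_ (by
        rw [h.card_cent (a := u) (h.isConj_z hu fun e => h1 (Subtype.ext e)), h.card_map, card_BM])
      rintro _ ⟨k, hk, rfl⟩
      exact ⟨(h.mem k).2 hk, mem_Cx.2 (h.mem_CC hk _ hu).symm⟩
    obtain ⟨k, hk, e⟩ := h4.ge (mem_inf.2 ⟨g.2, mem_Cx.2 (congrArg Subtype.val h2)⟩)
    have h5 : k * k = 1 := h.inj (by rw [map_mul, e, map_one]; exact congrArg Subtype.val h3)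
    exact ((nf_T1 k h5 (mem_Cx.1 hk.2)).2 hk).1.imp (fun h6 => ⟨k, h6, e⟩) fun h6 => ⟨k, h6, e⟩
  · rintro ⟨_, _⟩ ⟨a, ha, rfl⟩ ⟨_, _⟩ ⟨b, hb, rfl⟩ e
    by_cases h1 : a ∈ AM true
    exacts [Or.inl ⟨a, h1, rfl⟩,
      Or.inr ⟨b, AM_nd a ha h1 b hb (h.comm_iff.1 (congrArg Subtype.val e)), rfl⟩]
  · rw [← subgroupOf_sup (le _) (le _), ← Subgroup.map_sup, ← RM_eq]
    exact IsSylowIn.of_sylow_top h.syl.toSylow
  · obtain ⟨n, hn, e⟩ := h.conj_in (h.isConj_of hv t.2 (fun e => h1 (Subtype.ext e))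
      (congrArg Subtype.val h2))
    exact ⟨⟨n, hn⟩, eZ.ge (show n * t * n⁻¹ ∈ ZG ψ from e ▸ h.z_mem)⟩
  · rw [← h.card_cent (h.isConj_of hv t.2 (fun e => h1 (Subtype.ext e)) (congrArg Subtype.val h2)),
      ← Nat.card_congr (subgroupOfEquivOfLe inf_le_left).toEquiv]
    congr 3
    ext x
    simp [mem_subgroupOf, mem_centralizer_singleton_iff, Subtype.ext_iff]

theorem main (h : ND ψ N) (hv : IsConj (ψ z0) (ψ v0)) {F : Type*} [Field F] [Fintype F]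
    (hF : Fintype.card F = 4) :
    Nonempty (G ≃* MulAut (GL (Fin 3) F ⧸ center (GL (Fin 3) F))) := by
  obtain ⟨φ, h1, h2⟩ := (h.loc hv).pl.exists_hom ⟨1, rfl⟩
  let L := (N.subtype.comp φ).range
  have hN := h.normal
  have k1 : ∀ t ∈ N, t * t = 1 → t ∈ L := fun t ht e => by
    obtain ⟨x, hx⟩ := h1 ⟨t, ht⟩ (Subtype.ext e)
    exact ⟨x, congrArg Subtype.val hx⟩
  have k2 : ∀ {i a}, a ∈ AM i → ψ a ∈ L := fun ha =>
    k1 _ ((h.mem _).2 (AM_BM ha)) (by rw [← map_mul, sq_AM ha, map_one])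
  have hL : L.Normal := ⟨fun _ ⟨x, hx⟩ g => by
    have := sl_eq_top_of_transvection_mem ((cj g⁻¹ L).comap (N.subtype.comp φ)) fun i j hij c => by
      rw [mem_comap, mem_cj, inv_inv]
      exact k1 _ (hN.conj_mem _ (φ _).2 g) (by
        rw [conj_mul, conj_eq_one_iff]; exact congrArg Subtype.val (h2 ⟨(i, j), hij⟩ c))
    have := this.ge (mem_top x)
    rwa [mem_comap, mem_cj, inv_inv, hx] at this⟩
  obtain ⟨⟨b1, b2, b3, -⟩, -, b4, c, b5, b6⟩ := basic1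
  have zL := k2 (b4 z0 (by simp)).1
  have hc : centralizer (L : Set G) = ⊥ := eq_bot_iff.2 fun g hg => by
    obtain ⟨k, rfl⟩ := (h.cent g).1 (hg _ zL).symm
    have k3 : ∀ {i a}, a ∈ AM i → k * a = a * k := fun ha => h.comm_iff.1 (hg _ (k2 ha)).symm
    by_contra h3
    obtain ⟨x, e⟩ := isConj_iff.1 ((h.isConj_z (h.mem_Z.2 (cent_R k (k3 b1) (k3 b3)
      (k3 (i := true) (by decide +kernel)) (k3 (i := true) (by decide +kernel)))) h3).symm.trans hv)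
    have h4 := (inferInstance : (centralizer (L : Set G)).Normal).conj_mem _ hg x
      _ (hL.conj_mem _ (k2 b1) (ψ u0))
    rw [e, ← map_inv, ← map_mul, ← map_mul, h.comm_iff, b6, mul_assoc c, eq_comm, mul_eq_right] at h4
    obtain ⟨⟨-, a1, -, a2, a3⟩, -⟩ := basic false false
    simp only [List.mem_cons, List.not_mem_nil, or_false] at b5
    rcases b5 with rfl | rfl | rfl
    exacts [a1 h4, a2 h4, a3 h4]
  have : Nontrivial L := ⟨⟨⟨_, zL⟩, 1, fun e => h.z_ne (congrArg Subtype.val e)⟩⟩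
  have hz : center L = ⊥ := eq_bot_iff.2 fun x hx => Subtype.ext (mem_bot.1 (hc.le fun y hy =>
    congrArg Subtype.val (mem_center_iff.1 hx ⟨y, hy⟩)))
  obtain ⟨e⟩ := equiv_of_center (psl_isSimpleGroup (by simp)) hz _
    (N.subtype.comp φ).rangeRestrict_surjective
  obtain ⟨c1, c2⟩ := CIT.App.l34_data (G := L) ⟨GF4, inferInstance, inferInstance, card_GF4, ⟨e⟩⟩
  obtain ⟨e'⟩ := CIT.App.nonempty_psl_equiv 3 (card_GF4.trans hF.symm)
  replace e := e.trans e'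
  have c3 : Cx (ψ z0) ⊓ L ≤ RM.map ψ := fun g hg => by
    obtain ⟨k, rfl⟩ := h.mem_Cx.1 hg.1
    obtain ⟨x, hx⟩ := hg.2
    refine h.mem_map.2 ((BM_ord k ((h.mem k).1 (hx ▸ (φ x).2))).resolve_right fun h3 => ?_)
    have h4 : ψ (k * k * (k * k)) ∈ L := by
      simp only [map_mul]
      exact mul_mem (mul_mem hg.2 hg.2) (mul_mem hg.2 hg.2)
    have : Fact (Nat.Prime 3) := ⟨Nat.prime_three⟩
    have h5 := orderOf_eq_prime h3.2 h3.1
    generalize k * k * (k * k) = d at h4 h5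
    refine absurd ((c2 6).1 ⟨⟨_, mul_mem h4 zL⟩, ?_⟩) (by decide)
    have h6 := h.ord (basic _ _).1.1 (basic _ _).1.2.1
    rw [← orderOf_injective ψ h.inj] at h5
    rw [orderOf_mk, Commute.orderOf_mul_eq_mul_orderOf_of_coprime ((h.cent _).2 ⟨d, rfl⟩)
      (by rw [h5, h6]; decide), h5, h6]
  have c4 := Core.card_sup_mul_card_inf_of_normal (Cx (ψ z0)) L
  have c5 := card_le_of_le c3
  have c6 := card_le_card_group (Cx (ψ z0) ⊔ L)
  have c7 := Cfsg.Agent.S0813.result (F := F) 2 2 one_le_two hF 3 (by decide) (by decide)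
  rw [pgl_card_eq_sl_card, sl3_card, hF, ← Nat.card_congr (MulAut.congr e).toEquiv] at c7
  rw [h.card_map, card_RM] at c5
  rw [h.card_Cx, c1] at c4
  have : Finite (MulAut L) := Finite.of_injective _ (DFunLike.coe_injective (F := L ≃* L))
  have c8 := (conjNormal_injective hc).bijective_of_nat_card_le (by rw [c7]; norm_num; nlinarith)
  have := psl_isSimpleGroup (ι := Fin 3) (F := F) (by simp)
  have := ClAut.range_pslConj_normal (ι := Fin 3) (F := F)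
  have : Finite (Matrix.ProjectiveSpecialLinearGroup (Fin 3) F) := Finite.of_equiv _ e.toEquiv
  obtain ⟨e2⟩ := mulAut_equiv_of_normal (eq_bot_iff.2 fun x hx => by
      obtain ⟨x, rfl⟩ := e.surjective x
      rw [mem_bot, map_eq_one_iff _ e.injective, ← mem_bot, ← hz, mem_center_iff]
      exact fun y => e.injective (by simpa using mem_center_iff.1 hx (e y)))
    (ClAut.pslConj (Fin 3) F).range (by
      rintro _ ⟨s, rfl⟩
      obtain ⟨s, rfl⟩ := QuotientGroup.mk_surjective s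
      exact ⟨_, ClAut.pslConj_slGL s⟩)
  exact ⟨(((MulEquiv.ofBijective _ c8).trans (MulAut.congr e)).trans e2).trans (MulAut.congr
    ((QuotientGroup.quotientKerEquivRange _).symm.trans
      (QuotientGroup.quotientMulEquivOfEq ClAut.ker_pslConj)))⟩

end ND

theorem HD.main {α β : Bool} {ψ : HM α β →* G} (h : HD ψ) (hG : ¬ Group.IsSolvable G)
    {F : Type*} [Field F] [Fintype F] (hF : Fintype.card F = 4) :
    Nonempty (G ≃* MulAut (GL (Fin 3) F ⧸ center (GL (Fin 3) F))) := by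
  obtain ⟨rfl, rfl⟩ := h.split (h.isConj_t hG)
  obtain ⟨N, hN⟩ := h.exists_ND (h.isConj_t hG)
  exact hN.main (by_contra fun hv => hG (hN.solvable hv)) hF

end CfsgLib.W2.L34
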