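import Mathlib
import Cfsg.Agent.Lib.W2.L34Hom
import Cfsg.Agent.Lib.ExtraTwo.Classify

/-!
A group `2^(1+4)_- . S₄` with self-centralising extraspecial subgroup is one of the four models.
-/

set_option autoImplicit false

namespace CfsgLib.W2.L34

open Subgroup CfsgLib.ExtraTwo

variable {H : Type*} [Group H]

theorem em_es : ES (⊤ : Subgroup EM) (EM.o 16) where
  ne_one := by decide +kernel
  mul_self := by decide +kernel
  mem := trivial
  comm_z x _ := (z_comm x).symm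
  center x _ h := (by decide +kernel : ∀ x : EM, (∀ q, q * x = x * q) → x = 1 ∨ x = EM.o 16) x
    fun q => h q trivial
  comm x _ y _ := (by decide +kernel : ∀ x y : EM, x * y = y * x ∨ x * y = EM.o 16 * (y * x)) x y
  nonab := ⟨EM.o 1, trivial, EM.o 2, trivial, by decide +kernel⟩

theorem em_minus : MinusType (⊤ : Subgroup EM) (EM.o 16) 1 := by
  refine (em_es.plus_or_minus (n := 2) (by rw [card_top, EM.card_eq]; rfl)).2.resolve_left fun h => ?_
  have h1 := h.card_sq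
  rw [Nat.card_congr (Equiv.subtypeEquivRight (q := fun x : EM => x * x = 1) fun x => by
    simp [sq]), Nat.card_eq_fintype_card, Fintype.card_subtype] at h1
  exact absurd h1 (by decide +kernel)

theorem em_inj {f : EM →* H} (h : f (EM.o 16) ≠ 1) : Function.Injective f := by
  rw [injective_iff_map_eq_one]
  intro x hx
  rcases (by decide +kernel : ∀ x : EM, x = 1 ∨ x = EM.o 16 ∨
    ∃ y, x * y * x⁻¹ * y⁻¹ = EM.o 16) x with e | rfl | ⟨y, e⟩
  · exact e
  · exact absurd hx h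
  · exact absurd (by rw [← e]; simp [hx]) h

/-- The five singular points. -/
def tau (i : Fin 5) : EM := EM.o ([1, 2, 4, 8, 15].getD i 0)

/-- The involutions of `S₅` and the identity. -/
def invs (n : Fin 26) (i : Fin 5) : Fin 5 := Fin.ofNat 5 (Nat.mod (Nat.shiftRight
  0x14e065409981a30851c0534217022cb11421a70151829380c4c171031a04a7016a046310a61c2846504e111321c444688
  (Nat.mul 3 (Nat.add (Nat.mul 5 n) i))) 8)

theorem exists_invs {p : Fin 5 → Fin 5} (h : ∀ i, p (p i) = i) : ∃ n, p = invs n := by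
  have e : p = ![p 0, p 1, p 2, p 3, p 4] := by ext i; fin_cases i <;> rfl
  obtain ⟨n, hn⟩ := (by decide +kernel : ∀ a b c d e : Fin 5,
    (∀ i, ![a, b, c, d, e] (![a, b, c, d, e] i) = i) → ∃ n, ∀ i, ![a, b, c, d, e] i = invs n i)
    (p 0) (p 1) (p 2) (p 3) (p 4) (by rw [← e]; exact h)
  exact ⟨n, e.trans (funext hn)⟩

theorem exists_label {p q r : Fin 5 → Fin 5} (hp : ∀ i, p (p i) = i) (hq : ∀ i, q (q i) = i)
    (hr : ∀ i, r (r i) = i) (h1 : ∀ i, p (r (p (r i))) = i) (h2 : ¬ ∀ i, p (r i) = i)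
    (h3 : ∀ i, p (q (p (q (p (q i))))) = i) (h4 : ∀ i, q (r (q (r (q (r i))))) = i) :
    ∃ i j k l, (i ≠ j ∧ i ≠ k ∧ i ≠ l ∧ j ≠ k ∧ j ≠ l ∧ k ≠ l) ∧
      (p i = j ∧ p j = i ∧ p k = k ∧ p l = l) ∧ (q i = i ∧ q j = k ∧ q k = j ∧ q l = l) ∧
      r i = i ∧ r j = j ∧ r k = l ∧ r l = k := by
  obtain ⟨a, rfl⟩ := exists_invs hp
  obtain ⟨b, rfl⟩ := exists_invs hq
  obtain ⟨c, rfl⟩ := exists_invs hr
  have := (by decide +kernel : ∀ a c, (∀ i, invs a (invs c (invs a (invs c i))) = i) →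
    (¬ ∀ i, invs a (invs c i) = i) → ∀ b,
    (∀ i, invs a (invs b (invs a (invs b (invs a (invs b i))))) = i) →
    (∀ i, invs b (invs c (invs b (invs c (invs b (invs c i))))) = i) →
    ∃ i, invs b i = i ∧ invs c i = i ∧ i ≠ invs a i ∧ invs c (invs a i) = invs a i ∧
      i ≠ invs b (invs a i) ∧ invs a i ≠ invs b (invs a i) ∧
      invs a (invs b (invs a i)) = invs b (invs a i) ∧
      i ≠ invs c (invs b (invs a i)) ∧ invs a i ≠ invs c (invs b (invs a i)) ∧
      invs b (invs a i) ≠ invs c (invs b (invs a i)) ∧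
      invs a (invs c (invs b (invs a i))) = invs c (invs b (invs a i)) ∧
      invs b (invs c (invs b (invs a i))) = invs c (invs b (invs a i))) a c h1 h2 b h3 h4
  obtain ⟨i, k1, k2, k3, k4, k5, k6, k7, k8, k9, k10, k11, k12⟩ := this
  exact ⟨i, _, _, _, ⟨k3, k5, k8, k6, k9, k10⟩, ⟨rfl, hp _, k7, k11⟩, ⟨k1, rfl, hq _, k12⟩, k2, k4,
    rfl, hr _⟩

/-- `g` acts on the image of `f` as `s`. -/
def Ac (f : EM →* H) (s : SM) (g : H) : Prop := ∀ e, g * f e = f (act s e) * g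

theorem Ac.mul {f : EM →* H} {s t : SM} {g h : H} (a : Ac f s g) (b : Ac f t h) :
    Ac f (s * t) (g * h) := fun e => by rw [mul_assoc, b, ← mul_assoc, a, mul_act, mul_assoc]

theorem exists_ac {f : EM →* H} {z g : H} (hz : f (EM.o 16) = z) (hg : g * z = z * g) (s : SM)
    (h : ∀ e ∈ [EM.o 1, EM.o 2, EM.o 4, EM.o 8],
      g * f e * g⁻¹ = f (act s e) ∨ g * f e * g⁻¹ = f (act s e) * z) :
    ∃ u, Ac f s (f u * g) := by
  have h1 : ∀ e ∈ [EM.o 1, EM.o 2, EM.o 4, EM.o 8], ∃ b : Bool,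
      g * f e * g⁻¹ = f (act s e * cond b (EM.o 16) 1) := fun e he => by
    rcases h e he with h | h
    · exact ⟨false, by simpa using h⟩
    · exact ⟨true, by simpa [hz] using h⟩
  obtain ⟨b1, e1⟩ := h1 (EM.o 1) (by simp)
  obtain ⟨b2, e2⟩ := h1 (EM.o 2) (by simp)
  obtain ⟨b3, e3⟩ := h1 (EM.o 4) (by simp)
  obtain ⟨b4, e4⟩ := h1 (EM.o 8) (by simp)
  obtain ⟨u, k1, k2, k3, k4⟩ := (by decide +kernel : ∀ (s : SM) (b1 b2 b3 b4 : Bool), ∃ u : EM,
    u * (act s (EM.o 1) * cond b1 (EM.o 16) 1) * u⁻¹ = act s (EM.o 1) ∧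
    u * (act s (EM.o 2) * cond b2 (EM.o 16) 1) * u⁻¹ = act s (EM.o 2) ∧
    u * (act s (EM.o 4) * cond b3 (EM.o 16) 1) * u⁻¹ = act s (EM.o 4) ∧
    u * (act s (EM.o 8) * cond b4 (EM.o 16) 1) * u⁻¹ = act s (EM.o 8)) s b1 b2 b3 b4
  have key : ∀ {e x y}, g * f e * g⁻¹ = f x → u * x * u⁻¹ = y →
      f u * g * f e * (f u * g)⁻¹ = f y := fun e1 e2 => by
    rw [← e2, map_mul, map_mul, map_inv, ← e1]; group
  refine ⟨u, fun e => mul_inv_eq_iff_eq_mul.1 (em_ext (f := (MulAut.conj (f u * g)).toMonoidHom.comp f)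
    (g := f.comp (MonoidHom.mk' (act s) (act_mul s))) ?_ (key e1 k1) (key e2 k2) (key e3 k3)
    (key e4 k4) e)⟩
  exact key (x := EM.o 16) (by rw [hz, hg, mul_inv_cancel_right])
    (by rw [← z_comm, mul_inv_cancel_right]; exact (act_z s).symm)

theorem exists_relS {f : EM →* H} (hz : ∀ g : H, g * f (EM.o 16) = f (EM.o 16) * g)
    (hC : ∀ g, Ac f 1 g → g = 1 ∨ g = f (EM.o 16)) {a b c : H} (ha : Ac f (SM.o 1) a)
    (hb : Ac f (SM.o 2) b) (hc : Ac f (SM.o 6) c) : ∃ α β a b c, RelS α β f a b c := by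
  have zz : f (EM.o 16) * f (EM.o 16) = 1 := by
    rw [← map_mul, show EM.o 16 * EM.o 16 = 1 by decide +kernel, map_one]
  have az : Ac f 1 (f (EM.o 16)) := fun e => by rw [one_act, hz]
  have hC' : ∀ {s g}, Ac f s g → s = 1 → ∃ e : Bool, g = cond e (f (EM.o 16)) 1 := by
    rintro _ g h rfl
    exact (hC g h).elim (fun e => ⟨false, e⟩) fun e => ⟨true, e⟩
  generalize e0 : f (EM.o 16) = z at *
  have k : ∀ x w, x * (z * w) = z * (x * w) := fun x w => by rw [← mul_assoc, hz, mul_assoc]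
  have k2 : ∀ w, z * (z * w) = w := fun w => by rw [← mul_assoc, zz, one_mul]
  have fix : ∀ {s t a b}, Ac f s a → Ac f t b → s * t * (s * t) * (s * t) = 1 →
      ∃ b, Ac f t b ∧ a * b * (a * b) * (a * b) = 1 := fun {s t a b} ha hb e => by
    rcases hC _ (e ▸ ((ha.mul hb).mul (ha.mul hb)).mul (ha.mul hb)) with h | h
    · exact ⟨b, hb, h⟩
    · refine ⟨z * b, one_mul t ▸ az.mul hb, ?_⟩
      simp only [mul_assoc] at h
      simp only [mul_assoc, k _ (b * _), k a b, k b, k2, h, zz]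
  have br : ∀ {a b : H} {α α' : Bool}, a * a = cond α z 1 → b * b = cond α' z 1 →
      a * b * (a * b) * (a * b) = 1 →
      b * b = cond α z 1 ∧ b * (a * b) = cond α z 1 * (a * (b * a)) := fun {a b α α'} aa bb e => by
    have c1 : ∀ (α : Bool) x, x * cond α z 1 = cond α z 1 * x := fun α x => by
      cases α <;> simp [hz]
    have c2 : ∀ α : Bool, cond α z 1 * cond α z 1 = 1 := fun α => by cases α <;> simp [zz]
    have sq : ∀ {a b : H} {α α' : Bool}, a * a = cond α z 1 → b * b = cond α' z 1 →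
        a * (b * a) * (a * (b * a)) = cond α' z 1 := fun {a b α α'} aa bb => by
      calc _ = a * (b * (a * a) * b) * a := by group
        _ = a * (cond α z 1 * cond α' z 1) * a := by rw [aa, c1 α b, mul_assoc _ b, bb]
        _ = cond α z 1 * (a * a) * cond α' z 1 := by
          rw [← mul_assoc a, c1 α a, mul_assoc, ← c1 α' a]; group
        _ = _ := by rw [aa, c2, one_mul]
    have h1 : b * (a * b) = (a * (b * a))⁻¹ := eq_inv_of_mul_eq_one_right (by rw [← e]; group)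
    have h2 := sq bb aa
    rw [h1, ← mul_inv_rev, sq aa bb, inv_eq_of_mul_eq_one_right (c2 α')] at h2
    refine ⟨bb.trans h2, ?_⟩
    rw [h1, inv_eq_iff_mul_eq_one, ← c1, ← mul_assoc, sq aa bb, h2, c2]
  obtain ⟨b, hb, ab⟩ := fix ha hb (by decide +kernel)
  obtain ⟨c, hc, bc⟩ := fix hb hc (by decide +kernel)
  obtain ⟨α, aa⟩ := hC' (ha.mul ha) (by decide +kernel)
  obtain ⟨α', bb⟩ := hC' (hb.mul hb) (by decide +kernel)
  obtain ⟨α'', cc⟩ := hC' (hc.mul hc) (by decide +kernel)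
  obtain ⟨β, ac⟩ := hC' ((ha.mul hc).mul (ha.mul hc)) (by decide +kernel)
  obtain ⟨bb, ab⟩ := br aa bb ab
  obtain ⟨cc, bc⟩ := br bb cc bc
  refine ⟨α, β, a, b, c, ha, hb, hc, e0 ▸ aa, e0 ▸ bb, e0 ▸ cc, e0 ▸ ab, e0 ▸ bc, ?_⟩
  have h1 : c * a = a⁻¹ * cond β z 1 * c⁻¹ := by rw [← ac]; group
  have h2 : ∀ {a : H}, a * a = cond α z 1 → a⁻¹ = cond α z 1 * a := fun {a} e => by
    rw [inv_eq_iff_mul_eq_one, ← e]
    cases α
    · simpa [mul_assoc] using congrArg₂ (· * ·) e e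
    · simpa [mul_assoc, zz] using congrArg₂ (· * ·) e e
  rw [h1, h2 aa, h2 cc, e0]
  cases α <;> cases β <;> simp [mul_assoc, k a, k2]

/-- The central involution of the model. -/
def z0 {α β : Bool} : HM α β := HM.m 0 16

theorem exists_model [Finite H] {E : Subgroup H} [hn : E.Normal] {z : H} (hE : ES E z)
    (hz : ∀ g : H, g * z = z * g) (h32 : Nat.card E = 32) (hm : MinusType E z 1)
    (hC : centralizer (E : Set H) ≤ E) (e : H ⧸ E ≃* Equiv.Perm (Fin 4)) :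
    ∃ α β, ∃ ψ : HM α β →* H, Function.Bijective ψ ∧ ψ z0 = z := by
  obtain ⟨ε⟩ := em_minus.nonempty_mulEquiv hm
  let f0 : EM →* H := E.subtype.comp (ε.toMonoidHom.comp topEquiv.symm.toMonoidHom)
  have i0 : Function.Injective f0 := E.subtype_injective.comp (ε.injective.comp topEquiv.symm.injective)
  have m0 : ∀ x, f0 x ∈ E := fun x => (ε _).2
  have rg : ∀ {f : EM →* H}, Function.Injective f → (∀ x, f x ∈ E) → ∀ y ∈ E, ∃ x, f x = y :=
    fun {f} h1 h2 y hy => by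
      have : f.range = E := eq_of_le_of_card_ge (by rintro _ ⟨x, rfl⟩; exact h2 x) (by
        rw [h32, ← EM.card_eq]
        exact (Nat.card_congr (MonoidHom.ofInjective h1).toEquiv).le)
      exact (this ▸ hy : y ∈ f.range)
  have z0' : f0 (EM.o 16) = z := hE.eq_of_comm (fun h => em_es.ne_one (i0 (h.trans (map_one _).symm)))
    (m0 _) fun q hq => by
      obtain ⟨x, rfl⟩ := rg i0 m0 q hq
      rw [← map_mul, ← map_mul, z_comm]
  clear_value f0
  let Mv : H → Fin 5 → Fin 5 → Prop := fun h i j =>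
    h * f0 (tau i) * h⁻¹ = f0 (tau j) ∨ h * f0 (tau i) * h⁻¹ = f0 (tau j) * z
  have ex : ∀ h i, ∃ j, Mv h i j := fun h i => by
    obtain ⟨x, hx⟩ := rg i0 m0 _ (hn.conj_mem _ (m0 (tau i)) h)
    obtain ⟨t1, t2, t3⟩ := (by decide +kernel : ∀ i, tau i * tau i = 1 ∧ tau i ≠ 1 ∧
      tau i ≠ EM.o 16) i
    obtain ⟨j, hj⟩ := (by decide +kernel : ∀ x : EM, x * x = 1 → x ≠ 1 → x ≠ EM.o 16 →
      ∃ j, x = tau j ∨ x = tau j * EM.o 16) x
      (i0 (by rw [map_mul, hx, conj_mul, ← map_mul, t1]; simp))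
      (by rintro rfl; exact t2 (i0 (by simpa using hx.symm)))
      (by
        rintro rfl
        rw [z0', eq_mul_inv_iff_mul_eq, ← hz, mul_left_cancel_iff, ← z0'] at hx
        exact t3 (i0 hx.symm))
    exact ⟨j, hj.imp (fun e => by rw [← hx, e]) fun e => by rw [← hx, e, map_mul, z0']⟩
  have un : ∀ {h i j k}, Mv h i j → Mv h i k → j = k := fun {h i j k} h1 h2 => by
    simp only [Mv, ← z0', ← map_mul] at h1 h2
    refine (by decide +kernel : ∀ j k, tau j = tau k ∨ tau j = tau k * EM.o 16 ∨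
      tau j * EM.o 16 = tau k ∨ tau j * EM.o 16 = tau k * EM.o 16 → j = k) j k ?_
    rcases h1 with h1 | h1 <;> rcases h2 with h2 | h2 <;> simp [i0 (h1.symm.trans h2)]
  have mu : ∀ {g h i j k}, Mv g j k → Mv h i j → Mv (g * h) i k := fun {g h i j k} h1 h2 => by
    have h3 : g * h * f0 (tau i) * (g * h)⁻¹ = g * (h * f0 (tau i) * h⁻¹) * g⁻¹ := by group
    have h4 : ∀ x, g * (x * z) * g⁻¹ = g * x * g⁻¹ * z := fun x => by
      rw [mul_assoc, mul_assoc, ← hz]; group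
    simp only [Mv, h3]
    rcases h2 with h2 | h2 <;> rcases h1 with h1 | h1 <;> simp [h2, h4, h1, hE.zz']
  choose π hπ using ex
  have πm : ∀ g h i, π (g * h) i = π g (π h i) := fun g h i => un (hπ _ _) (mu (hπ _ _) (hπ _ _))
  let ρ : H →* Equiv.Perm (Fin 4) := e.toMonoidHom.comp (QuotientGroup.mk' E)
  have ρs : Function.Surjective ρ := e.surjective.comp (QuotientGroup.mk'_surjective E)
  have ρk : ∀ h, ρ h = 1 ↔ ∀ i, π h i = i := fun h => by
    rw [show ρ h = 1 ↔ h ∈ E from (map_eq_one_iff e e.injective).trans (QuotientGroup.eq_one_iff h)]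
    refine ⟨fun hh i => un (hπ _ _) (hE.conj (m0 _) hh), fun hh => hE.mem_of_conj hC fun x hx => ?_⟩
    obtain ⟨x, rfl⟩ := rg i0 m0 x hx
    have h1 : ∀ i, Mv h i i := fun i => by simpa only [hh i] using hπ h i
    clear hx
    induction em_gen x using Submonoid.closure_induction with
    | mem x hx =>
      rcases hx with rfl | rfl | rfl | rfl | rfl
      exacts [Or.inl (by rw [z0', hz, mul_inv_cancel_right]), h1 0, h1 1, h1 2, h1 3]
    | one => simp
    | mul x y _ _ ih ih' =>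
      rw [map_mul, ← conj_mul]
      rcases ih with e1 | e1 <;> rcases ih' with e2 | e2 <;> rw [e1, e2]
      · exact Or.inl rfl
      · exact Or.inr (mul_assoc _ _ _).symm
      · exact Or.inr (by rw [mul_assoc, ← hz, mul_assoc])
      · exact Or.inl (by rw [mul_assoc, hz, hE.zz])
  obtain ⟨a, ha⟩ := ρs (Equiv.swap 0 1)
  obtain ⟨b, hb⟩ := ρs (Equiv.swap 1 2)
  obtain ⟨c, hc⟩ := ρs (Equiv.swap 2 3)
  obtain ⟨i, j, k, l, hd, ⟨a1, a2, a3, a4⟩, ⟨b1, b2, b3, b4⟩, c1, c2, c3, c4⟩ :=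
    exists_label (p := π a) (q := π b) (r := π c)
    (by simp only [← πm, ← ρk, map_mul, ha]; decide) (by simp only [← πm, ← ρk, map_mul, hb]; decide)
    (by simp only [← πm, ← ρk, map_mul, hc]; decide)
    (by simp only [← πm, ← ρk, map_mul, ha, hc]; decide)
    (by simp only [← πm, ← ρk, map_mul, ha, hc]; decide)
    (by simp only [← πm, ← ρk, map_mul, ha, hb]; decide)
    (by simp only [← πm, ← ρk, map_mul, hb, hc]; decide)
  have t1 : ∀ i, f0 (tau i) * f0 (tau i) = 1 := fun i => by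
    rw [← map_mul, (by decide +kernel : ∀ i, tau i * tau i = 1), map_one]
  have t2 : ∀ {i j}, i ≠ j → f0 (tau j) * f0 (tau i) = z * (f0 (tau i) * f0 (tau j)) :=
    fun {i j} h => by
      rw [← z0', ← map_mul, ← map_mul, ← map_mul, (by decide +kernel : ∀ i j, i ≠ j →
        tau j * tau i = EM.o 16 * (tau i * tau j)) i j h]
  obtain ⟨f, f1, f2, f3, f4, f5⟩ := RelE.exists_hom ⟨hE.mul_self, t1 i, t1 j, t1 k, t1 l, hz _, hz _,
    hz _, hz _, t2 hd.1, t2 hd.2.1, t2 hd.2.2.1, t2 hd.2.2.2.1, t2 hd.2.2.2.2.1, t2 hd.2.2.2.2.2⟩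
  have fi : Function.Injective f := em_inj (f1 ▸ hE.ne_one)
  have fm : ∀ x, f x ∈ E := fun x => by
    induction em_gen x using Submonoid.closure_induction with
    | mem x hx =>
      rcases hx with rfl | rfl | rfl | rfl | rfl
      exacts [f1 ▸ hE.mem, f2 ▸ m0 _, f3 ▸ m0 _, f4 ▸ m0 _, f5 ▸ m0 _]
    | one => simp
    | mul x y _ _ ih ih' => exact map_mul f x y ▸ mul_mem ih ih'
  obtain ⟨u, hu⟩ := exists_ac f1 (hz a) (SM.o 1) (by
    have := And.intro (a1 ▸ hπ a i) (And.intro (a2 ▸ hπ a j) (And.intro (a3 ▸ hπ a k) (a4 ▸ hπ a l)))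
    simpa [Mv, show act (SM.o 1) (EM.o 1) = EM.o 2 from rfl, show act (SM.o 1) (EM.o 2) = EM.o 1 from rfl,
      show act (SM.o 1) (EM.o 4) = EM.o 4 from rfl, show act (SM.o 1) (EM.o 8) = EM.o 8 from rfl,
      f2, f3, f4, f5] using this)
  obtain ⟨v, hv⟩ := exists_ac f1 (hz b) (SM.o 2) (by
    have := And.intro (b1 ▸ hπ b i) (And.intro (b2 ▸ hπ b j) (And.intro (b3 ▸ hπ b k) (b4 ▸ hπ b l)))
    simpa [Mv, show act (SM.o 2) (EM.o 1) = EM.o 1 from rfl, show act (SM.o 2) (EM.o 2) = EM.o 4 from rfl,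
      show act (SM.o 2) (EM.o 4) = EM.o 2 from rfl, show act (SM.o 2) (EM.o 8) = EM.o 8 from rfl,
      f2, f3, f4, f5] using this)
  obtain ⟨w, hw⟩ := exists_ac f1 (hz c) (SM.o 6) (by
    have := And.intro (c1 ▸ hπ c i) (And.intro (c2 ▸ hπ c j) (And.intro (c3 ▸ hπ c k) (c4 ▸ hπ c l)))
    simpa [Mv, show act (SM.o 6) (EM.o 1) = EM.o 1 from rfl, show act (SM.o 6) (EM.o 2) = EM.o 2 from rfl,
      show act (SM.o 6) (EM.o 4) = EM.o 8 from rfl, show act (SM.o 6) (EM.o 8) = EM.o 4 from rfl,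
      f2, f3, f4, f5] using this)
  obtain ⟨α, β, a, b, c, hr⟩ := exists_relS (f := f) (f1 ▸ hz) (fun g hg => by
    have h1 : ∀ q ∈ E, q * g = g * q := fun q hq => by
      obtain ⟨x, rfl⟩ := rg fi fm q hq
      rw [hg, one_act]
    exact f1 ▸ hE.center g (hC h1) h1) hu hv hw
  obtain ⟨ψ, hψ⟩ := hr.exists_hom
  have ψi : Function.Injective ψ := by
    rw [injective_iff_map_eq_one]
    intro x hx
    have h1 : ∀ e, x.e * act x.s e * x.e⁻¹ = e := fun e => fi (by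
      have := congrArg ψ ((by decide +kernel : ∀ (α β : Bool) (s : SM) (e : EM),
        (⟨s, 1⟩ : HM α β) * ⟨1, e⟩ = ⟨1, act s e⟩ * ⟨s, 1⟩) α β x.s e)
      have h2 : ψ ⟨x.s, 1⟩ = (f x.e)⁻¹ := by
        rw [eq_inv_iff_mul_eq_one, mul_eq_one_comm, ← hψ, ← map_mul, ← hx, HM.mk_mul]
        simp [coc_one, one_act]
      rw [map_mul, map_mul, h2, hψ, hψ] at this
      rw [map_mul, map_mul, map_inv, mul_assoc, ← this, mul_inv_cancel_left])
    obtain ⟨s, e⟩ := x
    obtain rfl := (by decide +kernel : ∀ (s : SM) (x : EM), x * act s (EM.o 1) * x⁻¹ = EM.o 1 →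
      x * act s (EM.o 2) * x⁻¹ = EM.o 2 → x * act s (EM.o 4) * x⁻¹ = EM.o 4 → s = 1) s e
      (h1 _) (h1 _) (h1 _)
    rw [hψ, map_eq_one_iff _ fi] at hx
    rw [hx, HM.one_def]
  refine ⟨α, β, ψ, ψi.bijective_of_nat_card_le ?_, (hψ _).trans f1⟩
  rw [HM.card_eq, card_eq_card_quotient_mul_card_subgroup E, h32, Nat.card_congr e.toEquiv]
  simp [Fintype.card_perm, Nat.factorial]

/-- The model is the centraliser of its central involution. -/
structure HD {G : Type*} [Group G] {α β : Bool} (ψ : HM α β →* G) : Prop where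
  inj : Function.Injective ψ
  cent : ∀ g, g * ψ z0 = ψ z0 * g ↔ ∃ k, ψ k = g

theorem exists_HD {G : Type*} [Group G] [Finite G] {z : G} (hz : orderOf z = 2)
    (E : Subgroup (centralizer ({z} : Set G))) [E.Normal] (hE : Cfsg.IsExtraspecial 2 E)
    (h32 : Nat.card E = 32)
    (hm : ∀ A : Subgroup E, Cfsg.IsElementaryAbelian 2 A → Nat.card A ≠ 8)
    (hC : centralizer (E : Set (centralizer ({z} : Set G))) ≤ E)
    (e : centralizer ({z} : Set G) ⧸ E ≃* Equiv.Perm (Fin 4)) :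
    ∃ α β, ∃ ψ : HM α β →* G, HD ψ ∧ ψ z0 = z := by
  let z' : centralizer ({z} : Set G) := ⟨z, mem_centralizer_singleton_iff.2 rfl⟩
  have h1 : ∀ g, g * z' = z' * g := fun g => Subtype.ext (mem_centralizer_singleton_iff.1 g.2)
  have h2 : ES E z' := es_of_comm hE (fun e => ne_one_of_orderOf hz (congrArg Subtype.val e))
    (hC fun g _ => h1 g) fun g _ => h1 g
  obtain ⟨α, β, ψ, hb, h3⟩ := exists_model h2 h1 h32 (h2.minusType_of_forall (n := 2) h32
    fun A hA h4 => by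
      rw [← Nat.card_congr (subgroupOfEquivOfLe hA).toEquiv]
      exact hm _ ⟨⟨⟨fun a b => Subtype.ext (Subtype.ext (by
        exact congrArg (Subtype.val (p := (· ∈ A)))
          (h4.1.is_comm.comm (⟨_, a.2⟩ : A) ⟨_, b.2⟩)))⟩⟩, fun a ha => Subtype.ext (h4.2 _ ha)⟩) hC e
  have h4 : ((Subgroup.subtype _).comp ψ) z0 = z := congrArg Subtype.val h3
  refine ⟨α, β, (Subgroup.subtype _).comp ψ, ⟨(subtype_injective _).comp hb.1, fun g => ?_⟩, h4⟩
  rw [h4, ← mem_centralizer_singleton_iff]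
  refine ⟨fun hg => ?_, ?_⟩
  · obtain ⟨k, hk⟩ := hb.2 ⟨g, hg⟩
    exact ⟨k, congrArg Subtype.val hk⟩
  · rintro ⟨k, rfl⟩
    exact (ψ k).2

end CfsgLib.W2.L34
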